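import Mathlib.LinearAlgebra.Eigenspace.Zero
import Mathlib.LinearAlgebra.Matrix.ToLin
import Mathlib.FieldTheory.Finiteness

/-! Nilpotent endomorphisms with one-dimensional kernel (regular nilpotents). -/

set_option autoImplicit false

namespace H47.RegNilp

open Module LinearMap

variable {K V : Type*} [Field K] [AddCommGroup V] [Module K V] [FiniteDimensional K V]

theorem finrank_ker_pow_succ_le (N : V →ₗ[K] V) (k : ℕ) :
    finrank K (ker (N ^ (k + 1))) ≤ finrank K (ker (N ^ k)) + finrank K (ker N) := by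
  set U := ker (N ^ (k + 1)) with hU
  have h1 := LinearMap.finrank_range_add_finrank_ker (N.domRestrict U)
  have h2 : finrank K (range (N.domRestrict U)) ≤ finrank K (ker (N ^ k)) := by
    apply Submodule.finrank_mono
    rintro _ ⟨x, rfl⟩
    have hx : (N ^ (k + 1)) (x : V) = 0 := mem_ker.mp x.2
    rw [pow_succ] at hx
    rw [mem_ker]
    exact hx
  have h3 : finrank K (ker (N.domRestrict U)) ≤ finrank K (ker N) := by
    let f : ker (N.domRestrict U) →ₗ[K] ker N :=
      LinearMap.codRestrict (ker N) (U.subtype ∘ₗ (ker (N.domRestrict U)).subtype) (by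
        intro c
        have := c.2
        rw [mem_ker] at this
        rw [mem_ker]
        exact this)
    apply LinearMap.finrank_le_finrank_of_injective (f := f)
    intro x y hxy
    have h := congrArg Subtype.val hxy
    exact Subtype.ext (Subtype.ext h)
  omega

theorem finrank_ker_pow_add_le (N : V →ₗ[K] V) (h : finrank K (ker N) ≤ 1) (k j : ℕ) :
    finrank K (ker (N ^ (k + j))) ≤ finrank K (ker (N ^ k)) + j := by
  induction j with
  | zero => simp
  | succ j ih =>
    have := finrank_ker_pow_succ_le N (k + j)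
    rw [← add_assoc]
    omega

theorem finrank_ker_pow_le (N : V →ₗ[K] V) (h : finrank K (ker N) ≤ 1) (k : ℕ) :
    finrank K (ker (N ^ k)) ≤ k := by
  have := finrank_ker_pow_add_le N h 0 k
  have h0 : finrank K (ker (N ^ 0)) = 0 := by
    rw [pow_zero, Module.End.one_eq_id, LinearMap.ker_id, finrank_bot]
  rw [h0] at this
  have h1 : 0 + k = k := Nat.zero_add k
  rwa [h1] at this

theorem finrank_ker_pow_eq (N : V →ₗ[K] V) (h : finrank K (ker N) ≤ 1) (hn : N ^ (finrank K V) = 0)
    {k : ℕ} (hk : k ≤ finrank K V) : finrank K (ker (N ^ k)) = k := by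
  apply le_antisymm (finrank_ker_pow_le N h k)
  have h1 := finrank_ker_pow_add_le N h k (finrank K V - k)
  rw [Nat.add_sub_cancel' hk, hn, ker_zero, finrank_top] at h1
  omega

theorem invariant_eq_ker_pow (N : V →ₗ[K] V) (h : finrank K (ker N) ≤ 1) (hn : N ^ (finrank K V) = 0)
    (W : Submodule K V) (hW : ∀ v ∈ W, N v ∈ W) : W = ker (N ^ (finrank K W)) := by
  apply Submodule.eq_of_le_of_finrank_eq
  · set M : W →ₗ[K] W := N.restrict hW with hM
    have hpow : ∀ (k : ℕ) (x : W), ((M ^ k) x : V) = (N ^ k) x := by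
      intro k
      induction k with
      | zero => intro x; simp
      | succ k ih =>
        intro x
        rw [pow_succ, pow_succ, Module.End.mul_apply, Module.End.mul_apply, ih]
        rfl
    have hnil : IsNilpotent M := by
      refine ⟨finrank K V, ?_⟩
      ext x
      rw [hpow, hn]
      simp
    have h0 : M ^ (finrank K W) = 0 := by
      have := hnil.charpoly_eq_X_pow_finrank
      have h2 := LinearMap.aeval_self_charpoly M
      rw [this] at h2
      simpa using h2
    intro x hx
    rw [mem_ker]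
    have := hpow (finrank K W) ⟨x, hx⟩
    rw [h0] at this
    simpa using this.symm
  · exact (finrank_ker_pow_eq N h hn (Submodule.finrank_le W)).symm

theorem range_pow_eq_ker_pow (N : V →ₗ[K] V) (h : finrank K (ker N) ≤ 1) (hn : N ^ (finrank K V) = 0)
    {k : ℕ} (hk : k ≤ finrank K V) : range (N ^ (finrank K V - k)) = ker (N ^ k) := by
  apply Submodule.eq_of_le_of_finrank_eq
  · rintro _ ⟨x, rfl⟩
    rw [mem_ker, ← Module.End.mul_apply, ← pow_add, Nat.add_sub_cancel' hk, hn]
    simp
  · have h1 := LinearMap.finrank_range_add_finrank_ker (N ^ (finrank K V - k))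
    rw [finrank_ker_pow_eq N h hn (Nat.sub_le _ _)] at h1
    rw [finrank_ker_pow_eq N h hn hk]
    omega

/-- the commuting algebra evaluated at a vector outside `ker N^(n-1)`: injectivity -/
theorem mem_ker_of_invariant_ne_bot (N : V →ₗ[K] V) (h : finrank K (ker N) ≤ 1) (hn : N ^ (finrank K V) = 0)
    (W : Submodule K V) (hW : ∀ v ∈ W, N v ∈ W) (hne : W ≠ ⊥) : ker N ≤ W := by
  rw [invariant_eq_ker_pow N h hn W hW]
  have hpos : 0 < finrank K W := by
    rw [Nat.pos_iff_ne_zero]
    intro h0
    exact hne (Submodule.finrank_eq_zero.mp h0)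
  intro x hx
  rw [mem_ker] at hx ⊢
  obtain ⟨k, hk⟩ := Nat.exists_eq_succ_of_ne_zero hpos.ne'
  rw [hk, Nat.succ_eq_add_one, pow_succ, Module.End.mul_apply, hx, map_zero]

/-- endomorphisms commuting with `N` correspond to vectors -/
theorem commuting_eq_zero (N : V →ₗ[K] V) (h : finrank K (ker N) ≤ 1) (hn : N ^ (finrank K V) = 0)
    (v : V) (hv : (N ^ (finrank K V - 1)) v ≠ 0) (A : V →ₗ[K] V) (hA : ∀ x, A (N x) = N (A x)) (hAv : A v = 0) :
    A = 0 := by
  have hinv : ∀ x ∈ ker A, N x ∈ ker A := by
    intro x hx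
    rw [mem_ker] at hx ⊢
    rw [hA, hx, map_zero]
  have h1 := invariant_eq_ker_pow N h hn (ker A) hinv
  have h2 : finrank K (ker A) = finrank K V := by
    by_contra hne
    have hle : finrank K (ker A) ≤ finrank K V - 1 := by
      have := Submodule.finrank_le (ker A)
      omega
    have hv' : v ∈ ker A := hAv
    rw [h1, mem_ker] at hv'
    apply hv
    obtain ⟨j, hj⟩ := Nat.exists_eq_add_of_le hle
    rw [hj, add_comm, pow_add, Module.End.mul_apply, hv', map_zero]
  have h3 : ker A = ⊤ := Submodule.eq_top_of_finrank_eq h2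
  exact ker_eq_top.mp h3

omit [FiniteDimensional K V] in
theorem commuting_pow (N A : V →ₗ[K] V) (hA : ∀ x, A (N x) = N (A x)) (k : ℕ) (x : V) :
    A ((N ^ k) x) = (N ^ k) (A x) := by
  induction k generalizing x with
  | zero => simp
  | succ k ih => rw [pow_succ, Module.End.mul_apply, Module.End.mul_apply, ih, hA]

/-- every vector is the image of a cyclic vector under a map commuting with `N` -/
theorem exists_commuting (N : V →ₗ[K] V) (h : finrank K (ker N) ≤ 1) (hn : N ^ (finrank K V) = 0)
    (v : V) (hv : (N ^ (finrank K V - 1)) v ≠ 0) (w : V) :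
    ∃ A : V →ₗ[K] V, (∀ x, A (N x) = N (A x)) ∧ A v = w := by
  -- the span of the orbit of v
  let W : Submodule K V := Submodule.span K (Set.range fun i : ℕ => (N ^ i) v)
  have hW : ∀ x ∈ W, N x ∈ W := by
    intro x hx
    have : W.map N ≤ W := by
      rw [Submodule.map_span_le]
      rintro _ ⟨i, rfl⟩
      apply Submodule.subset_span
      exact ⟨i + 1, by simp only [pow_succ', Module.End.mul_apply]⟩
    exact this ⟨x, hx, rfl⟩
  have h1 := invariant_eq_ker_pow N h hn W hW
  have hvW : v ∈ W := Submodule.subset_span ⟨0, by simp⟩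
  have h2 : finrank K W = finrank K V := by
    by_contra hne
    have hle : finrank K W ≤ finrank K V - 1 := by
      have := Submodule.finrank_le W
      omega
    rw [h1, mem_ker] at hvW
    apply hv
    obtain ⟨j, hj⟩ := Nat.exists_eq_add_of_le hle
    rw [hj, add_comm, pow_add, Module.End.mul_apply, hvW, map_zero]
  have h3 : W = ⊤ := Submodule.eq_top_of_finrank_eq h2
  have hw : w ∈ W := by rw [h3]; trivial
  clear h1 h2 h3 hvW
  refine Submodule.span_induction (p := fun w _ => ∃ A : V →ₗ[K] V, (∀ x, A (N x) = N (A x)) ∧ A v = w) ?_ ?_ ?_ ?_ hw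
  · rintro _ ⟨i, rfl⟩
    refine ⟨N ^ i, fun x => ?_, rfl⟩
    rw [← Module.End.mul_apply, ← Module.End.mul_apply, ← pow_succ, ← pow_succ']
  · exact ⟨0, by simp, by simp⟩
  · rintro x y _ _ ⟨A, hA, rfl⟩ ⟨B, hB, rfl⟩
    exact ⟨A + B, fun x => by simp [hA, hB], by simp⟩
  · rintro c x _ ⟨A, hA, rfl⟩
    exact ⟨c • A, fun x => by simp [hA], by simp⟩

theorem commuting_injective_iff (N : V →ₗ[K] V) (h : finrank K (ker N) ≤ 1) (hn : N ^ (finrank K V) = 0)
    (hpos : 0 < finrank K V)
    (v : V) (hv : (N ^ (finrank K V - 1)) v ≠ 0) (A : V →ₗ[K] V) (hA : ∀ x, A (N x) = N (A x)) :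
    Function.Injective A ↔ (N ^ (finrank K V - 1)) (A v) ≠ 0 := by
  constructor
  · intro hinj h0
    rw [← commuting_pow N A hA] at h0
    exact hv (hinj (by rw [h0, map_zero]))
  · intro hne
    rw [← ker_eq_bot]
    by_contra hk
    have hinv : ∀ x ∈ ker A, N x ∈ ker A := by
      intro x hx
      rw [mem_ker] at hx ⊢
      rw [hA, hx, map_zero]
    have h1 := mem_ker_of_invariant_ne_bot N h hn (ker A) hinv hk
    apply hne
    rw [← commuting_pow N A hA, ← mem_ker]
    apply h1
    rw [mem_ker, ← Module.End.mul_apply, ← pow_succ', Nat.sub_add_cancel hpos, hn]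
    simp

theorem exists_cyclic (N : V →ₗ[K] V) (h : finrank K (ker N) ≤ 1) (hn : N ^ (finrank K V) = 0)
    (hpos : 0 < finrank K V) : ∃ v : V, (N ^ (finrank K V - 1)) v ≠ 0 := by
  by_contra hcon
  push Not at hcon
  have h1 : ker (N ^ (finrank K V - 1)) = ⊤ := by
    rw [ker_eq_top]
    exact LinearMap.ext hcon
  have h2 := finrank_ker_pow_eq N h hn (k := finrank K V - 1) (Nat.sub_le _ _)
  rw [h1, finrank_top] at h2
  omega

end H47.RegNilp
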