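import Cfsg.Agent.Lib.H22.RGDBasic

/-!
Iterated cores of two conjugate subgroups with a filtration.
-/

set_option autoImplicit false

namespace H47.CoreSeq

open H22.RGD

variable {G : Type*} [Group G]

/-- the core of `Y` in `M` -/
def core (M Y : Subgroup G) : Subgroup G := (Y.subgroupOf M).normalCore.map M.subtype

theorem mem_core {M Y : Subgroup G} {x : G} :
    x ∈ core M Y ↔ x ∈ M ∧ ∀ m ∈ M, m * x * m⁻¹ ∈ Y := by
  unfold core
  rw [Subgroup.mem_map]
  constructor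
  · rintro ⟨y, hy, rfl⟩
    refine ⟨y.2, fun m hm => ?_⟩
    exact hy ⟨m, hm⟩
  · rintro ⟨hx, h⟩
    exact ⟨⟨x, hx⟩, fun m => h m m.2, rfl⟩

theorem core_le (M Y : Subgroup G) : core M Y ≤ M := fun _ hx => (mem_core.1 hx).1

theorem core_le_right (M Y : Subgroup G) : core M Y ≤ Y := fun x hx => by
  have := (mem_core.1 hx).2 1 M.one_mem
  simpa using this

theorem stab_core (M Y : Subgroup G) : M ≤ stabSub (core M Y) := by
  apply le_stabSub_of_conj
  intro a ha x hx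
  rw [mem_core] at hx ⊢
  refine ⟨M.mul_mem (M.mul_mem ha hx.1) (M.inv_mem ha), fun m hm => ?_⟩
  have := hx.2 (m * a) (M.mul_mem hm ha)
  simpa [mul_assoc] using this

theorem core_eq {M Y K : Subgroup G} (h1 : K ≤ M) (h2 : M ≤ stabSub K) (h3 : K ≤ Y)
    (h4 : ∀ K' : Subgroup G, K' ≤ M → M ≤ stabSub K' → K' ≤ Y → K' ≤ K) : core M Y = K := by
  apply le_antisymm
  · exact h4 _ (core_le M Y) (stab_core M Y) (core_le_right M Y)
  · intro x hx
    rw [mem_core]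
    exact ⟨h1 hx, fun m hm => h3 (conj_mem_of_stabSub (h2 hm) hx)⟩

/-- a filtration adapted to the pair `M`, `n M n⁻¹`. -/
structure Dat (M : Subgroup G) (n : G) (U : ℕ → Subgroup G) : Prop where
  n_sq : n * n ∈ M
  le_M : ∀ i, 1 ≤ i → U i ≤ M
  stab : ∀ i, 1 ≤ i → M ≤ stabSub (U i)
  anti : ∀ i, 1 ≤ i → U (i + 1) ≤ U i
  b0 : U 2 ≤ cj n M
  b1 : ∀ i, 1 ≤ i → U (i + 1) ≤ cj n (U i)
  c : ∀ K : Subgroup G, K ≤ M → M ≤ stabSub K → K ≤ cj n M → K ≤ U 2
  d : ∀ i, 2 ≤ i → ∀ K : Subgroup G, K ≤ U i → M ≤ stabSub K → K ≤ cj n (U i) → K ≤ U (i + 1)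

theorem stab_cj {M K : Subgroup G} {n : G} (h : M ≤ stabSub K) : cj n M ≤ stabSub (cj n K) := by
  rintro _ ⟨m, hm, rfl⟩
  show cj (n * m * n⁻¹) (cj n K) = cj n K
  rw [cj_mul, cj_inv_cj, cj_mul]
  congr 1
  exact h hm

namespace Dat

variable {M : Subgroup G} {n : G} {U : ℕ → Subgroup G} (D : Dat M n U)

include D

theorem cj_inv_M : cj n⁻¹ M = cj n M := by
  rw [cj_inv_eq_iff, ← cj_mul]
  exact (cj_eq_self_of_mem D.n_sq).symm

theorem cj_inv_U {i : ℕ} (hi : 1 ≤ i) : cj n⁻¹ (U i) = cj n (U i) := by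
  rw [cj_inv_eq_iff, ← cj_mul]
  exact (D.stab i hi D.n_sq).symm

theorem cj_cj_M : cj n (cj n M) = M := by
  rw [← cj_mul]; exact cj_eq_self_of_mem D.n_sq

theorem cj_cj_U {i : ℕ} (hi : 1 ≤ i) : cj n (cj n (U i)) = U i := by
  rw [← cj_mul]; exact D.stab i hi D.n_sq

theorem core_zero : core M (M ⊓ cj n M) = U 2 :=
  core_eq (D.le_M 2 (by norm_num)) (D.stab 2 (by norm_num)) (le_inf (D.le_M 2 (by norm_num)) D.b0)
    fun K h1 h2 h3 => D.c K h1 h2 (h3.trans inf_le_right)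

theorem core_succ {i : ℕ} (hi : 2 ≤ i) : core M (U i ⊓ cj n (U i)) = U (i + 1) :=
  core_eq (D.le_M _ (by omega)) (D.stab _ (by omega)) (le_inf (D.anti i (by omega))
    (D.b1 i (by omega))) fun K _ h2 h3 => D.d i hi K (h3.trans inf_le_left) h2 (h3.trans inf_le_right)

omit D in
theorem cj_core (g : G) (M Y : Subgroup G) : cj g (core M Y) = core (cj g M) (cj g Y) := by
  ext x
  rw [mem_cj, mem_core, mem_core, mem_cj]
  refine and_congr Iff.rfl ?_
  constructor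
  · intro h m hm
    rw [mem_cj] at hm ⊢
    have := h _ hm
    simpa [mul_assoc] using this
  · intro h m hm
    have := h (g * m * g⁻¹) (conj_mem_cj hm)
    rw [mem_cj] at this
    simpa [mul_assoc] using this

theorem core_zero' : core (cj n M) (M ⊓ cj n M) = cj n (U 2) := by
  rw [← D.core_zero, cj_core, cj_inf, D.cj_cj_M, inf_comm]

theorem core_succ' {i : ℕ} (hi : 2 ≤ i) : core (cj n M) (U i ⊓ cj n (U i)) = cj n (U (i + 1)) := by
  rw [← D.core_succ hi, cj_core, cj_inf, D.cj_cj_U (by omega), inf_comm]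

/-- a subgroup normalised by `M` and `n`, contained in `M`, lies in all `U i`. -/
theorem le_of_stab {K : Subgroup G} (h1 : K ≤ M) (h2 : M ≤ stabSub K) (h3 : cj n K = K) :
    ∀ i, K ≤ U (i + 2) := by
  intro i
  induction i with
  | zero =>
    refine D.c K h1 h2 ?_
    rw [← h3]; exact cj_mono h1
  | succ i ih =>
    refine D.d (i + 2) (by omega) K ih h2 ?_
    rw [← h3]; exact cj_mono ih

theorem normalCore_eq_bot {k : ℕ} (h : U (k + 2) = ⊥) : M.normalCore = ⊥ := by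
  rw [eq_bot_iff, ← h]
  have hn := M.normalCore_normal
  have key : ∀ g : G, cj g M.normalCore = M.normalCore := by
    intro g
    have : (⊤ : Subgroup G) ≤ stabSub M.normalCore :=
      le_stabSub_of_conj fun a _ x hx => hn.conj_mem x hx a
    exact this (Subgroup.mem_top g)
  exact D.le_of_stab M.normalCore_le (fun g _ => key g) (key n) k

theorem ne_cj {k : ℕ} (h : U (k + 2) = ⊥) {l : ℕ} (hl : 1 ≤ l) (h' : U l ≠ ⊥) : M ≠ cj n M := by
  intro e
  apply h'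
  rw [eq_bot_iff, ← h]
  refine (D.le_M l hl).trans (D.le_of_stab le_rfl ?_ e.symm k)
  intro m hm; exact cj_eq_self_of_mem hm

/-- the two sequences -/
def seq (M : Subgroup G) (n : G) : ℕ → Subgroup G × Subgroup G
  | 0 => (M, cj n M)
  | i + 1 => (core M ((seq M n i).1 ⊓ (seq M n i).2), core (cj n M) ((seq M n i).1 ⊓ (seq M n i).2))

theorem seq_eq (i : ℕ) : seq M n (i + 1) = (U (i + 2), cj n (U (i + 2))) := by
  induction i with
  | zero =>
    show (core M (M ⊓ cj n M), core (cj n M) (M ⊓ cj n M)) = _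
    rw [D.core_zero, D.core_zero']
  | succ i ih =>
    show (core M ((seq M n (i + 1)).1 ⊓ (seq M n (i + 1)).2),
      core (cj n M) ((seq M n (i + 1)).1 ⊓ (seq M n (i + 1)).2)) = _
    rw [ih]
    simp only
    rw [D.core_succ (by omega), D.core_succ' (by omega)]

theorem main (hM : IsCoatom M) {k : ℕ} (h6 : U (k + 1) ≠ ⊥) (h7 : U (k + 2) = ⊥) (hk : 1 ≤ k) :
    ∃ (M₁ M₂ : Subgroup G) (g : G) (A B : ℕ → Subgroup G),
      IsCoatom M₁ ∧ M₂ = M₁.map (MulAut.conj g).toMonoidHom ∧ M₁ ≠ M₂ ∧ M₁.normalCore = ⊥ ∧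
      A 0 = M₁ ∧ B 0 = M₂ ∧
      (∀ i, A (i + 1) = ((A i ⊓ B i).subgroupOf M₁).normalCore.map M₁.subtype) ∧
      (∀ i, B (i + 1) = ((A i ⊓ B i).subgroupOf M₂).normalCore.map M₂.subtype) ∧
      A (k + 1) = ⊥ ∧ A k ≠ ⊥ := by
  refine ⟨M, cj n M, n, fun i => (seq M n i).1, fun i => (seq M n i).2, hM, rfl,
    D.ne_cj h7 (by omega) h6, D.normalCore_eq_bot h7, rfl, rfl, fun i => rfl, fun i => rfl, ?_, ?_⟩
  · simp only
    rw [D.seq_eq]; exact h7
  · obtain ⟨l, rfl⟩ : ∃ l, k = l + 1 := ⟨k - 1, by omega⟩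
    simp only
    rw [D.seq_eq]; exact h6

end Dat

end H47.CoreSeq
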