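import Cfsg.Agent.Lib.H47.E7W
import Cfsg.Agent.Lib.H47.SpecF4c

/-!
The Chevalley group of type E7 over the field with two elements has no element of order 65.
-/

set_option autoImplicit false
set_option linter.unusedVariables false
set_option maxRecDepth 10000

namespace H47.E7Spec

open H22.RGD H22.Coord H22.RCCheck H22.RCComb H22.ChevTri H22.ChevRel H22.ChevSys H22.ChevMain
open H22.ChevStd H22.ChevSolv H22.ChevUni H47.ChevSub H47.Alcove H47.LangCent H47.TorAll H47.SemiTor
open H47.FixPt H22.ChevTorus H47.HomoTor H47.JorTor H47.UniFlag H22.LangChev H47.HomoCert H47.WEnum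
open H47.MixEx H47.SpecF4 H47.ConnCent H22.PoinE7
open Cfsg.Lie (ChevalleyDatum)

/-- centralisers of elements of odd order are connected -/
theorem conn {K : Type*} [Field K] (R : Rel Cfsg.Lie.chevE7 K) {a : GL Cfsg.Lie.chevE7.Idx K}
    (ha : a ∈ Hs R) {N : ℕ} (hN : ¬ 2 ∣ N) (haN : a ^ N = 1) : Conn R rcxE7 a :=
  Conn_prime R rcxE7 (a0 := ⟨125, by decide +kernel⟩) (f := 2) Nat.prime_two
    (hm_of (cs := fun _ => [0, 1, 0, 0, 1, 0, 1]) (by decide +kernel))
    ((comb_pos_iff _ _).2 (by decide +kernel)) ha hN haN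

theorem no_65 (g : ↥(Cfsg.Lie.chevE7.group (ZMod 2))) (hg : orderOf g = 65) : False := by
  have : Fact (Nat.Prime 2) := ⟨Nat.prime_two⟩
  have : CharP (AlgebraicClosure (ZMod 2)) 2 := charP_of_injective_algebraMap
    (algebraMap (ZMod 2) (AlgebraicClosure (ZMod 2))).injective 2
  have hF : Fintype.card (ZMod 2) = 2 ^ 1 := by rw [ZMod.card]; rfl
  have RF := H22.ChevAll.rel Cfsg.Lie.chevE7 (by simp) (ZMod 2)
  have R := H22.ChevAll.rel Cfsg.Lie.chevE7 (by simp) (AlgebraicClosure (ZMod 2))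
  obtain ⟨h1, h2, h3⟩ := asc 2 RF R hF g
  set G := (Matrix.GeneralLinearGroup.map (algebraMap (ZMod 2) (AlgebraicClosure (ZMod 2))))
    (g : GL Cfsg.Lie.chevE7.Idx (ZMod 2)) with hG
  have hord : orderOf G = 65 := h3.trans hg
  obtain ⟨y, hy, hya, ζ, x, hζ0, hζ, hx, hprim, w, hw, hxw⟩ := exists_fun R 2 (X := rcxE7)
    (locFin_of_isAlgebraic (F := ZMod 2) (K := AlgebraicClosure (ZMod 2)) (p := 2))
    H22.ChevLex.lexE7 (f := 2) Nat.prime_two
    (fun a ha N hN haN => conn R ha hN haN) 1 (N := 65) (by norm_num) h1 h2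
    (by rw [← hord, pow_orderOf_eq_one])
  rw [hζ, hord] at hprim hxw
  have h0r := nz (coord rcxE7) (m := 65) (r := 5) (by norm_num) (by norm_num) (by norm_num) hprim
  have h0s := nz (coord rcxE7) (m := 65) (r := 13) (by norm_num) (by norm_num) (by norm_num) hprim
  refine E7W.no_65 hw (x := x) (fun j => ?_) h0r h0s
  have h4 := tau_eig (coord rcxE7) (q := ((2 ^ 1 : ℕ) : ℤ)) hxw j
  simpa using h4

end H47.E7Spec
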