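import Cfsg.Agent.Lib.H47.ParW
import Cfsg.Agent.Lib.H47.SpecF4b
import Cfsg.Agent.Lib.H47.HomoE7

/-!
The Weyl group of type E7: no element has the eigenvalue 2 on a functional of order 65.
-/

set_option autoImplicit false
set_option linter.unusedVariables false
set_option maxRecDepth 10000

namespace H47.E7W

open H22.RGD H22.Coord H22.RCComb H47.Alcove H47.HomoCert H47.CycW H47.WEnum H47.ParW H47.SpecF4 Polynomial
open H22.PoinE7

theorem cardW : Nat.card (comb rcxE7).W = 2903040 :=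
  ((H22.CoxCalc.card_W (l := 7) (comb rcxE7)).trans (H22.PoinE7.poincare 1)).trans (by decide)

theorem dets : ∀ i0 : Fin 7, ¬ dl 6 (fun i j => (coord rcxE7).A (i0.succAbove i) (i0.succAbove j)) ∣ 2 := by
  decide +kernel

/-- minus one -/
theorem exists_neg : ∃ w ∈ (comb rcxE7).W, tau (coord rcxE7) w = -1 := by
  obtain ⟨L, hL⟩ := lift_word (l := 7) (L := H47.HomoE7.ct2.L) (by decide)
  have h1 := st_rep (coord rcxE7) (l := 7) rowsOk L
  have hw := (comb rcxE7).w_mem L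
  refine ⟨_, hw, ?_⟩
  have h2 := pchk_spec (coord rcxE7) hw h1 (cs := [1]) (by rw [hL]; decide +kernel)
  have h3 : poly [1] = X + 1 := by simp [poly, add_comm]
  rw [h3, map_add, aeval_X, map_one] at h2
  exact eq_neg_of_add_eq_zero_left (LinearMap.ext h2)

section conj

variable {Φ : Type*} {l : ℕ} {C : RootComb Φ (Fin l)} (K : CoordSys C)

theorem charpoly_conj {v w : Equiv.Perm Φ} (hv : v ∈ C.W) (hw : w ∈ C.W) :
    (tau K (v⁻¹ * w * v)).charpoly = (tau K w).charpoly := by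
  have e1 : ∀ f : (Fin l → ℤ) →ₗ[ℤ] (Fin l → ℤ), f.charpoly = (LinearMap.toMatrix' f).charpoly := by
    intro f
    rw [← LinearMap.charpoly_toMatrix f (Pi.basisFun ℤ (Fin l))]
    rfl
  have hvi := C.W.inv_mem hv
  rw [tau_mul _ (C.W.mul_mem hvi hw), tau_mul _ hvi, e1, e1, LinearMap.toMatrix'_mul,
    Matrix.charpoly_mul_comm, ← LinearMap.toMatrix'_mul, mul_assoc, ← tau_mul _ hv, mul_inv_cancel,
    tau_one, mul_one]

end conj

section lin

variable {l : ℕ} (f : (Fin l → ℤ) →ₗ[ℤ] (Fin l → ℤ))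

theorem exists_eig {c : ℤ} (h : f.charpoly.eval c = 0) : ∃ v ≠ 0, f v = c • v := by
  have hcp : f.charpoly = (LinearMap.toMatrix' f).charpoly := by
    rw [← LinearMap.charpoly_toMatrix f (Pi.basisFun ℤ (Fin l))]
    rfl
  rw [hcp, Matrix.eval_charpoly] at h
  obtain ⟨v, hv, h1⟩ := Matrix.exists_mulVec_eq_zero_iff.2 h
  refine ⟨v, hv, ?_⟩
  rw [Matrix.sub_mulVec, sub_eq_zero] at h1
  have h2 : f v = (LinearMap.toMatrix' f).mulVec v := by
    rw [← Matrix.toLin'_apply, Matrix.toLin'_toMatrix']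
  rw [h2, ← h1]
  funext j
  simp

theorem eig_pow {m q : ℤ} {x : Fin l → ℤ} (hx : ∀ j, m ∣ f x j - q * x j) (k : ℕ) (j : Fin l) :
    m ∣ (f ^ k) x j - q ^ k * x j := by
  have h := aeval_eig f hx (X ^ k) j
  rwa [map_pow, aeval_X, eval_pow, eval_X] at h

theorem ord13 : orderOf ((2 : ℤ) : ZMod 13) = 12 := by
  have h : orderOf ((2 : ℤ) : ZMod 13) ∣ 12 := orderOf_dvd_of_pow_eq_one (by decide)
  have h4 : ¬ orderOf ((2 : ℤ) : ZMod 13) ∣ 4 := fun h => absurd (orderOf_dvd_iff_pow_eq_one.1 h) (by decide)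
  have h6 : ¬ orderOf ((2 : ℤ) : ZMod 13) ∣ 6 := fun h => absurd (orderOf_dvd_iff_pow_eq_one.1 h) (by decide)
  have hle := Nat.le_of_dvd (by norm_num) h
  revert h h4 h6 hle
  generalize orderOf ((2 : ℤ) : ZMod 13) = n
  intro h h4 h6 hle
  interval_cases n <;> omega

theorem ord5 : orderOf ((2 : ℤ) : ZMod 5) = 4 := by
  have h : orderOf ((2 : ℤ) : ZMod 5) ∣ 4 := orderOf_dvd_of_pow_eq_one (by decide)
  have h2 : ¬ orderOf ((2 : ℤ) : ZMod 5) ∣ 2 := fun h => absurd (orderOf_dvd_iff_pow_eq_one.1 h) (by decide)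
  have hle := Nat.le_of_dvd (by norm_num) h
  revert h h2 hle
  generalize orderOf ((2 : ℤ) : ZMod 5) = n
  intro h h2 hle
  interval_cases n <;> omega

end lin

/-- the characteristic polynomial -/
theorem shape {f : (Fin 7 → ℤ) →ₗ[ℤ] (Fin 7 → ℤ)} (hT : f ^ 82944 = 1) {x : Fin 7 → ℤ}
    (hx : ∀ j, (65 : ℤ) ∣ f x j - 2 * x j) (h5 : ¬ ∀ j, ((5 : ℕ) : ℤ) ∣ x j) (h13 : ¬ ∀ j, ((13 : ℕ) : ℤ) ∣ x j) :
    ∃ c : ℤ, (c = 1 ∨ c = -1) ∧
      f.charpoly = cyclotomic 12 ℤ * cyclotomic 4 ℤ * (X - C c) := by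
  have : Fact (Nat.Prime 5) := ⟨by norm_num⟩
  have : Fact (Nat.Prime 13) := ⟨by norm_num⟩
  have e13 := cyc_dvd f (N := 82944) (by norm_num) hT (s := 13) (by norm_num) (q := 2) (x := x)
    (fun j => (by norm_num : ((13 : ℕ) : ℤ) ∣ 65).trans (hx j)) h13
  have e5 := cyc_dvd f (N := 82944) (by norm_num) hT (s := 5) (by norm_num) (q := 2) (x := x)
    (fun j => (by norm_num : ((5 : ℕ) : ℤ) ∣ 65).trans (hx j)) h5
  rw [ord13] at e13
  rw [ord5] at e5
  obtain ⟨Q, hQ⟩ := two_cyc (by norm_num) e13 e5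
  have hmon : (cyclotomic 12 ℤ * cyclotomic 4 ℤ).Monic := (cyclotomic.monic 12 ℤ).mul (cyclotomic.monic 4 ℤ)
  have hQm : Q.Monic := hmon.of_mul_monic_left (by rw [← hQ]; exact f.charpoly_monic)
  have hdeg : Q.natDegree = 1 := by
    have h1 := charpoly_natDegree f
    rw [hQ, hmon.natDegree_mul hQm, (cyclotomic.monic 12 ℤ).natDegree_mul (cyclotomic.monic 4 ℤ),
      natDegree_cyclotomic, natDegree_cyclotomic] at h1
    have h2 : Nat.totient 12 + Nat.totient 4 = 6 := by decide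
    omega
  have hQX := hQm.eq_X_add_C hdeg
  refine ⟨-Q.coeff 0, ?_, ?_⟩
  · have h1 : LinearMap.det f ^ 82944 = 1 := by rw [← map_pow, hT, map_one]
    have h2 : LinearMap.det f = 1 ∨ LinearMap.det f = -1 := by
      have h3 : IsUnit (LinearMap.det f) := IsUnit.of_pow_eq_one h1 (by norm_num)
      exact Int.isUnit_iff.1 h3
    have h3 := LinearMap.det_eq_sign_charpoly_coeff f
    have h4 : f.charpoly.coeff 0 = Q.coeff 0 := by
      rw [hQ, mul_coeff_zero, mul_coeff_zero, cyclotomic_coeff_zero ℤ (by norm_num),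
        cyclotomic_coeff_zero ℤ (by norm_num), one_mul, one_mul]
    have h5 : Module.finrank ℤ (Fin 7 → ℤ) = 7 := by simp
    rw [h4, h5] at h3
    rcases h2 with h2 | h2 <;> rw [h2] at h3 <;> omega
  · rw [hQ, C_neg, sub_neg_eq_add, ← hQX]

theorem phi12_one : (cyclotomic 12 ℤ).eval 1 = 1 := by
  rw [cyc12]; simp

theorem phi4_one : (cyclotomic 4 ℤ).eval 1 = 2 := by
  rw [← poly4]; simp [poly]

theorem lin_part {l : ℕ} (hl : l = 7) {f : (Fin l → ℤ) →ₗ[ℤ] (Fin l → ℤ)} {N : ℕ} (hfN : f ^ N = 1)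
    (hN : N = 2903040) {x : Fin l → ℤ}
    (hx : ∀ j, (65 : ℤ) ∣ f x j - 2 * x j) (h5 : ¬ ∀ j, ((5 : ℕ) : ℤ) ∣ x j)
    (h13 : ¬ ∀ j, ((13 : ℕ) : ℤ) ∣ x j) :
    (f ^ 385).charpoly = cyclotomic 12 ℤ * cyclotomic 4 ℤ * (X - C 1) ∨
      (-((f ^ 385) ^ 7)).charpoly = cyclotomic 12 ℤ * cyclotomic 4 ℤ * (X - C 1) := by
  subst hl
  -- remove the part of order 35
  have hg1 : (f ^ 385) ^ 82944 = 1 := by
    rw [← pow_mul, show 385 * 82944 = N * 11 by rw [hN], pow_mul, hfN, one_pow]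
  have hx1 : ∀ j, (65 : ℤ) ∣ (f ^ 385) x j - 2 * x j := by
    intro j
    have h1 := eig_pow f hx 385 j
    have h2 : (65 : ℤ) ∣ 2 ^ 385 - 2 := by
      have h3 : (65 : ℤ) ∣ (2 ^ 12) ^ 32 - 1 ^ 32 := by
        exact (show (65 : ℤ) ∣ 2 ^ 12 - 1 by norm_num).trans (sub_dvd_pow_sub_pow _ _ 32)
      have h4 : (2 : ℤ) ^ 385 - 2 = 2 * ((2 ^ 12) ^ 32 - 1 ^ 32) := by
        rw [← pow_mul, one_pow, mul_sub, ← pow_succ', mul_one]
      rw [h4]; exact h3.mul_left 2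
    have h3 := dvd_add h1 (h2.mul_right (x j))
    have e : (f ^ 385) x j - 2 ^ 385 * x j + (2 ^ 385 - 2) * x j = (f ^ 385) x j - 2 * x j := by ring
    rwa [e] at h3
  obtain ⟨c, hc, hcp⟩ := shape hg1 hx1 h5 h13
  rcases hc with rfl | rfl
  · exact Or.inl hcp
  · right
    -- multiply by minus one
    set g := f ^ 385 with hg
    have hg2 : (-(g ^ 7)) ^ 82944 = 1 := by
      rw [Even.neg_pow (by decide), ← pow_mul, mul_comm, pow_mul, hg1, one_pow]
    have hx2 : ∀ j, (65 : ℤ) ∣ (-(g ^ 7)) x j - 2 * x j := by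
      intro j
      have h1 := eig_pow g hx1 7 j
      have h2 : (65 : ℤ) ∣ 2 ^ 7 + 2 := by norm_num
      have h3 := dvd_add h1 (h2.mul_right (x j))
      have e : (-(g ^ 7)) x j - 2 * x j = -(((g ^ 7) x j - 2 ^ 7 * x j) + (2 ^ 7 + 2) * x j) := by
        rw [LinearMap.neg_apply, Pi.neg_apply]; ring
      rw [e]
      exact (dvd_neg).2 h3
    obtain ⟨c, hc, hcp2⟩ := shape hg2 hx2 h5 h13
    obtain ⟨v, hv0, hv⟩ := exists_eig g (c := -1) (by rw [hcp]; simp)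
    have hv2 : (-(g ^ 7)) v = v := by
      have h1 : ∀ n : ℕ, (g ^ n) v = (-1 : ℤ) ^ n • v := by
        intro n
        induction n with
        | zero => simp
        | succ n ih =>
          rw [pow_succ, Module.End.mul_apply, hv, map_smul, ih, smul_smul]
          congr 1; ring
      rw [LinearMap.neg_apply, h1]; simp
    have hc1 : c = 1 := by
      have h1 : aeval (-(g ^ 7)) ((-(g ^ 7)).charpoly) = 0 := LinearMap.aeval_self_charpoly _
      obtain ⟨j, hj⟩ := Function.ne_iff.1 hv0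
      have h2 := aeval_eig (-(g ^ 7)) (m := 0) (q := 1) (x := v)
        (fun j => by rw [hv2, one_mul, sub_self]) (-(g ^ 7)).charpoly j
      rw [h1, LinearMap.zero_apply, Pi.zero_apply, zero_sub, dvd_neg, zero_dvd_iff] at h2
      have h3 := (mul_eq_zero.1 h2).resolve_right hj
      rw [hcp2, eval_mul, eval_mul, phi12_one, phi4_one] at h3
      simp at h3
      linarith
    rw [hc1] at hcp2
    exact hcp2

section E7

theorem no_w {w : Equiv.Perm (Fin Cfsg.Lie.chevE7.nroots)} (hw : w ∈ (comb rcxE7).W)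
    (hcp : (tau (coord rcxE7) w).charpoly = cyclotomic 12 ℤ * cyclotomic 4 ℤ * (X - C 1)) : False := by
  obtain ⟨x, hx0, hx⟩ := exists_eig (tau (coord rcxE7) w) (c := 1) (by rw [hcp]; simp)
  rw [one_smul] at hx
  have hx' : act (coord rcxE7) x w = x := hx
  obtain ⟨v, hv, hdom⟩ := exists_dom (coord rcxE7) x
  have hvi := (comb rcxE7).W.inv_mem hv
  have hne : act (coord rcxE7) x v ≠ 0 := by
    intro h
    apply hx0
    have h1 : act (coord rcxE7) (act (coord rcxE7) x v) v⁻¹ = x := by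
      rw [← act_mul (coord rcxE7) x hv, mul_inv_cancel, act_one]
    rw [h] at h1
    rw [← h1]
    funext j
    simp [act, ev]
  obtain ⟨i0, hi0⟩ := Function.ne_iff.1 hne
  have hfix : ∀ a, ev (coord rcxE7) (act (coord rcxE7) x v) ((v⁻¹ * w * v) a) =
      ev (coord rcxE7) (act (coord rcxE7) x v) a := by
    intro a
    rw [ev_act _ x hv, ev_act _ x hv]
    have e : v ((v⁻¹ * w * v) a) = w (v a) := by simp [Equiv.Perm.mul_apply]
    rw [e, ← ev_act _ x hw, hx']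
  have hW := (comb rcxE7).W.mul_mem ((comb rcxE7).W.mul_mem hvi hw) hv
  have h1 := dom_stab (coord rcxE7) hdom hi0 _ hW rfl hfix
  obtain ⟨P, hP, hdvd⟩ := charpoly_WP (n := 6) (coord rcxE7) h1
  have h2 := charpoly_conj (coord rcxE7) hv hw
  have hP : cyclotomic 12 ℤ * cyclotomic 4 ℤ * (X - C 1) = (X - 1) * P := (h2.trans hcp).symm.trans hP
  have h3 : P = cyclotomic 12 ℤ * cyclotomic 4 ℤ := by
    have h4 : (X - 1 : ℤ[X]) ≠ 0 := by
      have := (monic_X_sub_C (1 : ℤ)).ne_zero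
      simpa using this
    apply mul_left_cancel₀ h4
    rw [← hP, C_1]; ring
  rw [h3, eval_mul, phi12_one, phi4_one, one_mul] at hdvd
  exact dets i0 hdvd

/-- **no eigenvalue 2 on functionals of order 65** -/
theorem no_65 {w : Equiv.Perm (Fin Cfsg.Lie.chevE7.nroots)} (hw : w ∈ (comb rcxE7).W)
    {x : Fin Cfsg.Lie.chevE7.rank → ℤ} (hx : ∀ j, (65 : ℤ) ∣ tau (coord rcxE7) w x j - 2 * x j)
    (h5 : ¬ ∀ j, ((5 : ℕ) : ℤ) ∣ x j) (h13 : ¬ ∀ j, ((13 : ℕ) : ℤ) ∣ x j) : False := by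
  obtain ⟨e, heW, he⟩ := exists_neg
  have hw1 : w ^ 385 ∈ (comb rcxE7).W := (comb rcxE7).W.pow_mem hw 385
  have ht1 : tau (coord rcxE7) (w ^ 385) = tau (coord rcxE7) w ^ 385 := tau_pow _ hw 385
  have hw2 : (w ^ 385 * e) ^ 7 ∈ (comb rcxE7).W :=
    (comb rcxE7).W.pow_mem ((comb rcxE7).W.mul_mem hw1 heW) 7
  have ht2 : tau (coord rcxE7) ((w ^ 385 * e) ^ 7) = -((tau (coord rcxE7) w ^ 385) ^ 7) := by
    rw [tau_pow _ ((comb rcxE7).W.mul_mem hw1 heW), tau_mul _ hw1, he, ht1, neg_one_mul,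
      Odd.neg_pow (by decide)]
  rcases lin_part (rfl : Cfsg.Lie.chevE7.rank = 7) (tau_card (coord rcxE7) hw) cardW hx h5 h13 with h | h
  · exact no_w hw1 (by rw [ht1]; exact h)
  · exact no_w hw2 (by rw [ht2]; exact h)

end E7

end H47.E7W
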