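import Cfsg.Agent.Lib.H64.F8
import Cfsg.Agent.Lib.H64.U34C
import Cfsg.Agent.Lib.H11.Eppo4

/-!
Elements of order 65 in `PSp₄(8)`, `PSp₆(8)`, `PSL₄(8)`, `PSU₄(8)`.
-/

set_option autoImplicit false
set_option maxRecDepth 100000

namespace H47.Mat65

open Matrix H64 Cfsg

/-! ### the field with 64 elements -/

/-- pairs `a + b ω` with `ω² = ω + 1` over the field with 8 elements -/
structure F64 where
  a : F8
  b : F8
  deriving DecidableEq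

namespace F64

@[ext] theorem ext' {x y : F64} (h : x.a = y.a) (h' : x.b = y.b) : x = y := by
  cases x; cases y; simp_all

instance : Zero F64 := ⟨⟨0, 0⟩⟩
instance : One F64 := ⟨⟨1, 0⟩⟩
instance : Add F64 := ⟨fun x y => ⟨x.a + y.a, x.b + y.b⟩⟩
instance : Neg F64 := ⟨fun x => ⟨-x.a, -x.b⟩⟩
instance : Mul F64 := ⟨fun x y => ⟨x.a * y.a + x.b * y.b, x.a * y.b + x.b * y.a + x.b * y.b⟩⟩
instance : Inv F64 := ⟨fun x => ⟨(x.a + x.b) * (x.a * x.a + x.a * x.b - x.b * x.b)⁻¹,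
  -x.b * (x.a * x.a + x.a * x.b - x.b * x.b)⁻¹⟩⟩

@[simp] theorem zero_a : (0 : F64).a = 0 := rfl
@[simp] theorem zero_b : (0 : F64).b = 0 := rfl
@[simp] theorem one_a : (1 : F64).a = 1 := rfl
@[simp] theorem one_b : (1 : F64).b = 0 := rfl
@[simp] theorem add_a (x y : F64) : (x + y).a = x.a + y.a := rfl
@[simp] theorem add_b (x y : F64) : (x + y).b = x.b + y.b := rfl
@[simp] theorem neg_a (x : F64) : (-x).a = -x.a := rfl
@[simp] theorem neg_b (x : F64) : (-x).b = -x.b := rfl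
@[simp] theorem mul_a (x y : F64) : (x * y).a = x.a * y.a + x.b * y.b := rfl
@[simp] theorem mul_b (x y : F64) : (x * y).b = x.a * y.b + x.b * y.a + x.b * y.b := rfl

instance : Fintype F64 := Fintype.ofEquiv (F8 × F8)
  ⟨fun p => ⟨p.1, p.2⟩, fun x => (x.a, x.b), fun _ => rfl, fun _ => rfl⟩

instance : CommRing F64 where
  add_assoc x y z := by ext <;> simp <;> ring
  zero_add x := by ext <;> simp
  add_zero x := by ext <;> simp
  add_comm x y := by ext <;> simp <;> ring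
  neg_add_cancel x := by ext <;> simp
  left_distrib x y z := by ext <;> simp <;> ring
  right_distrib x y z := by ext <;> simp <;> ring
  zero_mul x := by ext <;> simp
  mul_zero x := by ext <;> simp
  mul_assoc x y z := by ext <;> simp <;> ring
  one_mul x := by ext <;> simp
  mul_one x := by ext <;> simp
  mul_comm x y := by ext <;> simp <;> ring
  nsmul := nsmulRec
  zsmul := zsmulRec

theorem mul_inv : ∀ x : F64, x ≠ 0 → x * x⁻¹ = 1 := by decide +kernel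

instance : Field F64 where
  exists_pair_ne := ⟨0, 1, by decide +kernel⟩
  mul_inv_cancel := mul_inv
  inv_zero := by decide +kernel
  nnqsmul := _
  nnqsmul_def := fun _ _ => rfl
  qsmul := _
  qsmul_def := fun _ _ => rfl

theorem card : Fintype.card F64 = 64 := by decide +kernel

theorem pow65 : ∀ x : F64, x ^ 65 = 1 → x = 1 := by decide +kernel

end F64

theorem pow65_8 : ∀ x : F8, x ^ 65 = 1 → x = 1 := by decide +kernel

/-! ### groups -/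

section grp

theorem chain {M : Type*} [Monoid M] {x x2 x4 x5 x8 x12 x13 x16 x32 x64 : M} (h2 : x * x = x2)
    (h4 : x2 * x2 = x4) (h8 : x4 * x4 = x8) (h16 : x8 * x8 = x16) (h32 : x16 * x16 = x32)
    (h64 : x32 * x32 = x64) (h5 : x4 * x = x5) (h12 : x8 * x4 = x12) (h13 : x12 * x = x13)
    (h65 : x64 * x = 1) : x ^ 65 = 1 ∧ x ^ 5 = x5 ∧ x ^ 13 = x13 := by
  have e2 : x ^ 2 = x2 := by rw [pow_two, h2]
  have e4 : x ^ 4 = x4 := by rw [show 4 = 2 + 2 from rfl, pow_add, e2, h4]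
  have e8 : x ^ 8 = x8 := by rw [show 8 = 4 + 4 from rfl, pow_add, e4, h8]
  have e16 : x ^ 16 = x16 := by rw [show 16 = 8 + 8 from rfl, pow_add, e8, h16]
  have e32 : x ^ 32 = x32 := by rw [show 32 = 16 + 16 from rfl, pow_add, e16, h32]
  have e64 : x ^ 64 = x64 := by rw [show 64 = 32 + 32 from rfl, pow_add, e32, h64]
  refine ⟨?_, ?_, ?_⟩
  · rw [show 65 = 64 + 1 from rfl, pow_add, e64, pow_one, h65]
  · rw [show 5 = 4 + 1 from rfl, pow_add, e4, pow_one, h5]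
  · rw [show 13 = 8 + 4 + 1 from rfl, pow_add, pow_add, e8, e4, pow_one, h12, h13]

theorem ord65 {G : Type*} [Group G] (N : Subgroup G) [N.Normal] (g : G) (h : g ^ 65 = 1) (h5 : g ^ 5 ∉ N)
    (h13 : g ^ 13 ∉ N) : orderOf (QuotientGroup.mk g : G ⧸ N) = 65 := by
  have h1 : orderOf (QuotientGroup.mk g : G ⧸ N) ∣ 65 := by
    rw [orderOf_dvd_iff_pow_eq_one, ← QuotientGroup.mk_pow, h]; rfl
  have h2 : ¬ orderOf (QuotientGroup.mk g : G ⧸ N) ∣ 5 := by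
    rw [orderOf_dvd_iff_pow_eq_one, ← QuotientGroup.mk_pow, QuotientGroup.eq_one_iff]; exact h5
  have h3 : ¬ orderOf (QuotientGroup.mk g : G ⧸ N) ∣ 13 := by
    rw [orderOf_dvd_iff_pow_eq_one, ← QuotientGroup.mk_pow, QuotientGroup.eq_one_iff]; exact h13
  have h4 : orderOf (QuotientGroup.mk g : G ⧸ N) ∈ Nat.divisors 65 := Nat.mem_divisors.2 ⟨h1, by norm_num⟩
  have h5 : Nat.divisors 65 = {1, 5, 13, 65} := by decide
  rw [h5] at h4
  simp only [Finset.mem_insert, Finset.mem_singleton] at h4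
  rcases h4 with h4 | h4 | h4 | h4
  · rw [h4] at h2; exact absurd (one_dvd _) h2
  · rw [h4] at h2; exact absurd dvd_rfl h2
  · rw [h4] at h3; exact absurd dvd_rfl h3
  · exact h4

theorem not_center {G : Type*} [Group G] {g h : G} (hne : h * g ≠ g * h) : g ∉ Subgroup.center G :=
  fun hg => hne (Subgroup.mem_center_iff.1 hg h)

end grp

/-! ### matrices -/

/-- matrices from tables -/
def mk {ι R : Type*} (c : ℕ → R) (idx : ι → ℕ) (L : List (List ℕ)) (i j : ι) : R :=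
  c ((L.getD (idx i) []).getD (idx j) 0)

/-- matrices from tables -/
def mx {ι R : Type*} (c : ℕ → R) (idx : ι → ℕ) (L : List (List ℕ)) : Matrix ι ι R :=
  Matrix.of (mk c idx L)

theorem one_of {ι R : Type*} [Fintype ι] [DecidableEq ι] [CommRing R] {c : ℕ → R} {idx : ι → ℕ}
    {L : List (List ℕ)} (h : ∀ i j : ι, mk c idx L i j = if i = j then 1 else 0) : mx c idx L = 1 := by
  ext i j
  rw [Matrix.one_apply]
  exact h i j

theorem mul_of {ι R : Type*} [Fintype ι] [CommRing R] {c : ℕ → R} {idx : ι → ℕ} {L1 L2 L3 : List (List ℕ)}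
    (h : ∀ i j : ι, ∑ k, mk c idx L1 i k * mk c idx L2 k j = mk c idx L3 i j) :
    mx c idx L1 * mx c idx L2 = mx c idx L3 := by
  ext i j
  rw [Matrix.mul_apply]
  exact h i j

/-- indices -/
def ix (m : ℕ) : Fin m ⊕ Fin m → ℕ
  | Sum.inl i => i.val
  | Sum.inr i => m + i.val

/-- codes for the field with 64 elements -/
def c64 (n : ℕ) : F64 := ⟨F8.c (n % 8), F8.c (n / 8)⟩

def a1 : List (List ℕ) := [[0, 6, 6, 4], [5, 3, 6, 7], [7, 0, 6, 4], [2, 4, 4, 3]]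
def a2 : List (List ℕ) := [[4, 7, 6, 6], [5, 7, 1, 7], [7, 2, 0, 3], [5, 7, 0, 1]]
def a4 : List (List ℕ) := [[7, 1, 2, 1], [5, 4, 4, 4], [4, 4, 6, 2], [1, 2, 4, 1]]
def a5 : List (List ℕ) := [[2, 3, 1, 6], [0, 2, 5, 2], [2, 1, 1, 4], [2, 4, 0, 4]]
def a8 : List (List ℕ) := [[4, 2, 2, 6], [6, 6, 4, 4], [4, 3, 4, 7], [1, 6, 0, 0]]
def a12 : List (List ℕ) := [[5, 3, 2, 5], [5, 6, 1, 4], [4, 0, 0, 7], [4, 4, 7, 4]]
def a13 : List (List ℕ) := [[0, 4, 7, 7], [7, 4, 1, 5], [5, 4, 4, 4], [2, 4, 2, 1]]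
def a16 : List (List ℕ) := [[4, 0, 3, 3], [5, 7, 4, 6], [6, 1, 2, 3], [6, 0, 7, 3]]
def a32 : List (List ℕ) := [[6, 3, 3, 7], [3, 7, 2, 6], [6, 5, 3, 4], [0, 7, 6, 6]]
def a64 : List (List ℕ) := [[6, 4, 6, 6], [4, 3, 4, 7], [7, 2, 0, 5], [0, 4, 6, 3]]
def s1 : List (List ℕ) := [[0, 6, 0, 6, 4, 0], [5, 3, 0, 6, 7, 0], [0, 0, 1, 0, 0, 0], [7, 0, 0, 6, 4, 0], [2, 4, 0, 4, 3, 0], [0, 0, 0, 0, 0, 1]]
def s2 : List (List ℕ) := [[4, 7, 0, 6, 6, 0], [5, 7, 0, 1, 7, 0], [0, 0, 1, 0, 0, 0], [7, 2, 0, 0, 3, 0], [5, 7, 0, 0, 1, 0], [0, 0, 0, 0, 0, 1]]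
def s4 : List (List ℕ) := [[7, 1, 0, 2, 1, 0], [5, 4, 0, 4, 4, 0], [0, 0, 1, 0, 0, 0], [4, 4, 0, 6, 2, 0], [1, 2, 0, 4, 1, 0], [0, 0, 0, 0, 0, 1]]
def s5 : List (List ℕ) := [[2, 3, 0, 1, 6, 0], [0, 2, 0, 5, 2, 0], [0, 0, 1, 0, 0, 0], [2, 1, 0, 1, 4, 0], [2, 4, 0, 0, 4, 0], [0, 0, 0, 0, 0, 1]]
def s8 : List (List ℕ) := [[4, 2, 0, 2, 6, 0], [6, 6, 0, 4, 4, 0], [0, 0, 1, 0, 0, 0], [4, 3, 0, 4, 7, 0], [1, 6, 0, 0, 0, 0], [0, 0, 0, 0, 0, 1]]
def s12 : List (List ℕ) := [[5, 3, 0, 2, 5, 0], [5, 6, 0, 1, 4, 0], [0, 0, 1, 0, 0, 0], [4, 0, 0, 0, 7, 0], [4, 4, 0, 7, 4, 0], [0, 0, 0, 0, 0, 1]]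
def s13 : List (List ℕ) := [[0, 4, 0, 7, 7, 0], [7, 4, 0, 1, 5, 0], [0, 0, 1, 0, 0, 0], [5, 4, 0, 4, 4, 0], [2, 4, 0, 2, 1, 0], [0, 0, 0, 0, 0, 1]]
def s16 : List (List ℕ) := [[4, 0, 0, 3, 3, 0], [5, 7, 0, 4, 6, 0], [0, 0, 1, 0, 0, 0], [6, 1, 0, 2, 3, 0], [6, 0, 0, 7, 3, 0], [0, 0, 0, 0, 0, 1]]
def s32 : List (List ℕ) := [[6, 3, 0, 3, 7, 0], [3, 7, 0, 2, 6, 0], [0, 0, 1, 0, 0, 0], [6, 5, 0, 3, 4, 0], [0, 7, 0, 6, 6, 0], [0, 0, 0, 0, 0, 1]]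
def s64 : List (List ℕ) := [[6, 4, 0, 6, 6, 0], [4, 3, 0, 4, 7, 0], [0, 0, 1, 0, 0, 0], [7, 2, 0, 0, 5, 0], [0, 4, 0, 6, 3, 0], [0, 0, 0, 0, 0, 1]]
def u1 : List (List ℕ) := [[5, 47, 26, 7], [5, 9, 41, 2], [15, 38, 17, 6], [2, 63, 48, 31]]
def u2 : List (List ℕ) := [[34, 55, 45, 23], [60, 55, 37, 63], [15, 53, 7, 22], [20, 17, 43, 22]]
def u4 : List (List ℕ) := [[1, 46, 13, 3], [9, 28, 53, 42], [61, 45, 50, 57], [7, 59, 55, 41]]
def u5 : List (List ℕ) := [[39, 9, 12, 17], [59, 24, 24, 62], [33, 38, 8, 21], [21, 39, 51, 50]]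
def u8 : List (List ℕ) := [[16, 56, 8, 10], [16, 28, 10, 32], [31, 1, 1, 3], [14, 25, 53, 15]]
def u12 : List (List ℕ) := [[61, 39, 27, 54], [1, 39, 38, 24], [41, 60, 8, 26], [52, 15, 16, 20]]
def u13 : List (List ℕ) := [[15, 5, 1, 47], [59, 34, 19, 13], [10, 56, 7, 36], [45, 59, 59, 43]]
def u16 : List (List ℕ) := [[4, 30, 42, 7], [16, 19, 45, 15], [8, 60, 36, 47], [6, 39, 21, 55]]
def u32 : List (List ℕ) := [[49, 28, 59, 31], [61, 44, 8, 20], [13, 23, 6, 61], [24, 2, 51, 29]]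
def u64 : List (List ℕ) := [[5, 5, 14, 2], [42, 8, 34, 56], [25, 44, 19, 54], [7, 2, 6, 28]]

/-- symplectic matrices -/
abbrev A4 (L : List (List ℕ)) : Matrix (Fin 2 ⊕ Fin 2) (Fin 2 ⊕ Fin 2) F8 := mx F8.c (ix 2) L
abbrev A6 (L : List (List ℕ)) : Matrix (Fin 3 ⊕ Fin 3) (Fin 3 ⊕ Fin 3) F8 := mx F8.c (ix 3) L
abbrev L4 (L : List (List ℕ)) : Matrix (Fin 4) (Fin 4) F8 := mx F8.c Fin.val L
abbrev U4 (L : List (List ℕ)) : Matrix (Fin 4) (Fin 4) F64 := mx c64 Fin.val L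

theorem chA : A4 a1 ^ 65 = 1 ∧ A4 a1 ^ 5 = A4 a5 ∧ A4 a1 ^ 13 = A4 a13 :=
  chain (mul_of (by decide +kernel) : _ = A4 a2) (mul_of (by decide +kernel) : _ = A4 a4)
    (mul_of (by decide +kernel) : _ = A4 a8) (mul_of (by decide +kernel) : _ = A4 a16)
    (mul_of (by decide +kernel) : _ = A4 a32) (mul_of (by decide +kernel) : _ = A4 a64)
    (mul_of (by decide +kernel)) (mul_of (by decide +kernel) : _ = A4 a12) (mul_of (by decide +kernel))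
    ((mul_of (L3 := [[1, 0, 0, 0], [0, 1, 0, 0], [0, 0, 1, 0], [0, 0, 0, 1]]) (by decide +kernel)).trans
      (one_of (by decide +kernel)))

theorem chS : A6 s1 ^ 65 = 1 ∧ A6 s1 ^ 5 = A6 s5 ∧ A6 s1 ^ 13 = A6 s13 :=
  chain (mul_of (by decide +kernel) : _ = A6 s2) (mul_of (by decide +kernel) : _ = A6 s4)
    (mul_of (by decide +kernel) : _ = A6 s8) (mul_of (by decide +kernel) : _ = A6 s16)
    (mul_of (by decide +kernel) : _ = A6 s32) (mul_of (by decide +kernel) : _ = A6 s64)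
    (mul_of (by decide +kernel)) (mul_of (by decide +kernel) : _ = A6 s12) (mul_of (by decide +kernel))
    ((mul_of (L3 := [[1, 0, 0, 0, 0, 0], [0, 1, 0, 0, 0, 0], [0, 0, 1, 0, 0, 0], [0, 0, 0, 1, 0, 0],
      [0, 0, 0, 0, 1, 0], [0, 0, 0, 0, 0, 1]]) (by decide +kernel)).trans
      (one_of (by decide +kernel)))

theorem chL : L4 a1 ^ 65 = 1 ∧ L4 a1 ^ 5 = L4 a5 ∧ L4 a1 ^ 13 = L4 a13 :=
  chain (mul_of (by decide +kernel) : _ = L4 a2) (mul_of (by decide +kernel) : _ = L4 a4)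
    (mul_of (by decide +kernel) : _ = L4 a8) (mul_of (by decide +kernel) : _ = L4 a16)
    (mul_of (by decide +kernel) : _ = L4 a32) (mul_of (by decide +kernel) : _ = L4 a64)
    (mul_of (by decide +kernel)) (mul_of (by decide +kernel) : _ = L4 a12) (mul_of (by decide +kernel))
    ((mul_of (L3 := [[1, 0, 0, 0], [0, 1, 0, 0], [0, 0, 1, 0], [0, 0, 0, 1]]) (by decide +kernel)).trans
      (one_of (by decide +kernel)))

theorem chU : U4 u1 ^ 65 = 1 ∧ U4 u1 ^ 5 = U4 u5 ∧ U4 u1 ^ 13 = U4 u13 :=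
  chain (mul_of (by decide +kernel) : _ = U4 u2) (mul_of (by decide +kernel) : _ = U4 u4)
    (mul_of (by decide +kernel) : _ = U4 u8) (mul_of (by decide +kernel) : _ = U4 u16)
    (mul_of (by decide +kernel) : _ = U4 u32) (mul_of (by decide +kernel) : _ = U4 u64)
    (mul_of (by decide +kernel)) (mul_of (by decide +kernel) : _ = U4 u12) (mul_of (by decide +kernel))
    ((mul_of (L3 := [[1, 0, 0, 0], [0, 1, 0, 0], [0, 0, 1, 0], [0, 0, 0, 1]]) (by decide +kernel)).trans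
      (one_of (by decide +kernel)))

end H47.Mat65
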