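import Cfsg.Agent.Lib.H47.WEnum
import Cfsg.Agent.Lib.H22.ChevMain

/-!
Orders of products of root elements with parameter 1 by computation with lists of integers modulo the
characteristic.
-/

set_option autoImplicit false
set_option linter.unusedVariables false
set_option linter.unusedSectionVars false

namespace H47.MatWord

open H22.ChevRel H22.ChevMain H47.WEnum
open Cfsg.Lie (ChevalleyDatum)
open scoped MatrixGroups Matrix

variable (D : ChevalleyDatum)

/-- the number of rows -/
def nn : ℕ := D.rank + D.nroots

/-- numbering of the basis -/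
def ix : D.Idx → ℕ
  | Sum.inl i => i.val
  | Sum.inr s => D.rank + s.val

theorem ix_lt (i : D.Idx) : ix D i < nn D := by
  unfold nn
  rcases i with i | s
  · have := i.2; simp only [ix]; omega
  · have := s.2; simp only [ix]; omega

theorem ix_inj {i j : D.Idx} (h : ix D i = ix D j) : i = j := by
  rcases i with i | i <;> rcases j with j | j <;> simp only [ix] at h
  · exact congrArg _ (Fin.ext h)
  · have := i.2; omega
  · have := j.2; omega
  · exact congrArg _ (Fin.ext (by omega))

theorem ix_surj {k : ℕ} (hk : k < nn D) : ∃ i, ix D i = k := by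
  unfold nn at hk
  by_cases h : k < D.rank
  · exact ⟨Sum.inl ⟨k, h⟩, rfl⟩
  · exact ⟨Sum.inr ⟨k - D.rank, by omega⟩, by simp only [ix]; omega⟩

theorem sum_ix {M : Type*} [AddCommMonoid M] (f : ℕ → M) : ∑ i : D.Idx, f (ix D i) = ∑ k ∈ Finset.range (nn D), f k := by
  unfold nn
  rw [Fintype.sum_sum_type, Finset.sum_range_add, Finset.sum_range, Finset.sum_range]
  rfl

/-- integer entries of the root elements with parameter 1 -/
def en (r row col : ℕ) : ℤ :=
  if col < D.rank then
    (if row < D.rank then (if row = col then 1 else 0)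
     else if row - D.rank = r then -((D.cartanSR.getD col #[]).getD r 0) else 0)
  else
    if col - D.rank = r then (if row < D.rank then 0 else if row - D.rank = r then 1 else 0)
    else if col - D.rank = D.negIdx.getD r 0 then
      (if row < D.rank then (D.coroot.getD r #[]).getD row 0
       else if row - D.rank = col - D.rank then 1 else if row - D.rank = r then -1 else 0)
    else
      (if row < D.rank then 0 else
       (if row - D.rank = col - D.rank then 1 else 0) +
         ((D.chainCoeff r (col - D.rank) (row - D.rank)).map fun km => km.2).sum)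

/-- the matrix of a root element -/
def mm (r : ℕ) : List (List ℤ) :=
  (List.range (nn D)).map fun row => (List.range (nn D)).map fun col => en D r row col

section rep

variable {F : Type*} [Field F]

/-- lists representing matrices -/
def Rp (L : List (List ℤ)) (A : Matrix D.Idx D.Idx F) : Prop :=
  L.length = nn D ∧ (∀ r ∈ L, r.length = nn D) ∧
    ∀ i j, A i j = (((L.getD (ix D i) []).getD (ix D j) 0 : ℤ) : F)

theorem getD_map2 (f : ℕ → ℕ → ℤ) {n i j : ℕ} (hi : i < n) (hj : j < n) :
    (((List.range n).map fun row => (List.range n).map fun col => f row col).getD i []).getD j 0 = f i j := by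
  have h1 : ((List.range n).map fun row => (List.range n).map fun col => f row col).getD i [] =
      (List.range n).map fun col => f i col := by
    rw [List.getD_eq_getElem _ _ (by simpa using hi)]
    simp only [List.getElem_map, List.getElem_range]
  rw [h1, List.getD_eq_getElem _ _ (by simpa using hj)]
  simp only [List.getElem_map, List.getElem_range]

theorem ix_inl (i : Fin D.rank) : ix D (Sum.inl i) = i.val := rfl

theorem ix_inr (s : Fin D.nroots) : ix D (Sum.inr s) = D.rank + s.val := rfl

theorem mm_rep {r : ℕ} (hr : r < D.nroots) : Rp D (mm D r) (D.x F r 1) := by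
  refine ⟨by simp [mm], ?_, ?_⟩
  · intro l hl
    unfold mm at hl
    rw [List.mem_map] at hl
    obtain ⟨_, _, rfl⟩ := hl
    simp
  · intro row col
    unfold mm
    rw [getD_map2 (fun a b => en D r a b) (ix_lt D row) (ix_lt D col)]
    unfold ChevalleyDatum.x
    rw [dif_pos hr]
    unfold ChevalleyDatum.xMat
    simp only [Matrix.of_apply]
    unfold en
    rcases col with i | s
    · have hi := i.2
      rw [if_pos (show ix D (Sum.inl i) < D.rank from hi)]
      rcases row with i' | u
      · have hi' := i'.2
        rw [if_pos (show ix D (Sum.inl i') < D.rank from hi'), ix_inl, ix_inl]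
        dsimp only
        by_cases h : i' = i
        · rw [if_pos h, if_pos (by rw [h])]; simp
        · rw [if_neg h, if_neg (fun h' => h (Fin.ext h'))]; simp
      · rw [if_neg (show ¬ ix D (Sum.inr u) < D.rank by simp [ix]), ix_inl, ix_inr,
          Nat.add_sub_cancel_left]
        dsimp only
        by_cases h : u = ⟨r, hr⟩
        · rw [if_pos h, if_pos (by rw [h])]; simp
        · rw [if_neg h, if_neg (fun h' => h (Fin.ext h'))]; simp
    · rw [if_neg (show ¬ ix D (Sum.inr s) < D.rank by simp [ix]), ix_inr, Nat.add_sub_cancel_left]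
      dsimp only
      by_cases h1 : s = ⟨r, hr⟩
      · rw [if_pos h1, if_pos (by rw [h1])]
        rcases row with i' | u
        · have hi' := i'.2
          rw [if_pos (show ix D (Sum.inl i') < D.rank from hi')]; simp
        · rw [if_neg (show ¬ ix D (Sum.inr u) < D.rank by simp [ix]), ix_inr, Nat.add_sub_cancel_left]
          dsimp only
          by_cases h : u = ⟨r, hr⟩
          · rw [if_pos h, if_pos (by rw [h])]; simp
          · rw [if_neg h, if_neg (fun h' => h (Fin.ext h'))]; simp
      · rw [if_neg h1, if_neg (fun h' => h1 (Fin.ext h'))]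
        by_cases h2 : s.val = D.negIdx.getD r 0
        · rw [if_pos h2, if_pos h2]
          rcases row with i' | u
          · have hi' := i'.2
            rw [if_pos (show ix D (Sum.inl i') < D.rank from hi'), ix_inl]; simp
          · rw [if_neg (show ¬ ix D (Sum.inr u) < D.rank by simp [ix]), ix_inr, Nat.add_sub_cancel_left]
            dsimp only
            by_cases h : u = s
            · rw [if_pos h, if_pos (by rw [h])]; simp
            · rw [if_neg h, if_neg (fun h' => h (Fin.ext h'))]
              by_cases h3 : u = ⟨r, hr⟩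
              · rw [if_pos h3, if_pos (by rw [h3])]; simp
              · rw [if_neg h3, if_neg (fun h' => h3 (Fin.ext h'))]; simp
        · rw [if_neg h2, if_neg h2]
          rcases row with i' | u
          · have hi' := i'.2
            rw [if_pos (show ix D (Sum.inl i') < D.rank from hi')]; simp
          · rw [if_neg (show ¬ ix D (Sum.inr u) < D.rank by simp [ix]), ix_inr, Nat.add_sub_cancel_left]
            dsimp only
            rw [Int.cast_add, Int.cast_list_sum, List.map_map]
            congr 1
            · by_cases h : u = s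
              · rw [if_pos h, if_pos (by rw [h])]; simp
              · rw [if_neg h, if_neg (fun h' => h (Fin.ext h'))]; simp
            · congr 1
              apply List.map_congr_left
              intro km _
              simp

/-- product of matrices modulo `p` -/
def ml (p : ℕ) (A B : List (List ℤ)) : List (List ℤ) :=
  A.map fun r => (vm (nn D) r B).map fun a => a % (p : ℤ)

variable (p : ℕ) [CharP F p]

theorem ml_rep {A B : Matrix D.Idx D.Idx F} {L M : List (List ℤ)} (hA : Rp D L A) (hB : Rp D M B) :
    Rp D (ml D p L M) (A * B) := by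
  have hv : ∀ x : List ℤ, x.length = nn D → (vm (nn D) x M).length = nn D ∧ ∀ j < nn D,
      (vm (nn D) x M).getD j 0 = ∑ i ∈ Finset.range (nn D), x.getD i 0 * (M.getD i []).getD j 0 :=
    fun x hx => vm_spec (nn D) x M hx hB.1 hB.2.1
  refine ⟨by simp [ml, hA.1], ?_, ?_⟩
  · intro r hr
    unfold ml at hr
    rw [List.mem_map] at hr
    obtain ⟨x, hx, rfl⟩ := hr
    rw [List.length_map]
    exact (hv x (hA.2.1 x hx)).1
  · intro i j
    have hi := ix_lt D i
    have hj := ix_lt D j
    have hrow : L.getD (ix D i) [] ∈ L := by
      rw [List.getD_eq_getElem _ _ (by rw [hA.1]; exact hi)]; exact List.getElem_mem _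
    obtain ⟨h1, h2⟩ := hv _ (hA.2.1 _ hrow)
    have e1 : (ml D p L M).getD (ix D i) [] = (vm (nn D) (L.getD (ix D i) []) M).map fun a => a % (p : ℤ) := by
      unfold ml
      rw [List.getD_eq_getElem _ _ (by rw [List.length_map, hA.1]; exact hi), List.getElem_map,
        List.getD_eq_getElem L _ (by rw [hA.1]; exact hi)]
    have e2 : ((ml D p L M).getD (ix D i) []).getD (ix D j) 0 =
        (vm (nn D) (L.getD (ix D i) []) M).getD (ix D j) 0 % (p : ℤ) := by
      rw [e1, List.getD_eq_getElem _ _ (by rw [List.length_map, h1]; exact hj), List.getElem_map,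
        List.getD_eq_getElem (vm (nn D) (L.getD (ix D i) []) M) _ (by rw [h1]; exact hj)]
    have e3 : ((((vm (nn D) (L.getD (ix D i) []) M).getD (ix D j) 0 % (p : ℤ) : ℤ)) : F) =
        (((vm (nn D) (L.getD (ix D i) []) M).getD (ix D j) 0 : ℤ) : F) := by
      rw [CharP.intCast_eq_intCast F p]
      exact Int.mod_modEq _ _
    rw [e2, e3, h2 _ hj, Matrix.mul_apply, Int.cast_sum, ← sum_ix D (fun k =>
      ((((L.getD (ix D i) []).getD k 0 * (M.getD k []).getD (ix D j) 0 : ℤ)) : F))]
    refine Finset.sum_congr rfl fun k _ => ?_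
    rw [hA.2.2, hB.2.2, Int.cast_mul]

/-- identity matrix -/
def il : List (List ℤ) := (List.range (nn D)).map fun row => (List.range (nn D)).map fun col =>
  if row = col then 1 else 0

theorem il_rep : Rp D (il D) (1 : Matrix D.Idx D.Idx F) := by
  refine ⟨by simp [il], ?_, ?_⟩
  · intro l hl
    unfold il at hl
    rw [List.mem_map] at hl
    obtain ⟨_, _, rfl⟩ := hl
    simp
  · intro i j
    unfold il
    rw [getD_map2 (fun a b => if a = b then 1 else 0) (ix_lt D i) (ix_lt D j), Matrix.one_apply]
    by_cases h : i = j
    · rw [if_pos h, if_pos (by rw [h])]; simp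
    · rw [if_neg h, if_neg (fun h' => h (ix_inj D h'))]; simp

/-- words -/
def wl (p : ℕ) (w : List ℕ) : List (List ℤ) := w.foldr (fun r M => ml D p (mm D r) M) (il D)

/-- powers -/
def pl (p : ℕ) (A : List (List ℤ)) : ℕ → List (List ℤ)
  | 0 => il D
  | k + 1 => ml D p A (pl p A k)

theorem pl_rep {A : Matrix D.Idx D.Idx F} {L : List (List ℤ)} (hA : Rp D L A) (k : ℕ) :
    Rp D (pl D p L k) (A ^ k) := by
  induction k with
  | zero => rw [pow_zero]; exact il_rep D
  | succ k ih => rw [pow_succ']; exact ml_rep D p hA ih

/-- the check for the identity -/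
def one? (p : ℕ) (L : List (List ℤ)) : Bool :=
  (List.range (nn D)).all fun i => (List.range (nn D)).all fun j =>
    ((L.getD i []).getD j 0 - if i = j then 1 else 0) % (p : ℤ) == 0

theorem one_iff {A : Matrix D.Idx D.Idx F} {L : List (List ℤ)} (hA : Rp D L A) :
    A = 1 ↔ one? D p L = true := by
  unfold one?
  simp only [List.all_eq_true, List.mem_range, beq_iff_eq]
  constructor
  · rintro rfl i hi j hj
    obtain ⟨i, rfl⟩ := ix_surj D hi
    obtain ⟨j, rfl⟩ := ix_surj D hj
    have h1 := (hA.2.2 i j).symm
    have h2 := (il_rep (F := F) D).2.2 i j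
    unfold il at h2
    rw [getD_map2 (fun a b => if a = b then 1 else 0) (ix_lt D i) (ix_lt D j)] at h2
    rw [h2, CharP.intCast_eq_intCast F p] at h1
    exact Int.emod_eq_zero_of_dvd (Int.ModEq.dvd h1.symm)
  · intro h
    ext i j
    rw [hA.2.2]
    have h2 := (il_rep (F := F) D).2.2 i j
    unfold il at h2
    rw [getD_map2 (fun a b => if a = b then 1 else 0) (ix_lt D i) (ix_lt D j)] at h2
    rw [h2, CharP.intCast_eq_intCast F p]
    exact (Int.modEq_iff_dvd.2 (Int.dvd_of_emod_eq_zero (h _ (ix_lt D i) _ (ix_lt D j)))).symm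

variable (R : Rel D F)

/-- group elements of words -/
def wg (w : List ℕ) : GL D.Idx F := (w.map fun r => xg R r 1).prod

theorem wg_rep {w : List ℕ} (hw : ∀ r ∈ w, r < D.nroots) :
    Rp D (wl D p w) ((wg D R w : GL D.Idx F) : Matrix D.Idx D.Idx F) := by
  induction w with
  | nil => exact il_rep D
  | cons r w ih =>
    have h1 : ((wg D R (r :: w) : GL D.Idx F) : Matrix D.Idx D.Idx F) =
        D.x F r 1 * ((wg D R w : GL D.Idx F) : Matrix D.Idx D.Idx F) := by
      unfold wg
      rw [List.map_cons, List.prod_cons, Units.val_mul, xg_val]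
    rw [h1]
    exact ml_rep D p (mm_rep D (hw r (by simp))) (ih fun s hs => hw s (by simp [hs]))

theorem wg_mem {w : List ℕ} (hw : ∀ r ∈ w, r < D.nroots) : wg D R w ∈ D.group F := by
  unfold wg
  apply Subgroup.list_prod_mem
  intro x hx
  rw [List.mem_map] at hx
  obtain ⟨r, hr, rfl⟩ := hx
  exact xg_mem_group R (hw r hr) 1

/-- powers of words -/
theorem wg_pow {w : List ℕ} (hw : ∀ r ∈ w, r < D.nroots) (k : ℕ) :
    wg D R w ^ k = 1 ↔ one? D p (pl D p (wl D p w) k) = true := by
  rw [← one_iff D p (pl_rep D p (wg_rep D p R hw) k), ← Units.val_pow_eq_pow_val]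
  exact ⟨fun h => by rw [h, Units.val_one], fun h => Units.ext (by rw [h, Units.val_one])⟩

include R in
/-- elements of the group from words -/
theorem exists_word {w : List ℕ} (hw : ∀ r ∈ w, r < D.nroots) {n : ℕ} (hn : 0 < n)
    (h1 : one? D p (pl D p (wl D p w) n) = true)
    (h2 : ∀ q : ℕ, q.Prime → q ∣ n → one? D p (pl D p (wl D p w) (n / q)) = false) :
    ∃ g : ↥(D.group F), orderOf g = n := by
  refine ⟨⟨wg D R w, wg_mem D R hw⟩, ?_⟩
  have e := orderOf_injective (D.group F).subtype Subtype.val_injective
    (⟨wg D R w, wg_mem D R hw⟩ : ↥(D.group F))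
  rw [← e]
  refine orderOf_eq_of_pow_and_pow_div_prime hn ((wg_pow D p R hw n).2 h1) fun q hq hqn h => ?_
  have := (wg_pow D p R hw (n / q)).1 h
  rw [h2 q hq hqn] at this
  exact absurd this (by decide)

end rep

end H47.MatWord
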