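import Cfsg.Agent.Lib.H22.RGDExtra
import Cfsg.Agent.Lib.H47.CoreSeq

/-!
Maximal parabolic subgroups in abstract root group systems.
-/

set_option autoImplicit false

namespace H47.MaxPar

open H22.RGD

variable {G : Type*} [Group G] {Φ I : Type*} {C : RootComb Φ I} (S : Sys G C)

/-- left descents of monomial elements of an overgroup of `B` -/
theorem n_mem_of_descent {Q : Subgroup G} (hB : S.B ≤ Q) {m : G} {w : Equiv.Perm Φ}
    (hm : S.Rep m w) (hmQ : m ∈ Q) {i : I} (hi : ¬ C.pos (w⁻¹ (C.simple i))) : S.n i ∈ Q := by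
  have h1 : S.X (C.neg (C.simple i)) ≤ Q := by
    have h2 : cj m (S.X (w⁻¹ (C.neg (C.simple i)))) = S.X (C.neg (C.simple i)) := by
      rw [hm.2.2]; simp
    have h3 : C.pos (w⁻¹ (C.neg (C.simple i))) := by
      rw [hm.inv.neg, C.pos_neg]; exact hi
    rw [← h2]
    rintro _ ⟨y, hy, rfl⟩
    exact Q.mul_mem (Q.mul_mem hmQ (hB (S.U_le_B (S.X_le_U h3 hy)))) (Q.inv_mem hmQ)
  obtain ⟨x, hx, hx1⟩ := (Subgroup.bot_or_exists_ne_one (S.X (C.neg (C.simple i)))).resolve_left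
    (S.nontriv _)
  obtain ⟨y, hy, h, hh, z, hz, e⟩ := S.rank_one i x hx hx1
  have e2 : S.n i = y⁻¹ * x * z⁻¹ * h⁻¹ := by rw [e]; simp [mul_assoc]
  have hX : S.X (C.simple i) ≤ Q := (S.X_le_U (C.simple_pos i)).trans (S.U_le_B.trans hB)
  rw [e2]
  exact Q.mul_mem (Q.mul_mem (Q.mul_mem (Q.inv_mem (hX hy)) (h1 hx)) (Q.inv_mem (hX hz)))
    (Q.inv_mem (hB (S.H_le_B hh)))

theorem n_mem_of_conj {Q : Subgroup G} (hB : S.B ≤ Q) {i k : I}
    (hik : C.refl i (C.simple k) ≠ C.simple k) (hne : C.simple k ≠ C.simple i) {b : G}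
    (hb : b ∈ S.B) (h : S.n k * (S.n i * b) * (S.n k)⁻¹ ∈ Q) : S.n k ∈ Q := by
  have hg : S.Rep ((S.n i)⁻¹ * (S.n k)⁻¹) (C.refl i * C.refl k) := by
    have := (S.rep_n i).inv.mul (S.rep_n k).inv
    rwa [C.refl_inv, C.refl_inv] at this
  have hpos : C.pos (C.refl i (C.simple k)) := C.refl_pos i _ (C.simple_pos k) hne
  have h1 : S.n k * b⁻¹ * ((S.n i)⁻¹ * (S.n k)⁻¹) ∈ Q := by
    have := Q.inv_mem h
    simpa [mul_assoc] using this
  rcases S.mul_mem_cases k hg (S.B.inv_mem hb) with ⟨b₁, hb₁, b₂, hb₂, e⟩ |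
    ⟨_, b₁, hb₁, b₂, hb₂, e⟩
  · rw [e] at h1
    have h2 : S.n k * ((S.n i)⁻¹ * (S.n k)⁻¹) ∈ Q := by
      have := Q.mul_mem (Q.mul_mem (Q.inv_mem (hB hb₁)) h1) (Q.inv_mem (hB hb₂))
      simpa [mul_assoc] using this
    refine n_mem_of_descent S hB ((S.rep_n k).mul hg) h2 ?_
    rw [mul_inv_rev, mul_inv_rev, C.refl_inv, C.refl_inv, Equiv.Perm.mul_apply,
      Equiv.Perm.mul_apply, C.refl_simple, C.refl_neg, C.refl_neg]
    exact C.not_pos_neg _ (C.refl_pos k _ hpos hik)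
  · rw [e] at h1
    have h2 : (S.n i)⁻¹ * (S.n k)⁻¹ ∈ Q := by
      have := Q.mul_mem (Q.mul_mem (Q.inv_mem (hB hb₁)) h1) (Q.inv_mem (hB hb₂))
      simpa [mul_assoc] using this
    refine n_mem_of_descent S hB hg.inv (Q.inv_mem h2) ?_
    rw [inv_inv, Equiv.Perm.mul_apply, C.refl_simple, C.refl_neg]
    exact C.not_pos_neg _ hpos

/-- adjacency of two nodes -/
def Adj (C : RootComb Φ I) (i k : I) : Prop :=
  C.refl i (C.simple k) ≠ C.simple k ∧ C.simple k ≠ C.simple i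

/-- a subgroup normalised by `P_J` contained in `P_J ∩ n_j P_J n_j⁻¹` lies in `B`. -/
theorem le_B [Finite Φ] {J : Set I} {j : I} (hj : j ∉ J) (hJ : ∀ i, S.n i ∈ S.par J → i ∈ J)
    (hconn : ∀ P : Set I, P ⊆ J → P.Nonempty → (∀ i ∈ P, ∀ k ∈ J, Adj C i k → k ∈ P) →
      ∃ i ∈ P, Adj C i j)
    {K : Subgroup G} (hK : K ≤ S.par J) (hst : S.par J ≤ stabSub K)
    (hK' : K ≤ cj (S.n j) (S.par J)) : K ≤ S.B := by
  by_contra hcon
  obtain ⟨k, hk, hkB⟩ := SetLike.not_le_iff_exists.1 hcon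
  have hBst : S.B ≤ stabSub K := (S.B_le_par J).trans hst
  set Q := K ⊔ S.B with hQ
  have hBQ : S.B ≤ Q := le_sup_right
  have hQM : Q ≤ S.par J := sup_le hK (S.B_le_par J)
  obtain ⟨b₁, hb₁, m, hm, b₂, hb₂, e⟩ := S.bruhat (S.par_le_Γ J (hK hk))
  have hmQ : m ∈ Q := by
    have hkQ : k ∈ Q := Subgroup.mem_sup_left hk
    rw [e] at hkQ
    have := Q.mul_mem (Q.mul_mem (Q.inv_mem (hBQ hb₁)) hkQ) (Q.inv_mem (hBQ hb₂))
    simpa [mul_assoc] using this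
  obtain ⟨w, hw⟩ := S.exists_rep hm
  have hlen : C.len w ≠ 0 := by
    intro h0
    apply hkB
    rw [e]
    exact S.B.mul_mem (S.B.mul_mem hb₁ (S.H_le_B (S.mem_H_of_len_zero hw h0))) hb₂
  obtain ⟨i, hi⟩ := S.exists_left_descent hw.2.1 hlen
  have hiQ : S.n i ∈ Q := n_mem_of_descent S hBQ hw hmQ hi
  have hform : ∀ i, S.n i ∈ Q → ∃ b ∈ S.B, S.n i * b ∈ K := by
    intro i hi
    rw [hQ, mem_sup_of_normalizes hBst] at hi
    obtain ⟨κ, hκ, b, hb, e⟩ := hi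
    exact ⟨b⁻¹, S.B.inv_mem hb, by rw [e]; simpa using hκ⟩
  obtain ⟨i', hi'Q, hadj⟩ := hconn {i | S.n i ∈ Q} (fun i hi => hJ i (hQM hi)) ⟨i, hiQ⟩ (by
    intro i hi k hk hadj
    obtain ⟨b, hb, hK⟩ := hform i hi
    have h1 : S.n k * (S.n i * b) * (S.n k)⁻¹ ∈ Q :=
      Subgroup.mem_sup_left (conj_mem_of_stabSub (hst (S.n_mem_par hk)) hK)
    exact n_mem_of_conj S hBQ hadj.1 hadj.2 hb h1)
  obtain ⟨b, hb, hKb⟩ := hform i' hi'Q
  have h1 := hK' hKb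
  rw [mem_cj] at h1
  apply hj
  apply hJ
  have hH : S.H ≤ S.par J := S.H_le_B.trans (S.B_le_par J)
  have h2 : S.n j * (S.n i' * b) * (S.n j)⁻¹ ∈ S.par J := by
    have h3 := (S.par J).mul_mem ((S.par J).mul_mem (hH (S.n_sq j)) h1)
      ((S.par J).inv_mem (hH (S.n_sq j)))
    have h4 : S.n j * S.n j * ((S.n j)⁻¹ * (S.n i' * b) * S.n j) * (S.n j * S.n j)⁻¹ =
        S.n j * (S.n i' * b) * (S.n j)⁻¹ := by simp [mul_assoc]
    rwa [h4] at h3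
  exact n_mem_of_conj S (S.B_le_par J) hadj.1 hadj.2 hb h2

/-- from `U` to the unipotent radical -/
theorem le_radical {M U1 UL K : Subgroup G} (hU1 : U1 ≤ S.U) (hM1 : M ≤ stabSub U1) (hUL : UL ≤ M)
    (hsup : S.U ≤ U1 ⊔ UL) {n : G} (hn : n ∈ M) (hnV : cj n UL ≤ S.V) (hK : K ≤ S.U)
    (hMK : M ≤ stabSub K) : K ≤ U1 := by
  intro k hk
  obtain ⟨u, hu, l, hl, rfl⟩ := (mem_sup_of_normalizes (hUL.trans hM1)).1 (hsup (hK hk))
  have h1 : n * l * n⁻¹ ∈ S.V := hnV (conj_mem_cj hl)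
  have h2 : n * l * n⁻¹ ∈ S.U := by
    have e : n * l * n⁻¹ = (n * u * n⁻¹)⁻¹ * (n * (u * l) * n⁻¹) := by simp [mul_assoc]
    rw [e]
    exact S.U.mul_mem (S.U.inv_mem (hU1 (conj_mem_of_stabSub (hM1 hn) hu)))
      (hK (conj_mem_of_stabSub (hMK hn) hk))
  have h3 : n * l * n⁻¹ = 1 := S.eq_one_of_mem_B_V (S.U_le_B h2) h1
  have h4 : l = 1 := by
    have : l = n⁻¹ * (n * l * n⁻¹) * n := by simp [mul_assoc]
    rw [this, h3]; simp
  rw [h4, mul_one]; exact hu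

/-- maximality -/
theorem eq_Γ_of_not_le [Finite Φ] {j : I} {Q : Subgroup G} (hle : S.par {i | i ≠ j} ≤ Q)
    (hΓ : Q ≤ S.Γ) (hn : ¬ Q ≤ S.par {i | i ≠ j}) : Q = S.Γ := by
  have hBQ : S.B ≤ Q := (S.B_le_par _).trans hle
  have key : ∀ k, ∀ m w, S.Rep m w → m ∈ Q → m ∉ S.par {i | i ≠ j} → C.len w = k → S.n j ∈ Q := by
    intro k
    induction k with
    | zero =>
      intro m w hw _ hm hk
      exact absurd (S.B_le_par _ (S.H_le_B (S.mem_H_of_len_zero hw hk))) hm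
    | succ k ih =>
      intro m w hw hmQ hm hk
      obtain ⟨i, hi⟩ := S.exists_left_descent hw.2.1 (by omega)
      have hiQ : S.n i ∈ Q := n_mem_of_descent S hBQ hw hmQ hi
      by_cases hij : i = j
      · rw [← hij]; exact hiQ
      · have h1 := (S.rep_n i).mul hw
        have h2 := C.len_refl_mul_of_neg hw.2.1 i hi
        have hiP : S.n i ∈ S.par {i | i ≠ j} := S.n_mem_par hij
        refine ih _ _ h1 (Q.mul_mem hiQ hmQ) (fun h => hm ?_) (by omega)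
        have := (S.par {i | i ≠ j}).mul_mem ((S.par _).inv_mem hiP) h
        simpa using this
  obtain ⟨g, hg, hgM⟩ := SetLike.not_le_iff_exists.1 hn
  obtain ⟨b₁, hb₁, m, hm, b₂, hb₂, rfl⟩ := S.bruhat (hΓ hg)
  obtain ⟨w, hw⟩ := S.exists_rep hm
  have hmQ : m ∈ Q := by
    have := Q.mul_mem (Q.mul_mem (Q.inv_mem (hBQ hb₁)) hg) (Q.inv_mem (hBQ hb₂))
    simpa [mul_assoc] using this
  have hmM : m ∉ S.par {i | i ≠ j} := fun h => hgM ((S.par _).mul_mem ((S.par _).mul_mem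
    (S.B_le_par _ hb₁) h) (S.B_le_par _ hb₂))
  have hj := key _ m w hw hmQ hmM rfl
  refine le_antisymm hΓ (sup_le hBQ (sup_le (S.H_le_B.trans hBQ) ?_))
  rw [Subgroup.closure_le]
  rintro _ ⟨i, rfl⟩
  by_cases hij : i = j
  · rw [hij]; exact hj
  · exact hle (S.n_mem_par hij)

end H47.MaxPar
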