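import Cfsg.Agent.Lib.H22.StBasic
import Cfsg.Agent.Lib.H47.MaxPar

/-!
The level filtration of the unipotent radical of a parabolic subgroup of a Chevalley group.
-/

set_option autoImplicit false

namespace H47.ParLevel

open H22.RGD H22.Coord H22.RCCheck H22.RCComb H22.ChevTri H22.ChevRel H22.ChevSys H22.ChevMain
open H22.ChevStd H22.ChevPar H22.ChevSolv H22.ChevUni H22.St
open Cfsg.Lie (ChevalleyDatum)
open scoped MatrixGroups Matrix

variable {D : ChevalleyDatum} {F : Type*} [Field F] (R : Rel D F) (X : RCX D)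

/-- the group generated by the root subgroups of a set of roots -/
def gen (F : Type*) [Field F] (Ψ : Set (Fin D.nroots)) : Subgroup (GL D.Idx F) :=
  ⨆ s : {s : Fin D.nroots // s ∈ Ψ}, D.rootSubgroup F (s : Fin D.nroots)

theorem X_le_gen {Ψ : Set (Fin D.nroots)} {s : Fin D.nroots} (h : s ∈ Ψ) :
    D.rootSubgroup F s ≤ gen F Ψ :=
  le_iSup (fun s : {s : Fin D.nroots // s ∈ Ψ} => D.rootSubgroup F (s : Fin D.nroots)) ⟨s, h⟩

theorem xg_mem_gen {Ψ : Set (Fin D.nroots)} {s : ℕ} (hs : s < D.nroots)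
    (h : (⟨s, hs⟩ : Fin D.nroots) ∈ Ψ) (t : F) : xg R s t ∈ gen F Ψ :=
  X_le_gen (s := ⟨s, hs⟩) h (xg_mem R s t)

theorem gen_le {Ψ : Set (Fin D.nroots)} {K : Subgroup (GL D.Idx F)}
    (h : ∀ s ∈ Ψ, ∀ t, xg R (s : ℕ) t ∈ K) : gen F Ψ ≤ K := by
  refine iSup_le fun s => ?_
  intro x hx
  rw [mem_rootSubgroup R] at hx
  obtain ⟨t, rfl⟩ := hx
  exact h s s.2 t

include R in
theorem gen_mono {Ψ Ψ' : Set (Fin D.nroots)} (h : Ψ ⊆ Ψ') : gen F Ψ ≤ gen F Ψ' :=
  gen_le R fun s hs t => xg_mem_gen R s.2 (h hs) t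

include R in
theorem gen_insert {Ψ : Set (Fin D.nroots)} (r : Fin D.nroots) :
    gen F (insert r Ψ) = gen F Ψ ⊔ D.rootSubgroup F r := by
  apply le_antisymm
  · refine gen_le R fun s hs t => ?_
    rcases hs with rfl | hs
    · exact Subgroup.mem_sup_right (xg_mem R _ t)
    · exact Subgroup.mem_sup_left (xg_mem_gen R s.2 hs t)
  · exact sup_le (gen_mono R (Set.subset_insert _ _)) (X_le_gen (Set.mem_insert _ _))

include R in
/-- a sufficient condition for a root subgroup to normalise `gen Ψ` -/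
theorem X_le_stab_gen {Ψ : Set (Fin D.nroots)} (r : Fin D.nroots)
    (h1 : ∀ s ∈ Ψ, (s : ℕ) ≠ D.neg r)
    (h2 : ∀ s ∈ Ψ, ∀ k : Fin D.nroots, ∀ a b : ℕ, 1 ≤ a → 1 ≤ b →
      (∀ j < D.rank, X.rc.co k j = a * X.rc.co r j + b * X.rc.co s j) → k ∈ Ψ) :
    D.rootSubgroup F r ≤ stabSub (gen F Ψ) := by
  by_cases hr : r ∈ Ψ
  · intro x hx
    exact cj_eq_self_of_mem (X_le_gen hr hx)
  · refine iSup_stab R (fun s : {s : Fin D.nroots // s ∈ Ψ} => ((s : Fin D.nroots) : ℕ)) ?_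
    intro a ha s u
    rw [mem_rootSubgroup R] at ha
    obtain ⟨t, rfl⟩ := ha
    obtain ⟨s, hs⟩ := s
    refine conj_mem_of_closed R X.rc r.2 s.2 (fun h => hr ?_) (h1 s hs)
      (fun u => xg_mem_gen R s.2 hs u) ?_ t u
    · have : s = r := Fin.ext h
      rw [← this]; exact hs
    · intro k hk a b ha hb hco v
      exact xg_mem_gen R hk (h2 s hs ⟨k, hk⟩ a b ha hb hco) v

/-- the level `≥ i` part -/
def Lv (X : RCX D) (J : Set ℕ) (i : ℕ) : Set (Fin D.nroots) := {s | (i : ℤ) ≤ fr X.rc (cJ J) s}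

theorem mem_Lv {J : Set ℕ} {i : ℕ} {s : Fin D.nroots} :
    s ∈ Lv X J i ↔ (i : ℤ) ≤ fr X.rc (cJ J) s := Iff.rfl

include R in
/-- the parabolic subgroup in terms of levels -/
theorem par_eq_Lv (J : Set ℕ) :
    D.parabolicSubgroup F J = D.diagonalSubgroup F ⊔ gen F (Lv X J 0) := by
  rw [s1047 R X]
  congr 1
  apply le_antisymm
  · rw [Subgroup.closure_le]
    rintro g ⟨r, t, hr, hg⟩
    rw [xg_eq R hg]
    have hrl : r < D.nroots := by rcases hr with h | h <;> exact h.1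
    refine xg_mem_gen R hrl ?_ t
    rw [mem_Lv]
    rcases hr with h | h
    · exact_mod_cast fr_nonneg X.rc J hrl ((X.rc.isPos_iff r hrl).1 h)
    · simp only [(inRootSub_iff X.rc J hrl).1 h]; rfl
  · refine gen_le R fun s hs t => ?_
    rw [mem_Lv] at hs
    refine Subgroup.subset_closure ⟨s, t, ?_, rfl⟩
    by_cases hp : X.rc.half ≤ (s : ℕ)
    · left; exact (X.rc.isPos_iff s s.2).2 hp
    · right
      rw [inRootSub_iff X.rc J s.2]
      have := fr_neg_of_neg X.rc J s.2 hp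
      push_cast at hs
      omega

include R in
theorem par_le_stab (J : Set ℕ) {i : ℕ} (hi : 1 ≤ i) :
    D.parabolicSubgroup F J ≤ stabSub (gen F (Lv X J i)) := by
  rw [par_eq_Lv R X]
  refine sup_le ((chevSys R X).H_le_stab_iSup _) ?_
  refine iSup_le fun s => ?_
  obtain ⟨r, hr⟩ := s
  rw [mem_Lv] at hr
  push_cast at hr
  refine X_le_stab_gen R X r ?_ ?_
  · intro s hs e
    rw [mem_Lv, e, fr_neg X.rc _ r.2] at hs
    omega
  · intro s hs k a b _ hb hco
    rw [mem_Lv] at hs ⊢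
    rw [fr_lin X.rc _ hco]
    have h1 : 0 ≤ (a : ℤ) * fr X.rc (cJ J) r := mul_nonneg (Int.natCast_nonneg a) hr
    have h2 : (1 : ℤ) * fr X.rc (cJ J) s ≤ (b : ℤ) * fr X.rc (cJ J) s :=
      mul_le_mul_of_nonneg_right (by exact_mod_cast hb) (by omega)
    omega

include R in
theorem gen_Lv_le_par (J : Set ℕ) (i : ℕ) : gen F (Lv X J i) ≤ D.parabolicSubgroup F J := by
  rw [par_eq_Lv R X]
  refine le_sup_of_le_right (gen_mono R fun s hs => ?_)
  rw [mem_Lv] at hs ⊢
  push_cast; omega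

/-! ### matrix coordinates -/

/-- the coordinate functional of a root -/
def ent (Q : RC D) (j : Fin D.rank) (r : Fin D.nroots) (g : GL D.Idx F) : F :=
  (g : Matrix D.Idx D.Idx F) (Sum.inl j) (Sum.inr ⟨D.neg r, neg_lt Q r.2⟩)

theorem ent_one (Q : RC D) (j : Fin D.rank) (r : Fin D.nroots) :
    ent Q j r (1 : GL D.Idx F) = 0 := by
  unfold ent; rw [Units.val_one, Matrix.one_apply_ne (by simp)]

theorem ent_mul (Q : RC D) (c : ℕ → ℤ) {i : ℕ} {g h : GL D.Idx F} (hg : g ∈ Uk F (fn Q c) i)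
    (hh : h ∈ Uk F (fn Q c) i) (j : Fin D.rank) {r : Fin D.nroots}
    (hr : fr Q c r < (i + i : ℕ)) : ent Q j r (g * h) = ent Q j r g + ent Q j r h := by
  have e : ((g * h : GL D.Idx F) : Matrix D.Idx D.Idx F) =
      ((g : Matrix D.Idx D.Idx F) - 1) * ((h : Matrix D.Idx D.Idx F) - 1) +
        ((g : Matrix D.Idx D.Idx F) + ((h : Matrix D.Idx D.Idx F) - 1)) := by
    rw [Units.val_mul]; noncomm_ring
  have h1 := (hg.1.mul hh.1) (Sum.inl j) (Sum.inr ⟨D.neg r, neg_lt Q r.2⟩) (by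
    rw [fn_inl, fn_inr]
    simp only
    rw [fr_neg Q _ r.2]; push_cast at hr ⊢; omega)
  unfold ent
  rw [e, Matrix.add_apply, h1, zero_add, Matrix.add_apply, Matrix.sub_apply,
    Matrix.one_apply_ne (by simp), sub_zero]

/-- the subgroup of elements with a vanishing coordinate -/
def Ek (F : Type*) [Field F] (Q : RC D) (c : ℕ → ℤ) (i : ℕ) (j : Fin D.rank) (r : Fin D.nroots)
    (hr : fr Q c r < (i + i : ℕ)) : Subgroup (GL D.Idx F) where
  carrier := {g | g ∈ Uk F (fn Q c) i ∧ ent Q j r g = 0}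
  one_mem' := ⟨(Uk F (fn Q c) i).one_mem, ent_one Q j r⟩
  mul_mem' := by
    rintro a b ⟨ha, ha'⟩ ⟨hb, hb'⟩
    refine ⟨(Uk F (fn Q c) i).mul_mem ha hb, ?_⟩
    rw [ent_mul Q c ha hb j hr, ha', hb', add_zero]
  inv_mem' := by
    rintro a ⟨ha, ha'⟩
    refine ⟨(Uk F (fn Q c) i).inv_mem ha, ?_⟩
    have := ent_mul Q c ha ((Uk F (fn Q c) i).inv_mem ha) j hr
    rw [mul_inv_cancel, ent_one, ha', zero_add] at this
    exact this.symm

theorem ent_xg_ne (Q : RC D) (c : ℕ → ℤ) (j : Fin D.rank) {r s : Fin D.nroots} (hrs : s ≠ r)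
    {i : ℕ} (hi : 1 ≤ i) (hr : fr Q c r < (i + i : ℕ)) (hs : (i : ℤ) ≤ fr Q c s) (t : F) :
    ent Q j r (xg R s t) = 0 := by
  by_contra hne
  unfold ent at hne
  rw [xg_val] at hne
  obtain ⟨k, hk, hco⟩ := x_entry F Q s.2 t hne (by simp)
  have h1 : ∀ l < D.rank, Q.co r l = k * Q.co s l := by
    intro l hl
    have := hco l hl
    simp only [wt] at this
    rw [co_neg' Q r.2 hl] at this
    omega
  have h2 : fr Q c r = k * fr Q c s := by
    unfold fr
    rw [Finset.mul_sum]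
    refine Finset.sum_congr rfl fun l hl => ?_
    rw [h1 l (Finset.mem_range.1 hl)]; ring
  have h3 : k = 1 := by
    by_contra hk1
    have h4 : (2 : ℤ) * fr Q c s ≤ k * fr Q c s :=
      mul_le_mul_of_nonneg_right (by omega) (by omega)
    push_cast at hr
    omega
  apply hrs
  apply Fin.ext
  refine Q.co_inj s s.2 r r.2 fun l hl => ?_
  rw [h1 l hl, h3]; ring

theorem ent_xg_self (Q : RC D) (j : Fin D.rank) (r : Fin D.nroots) (t : F) :
    ent Q j r (xg R r t) = (((D.coroot.getD r #[]).getD j 0 : ℤ) : F) * t := by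
  unfold ent
  rw [xg_val]
  unfold ChevalleyDatum.x
  rw [dif_pos r.2]
  unfold ChevalleyDatum.xMat
  simp only [Matrix.of_apply]
  have hne : (⟨D.neg r, neg_lt Q r.2⟩ : Fin D.nroots) ≠ ⟨r, r.2⟩ := by
    intro h
    have h1 := congrArg Fin.val h
    simp only at h1
    rw [Q.neg_eq r r.2] at h1
    have := Q.nroots_eq
    have := r.2
    omega
  have h2 : (⟨D.neg r, neg_lt Q r.2⟩ : Fin D.nroots).val = D.negIdx.getD r 0 := rfl
  rw [if_neg hne, if_pos h2]

theorem xg_mem_Uk (Q : RC D) (c : ℕ → ℤ) {i : ℕ} (hi : 1 ≤ i) {s : ℕ} (hs : s < D.nroots)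
    (h : (i : ℤ) ≤ fr Q c s) (t : F) : xg R s t ∈ Uk F (fn Q c) i := by
  have key : ∀ t : F, Raise (fn Q c) i (D.x F s t - 1) := by
    intro t row col h'
    by_cases hrc : row = col
    · subst hrc
      rw [Matrix.sub_apply, Matrix.one_apply_eq, x_diag F Q hs, sub_self]
    · rw [Matrix.sub_apply, Matrix.one_apply_ne hrc, sub_zero]
      by_contra hne
      obtain ⟨k, hk, e⟩ := fn_entry Q c hs t hne hrc
      have h3 : (1 : ℤ) * fr Q c s ≤ k * fr Q c s :=
        mul_le_mul_of_nonneg_right (by exact_mod_cast hk) (by omega)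
      omega
  refine ⟨key t, ?_⟩
  rw [xg_inv]; exact key (-t)

include R in
theorem gen_le_Ek (Q : RC D) (c : ℕ → ℤ) (j : Fin D.rank) {r : Fin D.nroots} {i : ℕ} (hi : 1 ≤ i)
    (hr : fr Q c r < (i + i : ℕ)) {Ψ : Set (Fin D.nroots)} (hΨ : ∀ s ∈ Ψ, (i : ℤ) ≤ fr Q c s)
    (hrΨ : r ∉ Ψ) : gen F Ψ ≤ Ek F Q c i j r hr := by
  refine gen_le R fun s hs t => ⟨xg_mem_Uk R Q c hi s.2 (hΨ s hs) t, ?_⟩
  exact ent_xg_ne R Q c j (by rintro rfl; exact hrΨ hs) hi hr (hΨ s hs) t

include R in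
/-- removing a root -/
theorem mem_gen_of_ent (J : Set ℕ) (Z : Lex X.rc) {i : ℕ} (hi : 1 ≤ i) {Ψ : Set (Fin D.nroots)}
    (h1 : Lv X J (i + 1) ⊆ Ψ) (h2 : Ψ ⊆ Lv X J i) {r : Fin D.nroots}
    (hr : fr X.rc (cJ J) r = i) (hrΨ : r ∉ Ψ) {g : GL D.Idx F} (hg : g ∈ gen F (insert r Ψ))
    (he : ∀ j, ent X.rc j r g = 0) : g ∈ gen F Ψ := by
  have hst : D.rootSubgroup F r ≤ stabSub (gen F Ψ) := by
    refine X_le_stab_gen R X r ?_ ?_
    · intro s hs e
      have := h2 hs
      rw [mem_Lv, e, fr_neg X.rc _ r.2] at this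
      omega
    · intro s hs k a b ha hb hco
      apply h1
      have := h2 hs
      rw [mem_Lv] at this ⊢
      rw [fr_lin X.rc _ hco]
      have h3 : (1 : ℤ) * fr X.rc (cJ J) r ≤ (a : ℤ) * fr X.rc (cJ J) r :=
        mul_le_mul_of_nonneg_right (by exact_mod_cast ha) (by omega)
      have h4 : (1 : ℤ) * fr X.rc (cJ J) s ≤ (b : ℤ) * fr X.rc (cJ J) s :=
        mul_le_mul_of_nonneg_right (by exact_mod_cast hb) (by omega)
      push_cast
      omega
  rw [gen_insert R, mem_sup_of_normalizes hst] at hg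
  obtain ⟨v, hv, x, hx, rfl⟩ := hg
  rw [mem_rootSubgroup R] at hx
  obtain ⟨t, rfl⟩ := hx
  have hr2 : fr X.rc (cJ J) r < (i + i : ℕ) := by push_cast; omega
  obtain ⟨j, hj, hj0⟩ := Z.exists_coroot F r.2
  have h3 := gen_le_Ek R X.rc (cJ J) ⟨j, hj⟩ hi hr2 (fun s hs => h2 hs) hrΨ hv
  have h4 := ent_mul X.rc (cJ J) h3.1 (xg_mem_Uk R X.rc (cJ J) hi r.2 (by omega) t) ⟨j, hj⟩ hr2
  rw [he, h3.2, zero_add, ent_xg_self] at h4
  have h5 : t = 0 := (mul_eq_zero.1 h4.symm).resolve_left hj0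
  rw [h5, xg_zero, mul_one]; exact hv

/-- the level is preserved by words in `J` -/
theorem fr_w (J : Set ℕ) (L : List (Fin D.rank)) (hL : ∀ k ∈ L, (k : ℕ) ∈ J) (r : Fin D.nroots) :
    fr X.rc (cJ J) ((comb X).w L r : Fin D.nroots) = fr X.rc (cJ J) r := by
  induction L with
  | nil => simp
  | cons k L ih =>
    rw [RootComb.w_cons, Equiv.Perm.mul_apply, comb_refl_val, ← fr_refl X.rc _ k.2 (Fin.is_lt _)]
    have h1 : cJ J k = 0 := by unfold cJ; rw [if_pos (hL k (by simp))]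
    have h2 : (fun l => cJ J l - X.rc.A k l * cJ J k) = cJ J := by
      funext l; rw [h1]; ring
    rw [h2]
    exact ih fun k hk => hL k (by simp [hk])

theorem cj_nw_gen (L : List (Fin D.rank)) (Ψ : Set (Fin D.nroots)) :
    cj ((chevSys R X).nw L) (gen F {s | (comb X).w L s ∈ Ψ}) = gen F Ψ := by
  unfold gen
  rw [cj_iSup]
  apply le_antisymm
  · refine iSup_le fun s => ?_
    have := (chevSys R X).cj_nw L s
    rw [chevSys_X, chevSys_X] at this
    rw [this]
    exact X_le_gen s.2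
  · refine iSup_le fun s => ?_
    obtain ⟨s, hs⟩ := s
    obtain ⟨s', rfl⟩ := ((comb X).w L).surjective s
    have := (chevSys R X).cj_nw L s'
    rw [chevSys_X, chevSys_X] at this
    simp only
    rw [← this]
    exact le_iSup (fun s : {s : Fin D.nroots // s ∈ {s | (comb X).w L s ∈ Ψ}} =>
      cj ((chevSys R X).nw L) (D.rootSubgroup F (s : Fin D.nroots))) ⟨s', hs⟩

theorem nw_mem_par {G : Type*} [Group G] {Φ I : Type*} {C : RootComb Φ I} (S : Sys G C) {J : Set I}
    (L : List I) (hL : ∀ k ∈ L, k ∈ J) : S.nw L ∈ S.par J := by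
  induction L with
  | nil => exact (S.par J).one_mem
  | cons k L ih =>
    rw [Sys.nw_cons]
    exact (S.par J).mul_mem (S.n_mem_par (hL k (by simp))) (ih fun k hk => hL k (by simp [hk]))

include R in
/-- Main lemma: climbing one level. -/
theorem le_next (J : Set ℕ) (Z : Lex X.rc) {i : ℕ} (hi : 1 ≤ i) {K : Subgroup (GL D.Idx F)}
    (hK : K ≤ gen F (Lv X J i)) (hst : D.parabolicSubgroup F J ≤ stabSub K)
    (hv : ∀ r : Fin D.nroots, fr X.rc (cJ J) r = i → ∃ L : List (Fin D.rank),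
      (∀ k ∈ L, (k : ℕ) ∈ J) ∧ ∀ g ∈ K, ∀ j, ent X.rc j ((comb X).w L r) g = 0) :
    K ≤ gen F (Lv X J (i + 1)) := by
  -- all coordinates of level i vanish
  have hall : ∀ r : Fin D.nroots, fr X.rc (cJ J) r = i → ∀ g ∈ K, ∀ j, ent X.rc j r g = 0 := by
    intro r hr g hg j
    obtain ⟨L, hL, hLv⟩ := hv r hr
    set r' := (comb X).w L r with hr'
    have hfr' : fr X.rc (cJ J) r' = i := by rw [hr', fr_w X J L hL, hr]
    set Ψ : Set (Fin D.nroots) := Lv X J i \ {r'} with hΨ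
    have hn : (chevSys R X).nw L ∈ D.parabolicSubgroup F J := by
      rw [par_eq R X]
      exact nw_mem_par _ L hL
    have h1 : (chevSys R X).nw L * g * ((chevSys R X).nw L)⁻¹ ∈ K :=
      conj_mem_of_stabSub (hst hn) hg
    have h2 : insert r' Ψ = Lv X J i := by
      rw [hΨ, Set.insert_sdiff_singleton, Set.insert_eq_of_mem]
      rw [mem_Lv]; exact hfr'.ge
    have h3 : (chevSys R X).nw L * g * ((chevSys R X).nw L)⁻¹ ∈ gen F Ψ := by
      refine mem_gen_of_ent R X J Z hi ?_ Set.sdiff_subset hfr' (by simp) (by rw [h2]; exact hK h1)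
        (hLv _ h1)
      intro s hs
      rw [mem_Lv] at hs
      refine ⟨by rw [mem_Lv]; push_cast at hs; omega, ?_⟩
      rintro rfl
      push_cast at hs
      omega
    rw [← cj_nw_gen R X L, conj_mem_cj_iff] at h3
    have hr2 : fr X.rc (cJ J) r < (i + i : ℕ) := by push_cast; omega
    refine (gen_le_Ek R X.rc (cJ J) j hi hr2 ?_ ?_ h3).2
    · rintro s ⟨hs, _⟩
      rw [mem_Lv, fr_w X J L hL] at hs
      exact hs
    · rintro ⟨_, hs⟩
      exact hs rfl
  -- remove the roots one by one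
  have key : ∀ T : Finset (Fin D.nroots), (∀ r ∈ T, fr X.rc (cJ J) r = i) →
      K ≤ gen F (Lv X J i \ T) := by
    intro T
    induction T using Finset.induction_on with
    | empty => intro _; simpa using hK
    | insert r T hr ih =>
      intro hT g hg
      have h1 := ih (fun s hs => hT s (Finset.mem_insert_of_mem hs)) hg
      have hri := hT r (Finset.mem_insert_self _ _)
      have e : Lv X J i \ (T : Set (Fin D.nroots)) =
          insert r (Lv X J i \ ((insert r T : Finset (Fin D.nroots)) : Set (Fin D.nroots))) := by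
        ext s
        simp only [Set.mem_sdiff, Finset.mem_coe, Set.mem_insert_iff, Finset.mem_insert, not_or]
        constructor
        · rintro ⟨h1, h2⟩
          by_cases hs : s = r
          · exact Or.inl hs
          · exact Or.inr ⟨h1, hs, h2⟩
        · rintro (rfl | ⟨h1, _, h2⟩)
          · exact ⟨by rw [mem_Lv]; exact hri.ge, hr⟩
          · exact ⟨h1, h2⟩
      rw [e] at h1
      refine mem_gen_of_ent R X J Z hi ?_ Set.sdiff_subset hri (by simp) h1 (hall r hri g hg)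
      intro s hs
      rw [mem_Lv] at hs
      push_cast at hs
      refine ⟨by rw [mem_Lv]; omega, fun hsT => ?_⟩
      have := hT s hsT
      omega
  classical
  refine (key (Finset.univ.filter fun r : Fin D.nroots => fr X.rc (cJ J) r = i)
    (fun r hr => (Finset.mem_filter.1 hr).2)).trans (gen_mono R ?_)
  rintro s ⟨h1, h2⟩
  rw [mem_Lv] at h1 ⊢
  have h3 : fr X.rc (cJ J) s ≠ i := fun h => h2 (by simp [h])
  push_cast
  omega

end H47.ParLevel
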