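import Cfsg.Agent.Lib.H47.ParLevel

/-!
The level filtration of a maximal parabolic subgroup and its conjugate: the data for the iterated
cores.
-/

set_option autoImplicit false

namespace H47.ParLevel

open H22.RGD H22.Coord H22.RCCheck H22.RCComb H22.ChevTri H22.ChevRel H22.ChevSys H22.ChevMain
open H22.ChevStd H22.ChevPar H22.ChevSolv H22.ChevUni H22.St H47.CoreSeq
open Cfsg.Lie (ChevalleyDatum)
open scoped MatrixGroups Matrix

/-- transport of the filtration data to an overgroup -/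
theorem dat_subgroupOf {G : Type*} [Group G] {M : Subgroup G} {n : G} {U : ℕ → Subgroup G}
    (D : Dat M n U) {Γ : Subgroup G} (hM : M ≤ Γ) (hn : n ∈ Γ) :
    Dat (M.subgroupOf Γ) (⟨n, hn⟩ : Γ) (fun i => (U i).subgroupOf Γ) := by
  have hst : ∀ K : Subgroup Γ, M.subgroupOf Γ ≤ stabSub K → M ≤ stabSub (K.map Γ.subtype) := by
    intro K h
    apply le_stabSub_of_conj
    rintro a ha _ ⟨x, hx, rfl⟩
    exact ⟨_, conj_mem_of_stabSub (h (show (⟨a, hM ha⟩ : Γ) ∈ M.subgroupOf Γ from ha)) hx, rfl⟩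
  have hst' : ∀ K : Subgroup G, M ≤ stabSub K → M.subgroupOf Γ ≤ stabSub (K.subgroupOf Γ) := by
    intro K h
    apply le_stabSub_of_conj
    intro a ha x hx
    rw [Subgroup.mem_subgroupOf] at hx ⊢
    exact conj_mem_of_stabSub (h ha) hx
  have hle : ∀ (K : Subgroup Γ) (L : Subgroup G), K.map Γ.subtype ≤ L ↔ K ≤ L.subgroupOf Γ := by
    intro K L
    exact Subgroup.map_le_iff_le_comap
  have hcj : ∀ L : Subgroup G, cj (⟨n, hn⟩ : Γ) (L.subgroupOf Γ) = (cj n L).subgroupOf Γ := by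
    intro L
    ext x
    rw [mem_cj, Subgroup.mem_subgroupOf, Subgroup.mem_subgroupOf, mem_cj]
    rfl
  refine ⟨D.n_sq, fun i hi => Subgroup.comap_mono (D.le_M i hi), fun i hi => hst' _ (D.stab i hi),
    fun i hi => Subgroup.comap_mono (D.anti i hi), ?_, ?_, ?_, ?_⟩
  · rw [hcj]; exact Subgroup.comap_mono D.b0
  · intro i hi
    rw [hcj]; exact Subgroup.comap_mono (D.b1 i hi)
  · intro K h1 h2 h3
    rw [hcj] at h3
    exact (hle _ _).1 (D.c _ ((hle _ _).2 h1) (hst K h2) ((hle _ _).2 h3))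
  · intro i hi K h1 h2 h3
    rw [hcj] at h3
    exact (hle _ _).1 (D.d i hi _ ((hle _ _).2 h1) (hst K h2) ((hle _ _).2 h3))

variable {D : ChevalleyDatum} {F : Type*} [Field F] (R : Rel D F) (X : RCX D)

/-- functional composed with a simple reflection -/
def cR (Q : RC D) (c : ℕ → ℤ) (j : ℕ) : ℕ → ℤ := fun k => c k - Q.A j k * c j

theorem fr_refl' (Q : RC D) (c : ℕ → ℤ) {j : ℕ} (hj : j < D.rank) {r : ℕ} (hr : r < D.nroots) :
    fr Q c (D.reflectRoot j r) = fr Q c r - c j * D.cartan j r := by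
  rw [← fr_refl Q c hj hr, Q.cartan_eq j hj r hr]
  unfold fr
  rw [Finset.mul_sum, ← Finset.sum_sub_distrib]
  refine Finset.sum_congr rfl fun k _ => ?_
  ring

theorem cj_n_gen_le {K : Subgroup (GL D.Idx F)} (j : Fin D.rank) {Ψ : Set (Fin D.nroots)}
    (h : ∀ s ∈ Ψ, ∀ t, xg R (D.reflectRoot j s) t ∈ K) :
    cj ((chevSys R X).n j) (gen F Ψ) ≤ K := by
  unfold gen
  rw [cj_iSup]
  refine iSup_le fun s => ?_
  have := (chevSys R X).cj_n j s
  rw [chevSys_X, chevSys_X] at this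
  rw [this]
  intro x hx
  rw [mem_rootSubgroup R] at hx
  obtain ⟨t, rfl⟩ := hx
  exact h s s.2 t

theorem gen_le_cj_n {j : Fin D.rank} {Ψ Ψ' : Set (Fin D.nroots)}
    (h : ∀ s ∈ Ψ, (comb X).refl j s ∈ Ψ') :
    gen F Ψ ≤ cj ((chevSys R X).n j) (gen F Ψ') := by
  unfold gen
  rw [cj_iSup]
  refine iSup_le fun s => ?_
  have := (chevSys R X).cj_n j ((comb X).refl j s)
  rw [chevSys_X, chevSys_X, (comb X).refl_refl] at this
  rw [← this]
  exact le_iSup (fun s : {s : Fin D.nroots // s ∈ Ψ'} =>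
    cj ((chevSys R X).n j) (D.rootSubgroup F (s : Fin D.nroots))) ⟨_, h s s.2⟩

theorem refl_refl' (Q : RC D) (j : Fin D.rank) (s : Fin D.nroots) :
    D.reflectRoot j (D.reflectRoot j s) = s :=
  H22.RCComb.refl_refl Q j.2 s.2

include R in
theorem ent_zero_of_mem_cj {J : Set ℕ} {i : ℕ} (hi : 1 ≤ i) (j : Fin D.rank) {r : Fin D.nroots}
    (hr : fr X.rc (cJ J) (D.reflectRoot j r) < i) {g : GL D.Idx F}
    (hg : g ∈ cj ((chevSys R X).n j) (gen F (Lv X J i))) (l : Fin D.rank) :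
    ent X.rc l r g = 0 := by
  have h1 : cj ((chevSys R X).n j) (gen F (Lv X J i)) ≤ Uk F (fn X.rc (cR X.rc (cJ J) j)) i := by
    refine cj_n_gen_le R X j fun s hs t => ?_
    refine xg_mem_Uk R X.rc _ hi (X.rc.refl_lt j j.2 s s.2) ?_ t
    unfold cR
    rw [fr_refl X.rc _ j.2 (X.rc.refl_lt j j.2 s s.2), refl_refl' X.rc]
    exact hs
  have h2 := (h1 hg).1 (Sum.inl l) (Sum.inr ⟨D.neg r, neg_lt X.rc r.2⟩) (by
    rw [fn_inl, fn_inr]
    simp only
    rw [fr_neg X.rc _ r.2]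
    unfold cR
    rw [fr_refl X.rc _ j.2 r.2]
    omega)
  rw [Matrix.sub_apply, Matrix.one_apply_ne (by simp), sub_zero] at h2
  exact h2

include R in
theorem ent_zero_of_mem_cj_par {J : Set ℕ} (j : Fin D.rank) {r : Fin D.nroots}
    (hr : fr X.rc (cJ J) (D.reflectRoot j r) < 0) {g : GL D.Idx F}
    (hg : g ∈ cj ((chevSys R X).n j) (D.parabolicSubgroup F J)) (l : Fin D.rank) :
    ent X.rc l r g = 0 := by
  have h1 : cj ((chevSys R X).n j) (D.parabolicSubgroup F J) ≤
      glSub (lowM F (fn X.rc (cR X.rc (cJ J) j))) := by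
    rw [par_eq_Lv R X, cj_sup]
    refine sup_le ?_ ?_
    · have : cj ((chevSys R X).n j) (D.diagonalSubgroup F) = D.diagonalSubgroup F :=
        (chevSys R X).n_stab_H j
      rw [this, diagonalSubgroup_eq R X]; exact Hs_le_low R _
    · refine cj_n_gen_le R X j fun s hs t => ?_
      refine xg_mem_low R X.rc _ (X.rc.refl_lt j j.2 s s.2) ?_ t
      unfold cR
      rw [fr_refl X.rc _ j.2 (X.rc.refl_lt j j.2 s s.2), refl_refl' X.rc]
      rw [mem_Lv] at hs
      exact_mod_cast hs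
  refine (h1 hg).1 (Sum.inl l) (Sum.inr ⟨D.neg r, neg_lt X.rc r.2⟩) ?_
  rw [fn_inl, fn_inr]
  simp only
  rw [fr_neg X.rc _ r.2]
  unfold cR
  rw [fr_refl X.rc _ j.2 r.2]
  omega

theorem cJ_of_mem {J : Set ℕ} {k : ℕ} (h : k ∈ J) : cJ J k = 0 := by unfold cJ; rw [if_pos h]
theorem cJ_of_not_mem {J : Set ℕ} {k : ℕ} (h : k ∉ J) : cJ J k = 1 := by unfold cJ; rw [if_neg h]

theorem fr_simple (Q : RC D) (c : ℕ → ℤ) {j : ℕ} (hj : j < D.rank) : fr Q c (D.simple j) = c j := by
  unfold fr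
  rw [Finset.sum_eq_single j]
  · rw [Q.co_simple j hj j hj, if_pos rfl, mul_one]
  · intro b hb hbi
    rw [Q.co_simple j hj b (Finset.mem_range.1 hb), if_neg hbi, mul_zero]
  · intro h; exact absurd (Finset.mem_range.2 hj) h

theorem reflectRoot_simple (j : Fin D.rank) : D.reflectRoot j (D.simple j) = D.neg (D.simple j) := by
  unfold ChevalleyDatum.reflectRoot; simp

theorem mem_of_n_mem_par {J : Set ℕ} (Z : Lex X.rc) (j : Fin D.rank)
    (h : (chevSys R X).n j ∈ D.parabolicSubgroup F J) : (j : ℕ) ∈ J := by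
  by_contra hj
  have hs := X.rc.simple_lt j j.2
  obtain ⟨l, hl, hl0⟩ := Z.exists_coroot F hs
  have h1 : xg R (D.simple j) 1 ∈ cj ((chevSys R X).n j) (D.parabolicSubgroup F J) := by
    rw [cj_eq_self_of_mem h, par_eq_Lv R X]
    refine Subgroup.mem_sup_right (xg_mem_gen R hs ?_ 1)
    rw [mem_Lv]
    simp only
    rw [fr_simple X.rc _ j.2, cJ_of_not_mem hj]
    norm_num
  have h2 := ent_zero_of_mem_cj_par R X (J := J) j (r := ⟨D.simple j, hs⟩) (by
    simp only
    rw [reflectRoot_simple, fr_neg X.rc _ hs, fr_simple X.rc _ j.2, cJ_of_not_mem hj]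
    norm_num) h1 ⟨l, hl⟩
  have h3 := ent_xg_self R X.rc ⟨l, hl⟩ ⟨D.simple j, hs⟩ 1
  simp only at h3
  rw [h2, mul_one] at h3
  exact hl0 h3.symm

/-- moving a root of positive level down by the Levi factor -/
theorem exists_desc (J : Set ℕ) (r : Fin D.nroots) (hr : 0 < fr X.rc (cJ J) r) :
    ∃ L : List (Fin D.rank), (∀ k ∈ L, (k : ℕ) ∈ J) ∧
      ∀ k < D.rank, k ∈ J → D.cartan k ((comb X).w L r : Fin D.nroots) ≤ 0 := by
  have key : ∀ n : ℕ, ∀ r : Fin D.nroots, 0 < fr X.rc (cJ J) r → fr X.rc (fun _ => 1) r = n →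
      ∃ L : List (Fin D.rank), (∀ k ∈ L, (k : ℕ) ∈ J) ∧
      ∀ k < D.rank, k ∈ J → D.cartan k ((comb X).w L r : Fin D.nroots) ≤ 0 := by
    intro n
    induction n using Nat.strong_induction_on with
    | _ n ih =>
      intro r hr hn
      by_cases hex : ∃ k < D.rank, k ∈ J ∧ 0 < D.cartan k r
      · obtain ⟨k, hk, hkJ, hc⟩ := hex
        set r' : Fin D.nroots := (comb X).refl ⟨k, hk⟩ r with hr'
        have h1 : fr X.rc (cJ J) r' = fr X.rc (cJ J) r := by
          rw [hr', comb_refl_val, fr_refl' X.rc _ hk r.2, cJ_of_mem hkJ]; ring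
        have h2 : fr X.rc (fun _ => 1) r' = n - D.cartan k r := by
          rw [hr', comb_refl_val, fr_refl' X.rc _ hk r.2, hn]; ring
        have h3 : 0 < fr X.rc (fun _ => 1) r' :=
          ht_pos X.rc r'.2 (half_le_of_fr_pos X.rc J r'.2 (by rw [h1]; exact hr))
        obtain ⟨m, hm⟩ := Int.eq_ofNat_of_zero_le h3.le
        obtain ⟨L, hL, hL'⟩ := ih m (by omega) r' (by rw [h1]; exact hr) hm
        refine ⟨L ++ [⟨k, hk⟩], ?_, ?_⟩
        · intro l hl
          rcases List.mem_append.1 hl with hl | hl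
          · exact hL l hl
          · rw [List.mem_singleton] at hl; rw [hl]; exact hkJ
        · intro l hl hlJ
          rw [RootComb.w_append, RootComb.w_singleton, Equiv.Perm.mul_apply]
          exact hL' l hl hlJ
      · push Not at hex
        exact ⟨[], by simp, fun k hk hkJ => by simpa using hex k hk hkJ⟩
  obtain ⟨m, hm⟩ := Int.eq_ofNat_of_zero_le (ht_pos X.rc r.2 (half_le_of_fr_pos X.rc J r.2 hr)).le
  exact key m r hr hm

theorem fr_refl_lt {j : Fin D.rank} (r : Fin D.nroots)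
    (hr : 0 < fr X.rc (cJ {k | k ≠ (j : ℕ)}) r)
    (h : ∀ k < D.rank, k ∈ {k | k ≠ (j : ℕ)} → D.cartan k r ≤ 0) :
    fr X.rc (cJ {k | k ≠ (j : ℕ)}) (D.reflectRoot j r) < fr X.rc (cJ {k | k ≠ (j : ℕ)}) r := by
  have hj1 : cJ {k | k ≠ (j : ℕ)} j = 1 := cJ_of_not_mem (by simp)
  rcases X.rc.red r r.2 (half_le_of_fr_pos X.rc _ r.2 hr) with ⟨i, hi, e⟩ | ⟨i, hi, h1, h2⟩
  · have hij : i = j := by
      by_contra hne
      rw [e, fr_simple X.rc _ hi, cJ_of_mem (show i ∈ {k | k ≠ (j : ℕ)} from hne)] at hr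
      exact lt_irrefl _ hr
    rw [hij] at e
    rw [e, reflectRoot_simple, fr_neg X.rc _ (X.rc.simple_lt j j.2), fr_simple X.rc _ j.2, hj1]
    norm_num
  · have hij : i = j := by
      by_contra hne
      have := h i hi hne
      omega
    rw [hij] at h2
    rw [fr_refl' X.rc _ j.2 r.2, hj1]
    omega

open H47.MaxPar in
/-- the filtration data for a maximal parabolic subgroup (trivial torus) -/
theorem dat (Z : Lex X.rc) (j : Fin D.rank)
    (h1 : ∀ r : Fin D.nroots, fr X.rc (cJ {k | k ≠ (j : ℕ)}) r = 1 → (r : ℕ) ≠ D.simple j →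
      ∃ k < D.rank, k ≠ (j : ℕ) ∧ 0 < D.cartan k r)
    (h2 : ∀ r : Fin D.nroots, 2 ≤ fr X.rc (cJ {k | k ≠ (j : ℕ)}) r → D.cartan j r ≤ 1)
    (hH : D.diagonalSubgroup F = ⊥)
    (hconn : ∀ P : Set (Fin D.rank), P ⊆ {k | k ≠ j} → P.Nonempty →
      (∀ i ∈ P, ∀ k, k ≠ j → Adj (comb X) i k → k ∈ P) → ∃ i ∈ P, Adj (comb X) i j)
    (hlong : ∃ L : List (Fin D.rank), (∀ k ∈ L, k ≠ j) ∧ ∀ r, (comb X).pos r →
      fr X.rc (cJ {k | k ≠ (j : ℕ)}) r = 0 → ¬ (comb X).pos ((comb X).w L r)) :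
    Dat (D.parabolicSubgroup F {k | k ≠ (j : ℕ)}) ((chevSys R X).n j)
      (fun i => gen F (Lv X {k | k ≠ (j : ℕ)} i)) := by
  set J : Set ℕ := {k | k ≠ (j : ℕ)} with hJ
  have hj1 : cJ J j = 1 := cJ_of_not_mem (by simp [hJ])
  have hJ' : ({i : Fin D.rank | (i : ℕ) ∈ J}) = {i | i ≠ j} := by
    ext i; simp [hJ, Fin.ext_iff]
  have hHM : D.diagonalSubgroup F ≤ D.parabolicSubgroup F J := by
    rw [par_eq_Lv R X]; exact le_sup_left
  have hstep : ∀ i, 2 ≤ i → ∀ s ∈ Lv X J i, (comb X).refl j s ∈ Lv X J (i - 1) := by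
    intro i hi s hs
    rw [mem_Lv] at hs ⊢
    rw [comb_refl_val, fr_refl' X.rc _ j.2 s.2, hj1]
    have := h2 s (by omega)
    push_cast [show 1 ≤ i by omega]
    omega
  refine ⟨?_, ?_, ?_, ?_, ?_, ?_, ?_, ?_⟩
  · exact hHM ((chevSys R X).n_sq j)
  · intro i _; exact gen_Lv_le_par R X J i
  · intro i hi; exact par_le_stab R X J hi
  · intro i _
    refine gen_mono R fun s hs => ?_
    rw [mem_Lv] at hs ⊢
    push_cast at hs; omega
  · refine (gen_le_cj_n R X (hstep 2 le_rfl)).trans (cj_mono ?_)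
    exact gen_Lv_le_par R X J _
  · intro i hi
    exact gen_le_cj_n R X (hstep (i + 1) (by omega))
  · intro K hK hst hK'
    -- K ≤ B
    have hB : K ≤ (chevSys R X).B := by
      rw [par_eq R X] at hK hst hK'
      refine H47.MaxPar.le_B (chevSys R X) (J := {i : Fin D.rank | (i : ℕ) ∈ J}) (j := j)
        (by simp [hJ]) ?_ ?_ hK hst hK'
      · intro i hi
        rw [← par_eq R X] at hi
        exact mem_of_n_mem_par R X Z i hi
      · intro P hP hne hcl
        refine hconn P ?_ hne ?_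
        · rw [← hJ']; exact hP
        · intro i hi k hk hadj
          refine hcl i hi k ?_ hadj
          rw [hJ']; exact hk
    have hBU : (chevSys R X).B = (chevSys R X).U := by
      unfold Sys.B; rw [chevSys_H, hH, sup_bot_eq]
    rw [hBU] at hB
    -- K ≤ U_1
    have h3 : K ≤ gen F (Lv X J 1) := by
      obtain ⟨L, hL, hLn⟩ := hlong
      refine H47.MaxPar.le_radical (chevSys R X) (M := D.parabolicSubgroup F J)
        (UL := gen F {s | (comb X).pos s ∧ fr X.rc (cJ J) s = 0}) (n := (chevSys R X).nw L)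
        ?_ (par_le_stab R X J le_rfl) ?_ ?_ ?_ ?_ hB hst
      · refine gen_le R fun s hs t => ?_
        rw [mem_Lv] at hs
        exact (chevSys R X).X_le_U (half_le_of_fr_pos X.rc J s.2 (by push_cast at hs; omega))
          (xg_mem R s t)
      · refine (gen_mono R ?_).trans (gen_Lv_le_par R X J 0)
        rintro s ⟨_, hs⟩
        rw [mem_Lv, hs]; rfl
      · refine (chevSys R X).U_le fun r hr => ?_
        rw [chevSys_X]
        have h4 := fr_nonneg X.rc J r.2 hr
        rcases h4.lt_or_eq with h5 | h5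
        · refine le_sup_of_le_left (X_le_gen ?_)
          rw [mem_Lv]; push_cast; omega
        · exact le_sup_of_le_right (X_le_gen ⟨hr, h5.symm⟩)
      · rw [par_eq R X]
        refine nw_mem_par _ L fun k hk => ?_
        rw [hJ']; exact hL k hk
      · unfold gen
        rw [cj_iSup]
        refine iSup_le fun s => ?_
        have := (chevSys R X).cj_nw L s
        rw [chevSys_X, chevSys_X] at this
        rw [this]
        exact (chevSys R X).X_le_V (hLn s s.2.1 s.2.2)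
    refine le_next R X J Z le_rfl h3 hst ?_
    intro r hr
    push_cast at hr
    obtain ⟨L, hL, hL'⟩ := exists_desc X J r (by omega)
    refine ⟨L, hL, fun g hg l => ?_⟩
    have hr' := fr_w X J L hL r
    rw [hr] at hr'
    have hrs : ((comb X).w L r : ℕ) = D.simple j := by
      by_contra hne
      obtain ⟨k, hk, hkj, hc⟩ := h1 _ hr' hne
      have := hL' k hk hkj
      omega
    refine ent_zero_of_mem_cj_par R X j ?_ (hK' hg) l
    rw [hrs, reflectRoot_simple, fr_neg X.rc _ (X.rc.simple_lt j j.2), fr_simple X.rc _ j.2, hj1]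
    norm_num
  · intro i hi K hK hst hK'
    refine le_next R X J Z (by omega) hK hst ?_
    intro r hr
    obtain ⟨L, hL, hL'⟩ := exists_desc X J r (by omega)
    refine ⟨L, hL, fun g hg l => ?_⟩
    have hr' := fr_w X J L hL r
    rw [hr] at hr'
    refine ent_zero_of_mem_cj R X (by omega) j ?_ (hK' hg) l
    rw [← hr']
    exact fr_refl_lt X _ (by rw [hr']; omega) hL'

include R in
theorem isCoatom_par (Z : Lex X.rc) (j : Fin D.rank) :
    IsCoatom ((D.parabolicSubgroup F {k | k ≠ (j : ℕ)}).subgroupOf (D.group F)) := by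
  have hJ' : ({i : Fin D.rank | (i : ℕ) ∈ {k | k ≠ (j : ℕ)}}) = {i | i ≠ j} := by
    ext i; simp [Fin.ext_iff]
  constructor
  · rw [Ne, Subgroup.subgroupOf_eq_top]
    intro h
    have h1 : (chevSys R X).n j ∈ D.group F := by
      rw [← chevSys_Γ R X]; exact (chevSys R X).N_le_Γ ((chevSys R X).n_mem_N j)
    exact mem_of_n_mem_par R X Z j (h h1) rfl
  · intro Q hQ
    have h1 := H47.MaxPar.eq_Γ_of_not_le (chevSys R X) (j := j) (Q := Q.map (D.group F).subtype) ?_ ?_ ?_
    · rw [chevSys_Γ] at h1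
      rw [eq_top_iff]
      intro x _
      have h2 : (x : GL D.Idx F) ∈ Q.map (D.group F).subtype := by rw [h1]; exact x.2
      obtain ⟨y, hy, e⟩ := h2
      have : y = x := Subtype.ext e
      rw [← this]; exact hy
    · rw [← hJ', ← par_eq R X]
      intro x hx
      have hxΓ : x ∈ D.group F := by
        rw [par_eq R X] at hx
        rw [← chevSys_Γ R X]; exact (chevSys R X).par_le_Γ _ hx
      exact ⟨⟨x, hxΓ⟩, hQ.le (show (⟨x, hxΓ⟩ : D.group F) ∈ _ from hx), rfl⟩
    · rw [chevSys_Γ]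
      rintro _ ⟨x, _, rfl⟩
      exact x.2
    · rw [← hJ', ← par_eq R X]
      intro h
      apply hQ.not_ge
      intro x hx
      exact h ⟨x, hx, rfl⟩

end H47.ParLevel
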