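import Cfsg.Agent.Lib.H47.CycW

/-!
Stabilisers of dominant functionals in Weyl groups, characteristic polynomials of elements of
maximal standard parabolic subgroups, and a divisibility by determinants of Cartan matrices.
-/

set_option autoImplicit false
set_option linter.unusedVariables false
set_option linter.unusedSectionVars false

namespace H47.ParW

open H22.RGD H22.Coord H47.Alcove H47.HomoCert H47.CycW Polynomial

section dom

variable {Φ : Type*} [Fintype Φ] {l : ℕ} {C : RootComb Φ (Fin l)} (K : CoordSys C)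

/-- the standard maximal parabolic subgroup omitting `i0` -/
def WP (C : RootComb Φ (Fin l)) (i0 : Fin l) : Subgroup (Equiv.Perm Φ) :=
  Subgroup.closure {g | ∃ i, i ≠ i0 ∧ g = C.refl i}

omit [Fintype Φ] in
theorem refl_mem_WP {i i0 : Fin l} (h : i ≠ i0) : C.refl i ∈ WP C i0 := Subgroup.subset_closure ⟨i, h, rfl⟩

omit [Fintype Φ] in
theorem WP_le (i0 : Fin l) : WP C i0 ≤ C.W := by
  unfold WP
  rw [Subgroup.closure_le]
  rintro g ⟨i, _, rfl⟩
  exact Subgroup.subset_closure ⟨i, rfl⟩

omit [Fintype Φ] in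
theorem ev_nonneg {x : Fin l → ℤ} (hx : ∀ i, 0 ≤ x i) {b : Φ} (hb : C.pos b) : 0 ≤ ev K x b :=
  Finset.sum_nonneg fun i _ => mul_nonneg (hx i) (K.pos_nonneg b hb i)

theorem dom_stab {x : Fin l → ℤ} (hx : ∀ i, 0 ≤ x i) {i0 : Fin l} (h0 : x i0 ≠ 0) : ∀ (n : ℕ)
    {w : Equiv.Perm Φ}, w ∈ C.W → C.len w = n → (∀ a, ev K x (w a) = ev K x a) → w ∈ WP C i0 := by
  intro n
  induction n with
  | zero =>
    intro w hw hl _
    rw [K.eq_one_of_len_zero hw hl]
    exact one_mem _
  | succ n ih =>
    intro w hw hl hfix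
    obtain ⟨i, hi⟩ := K.exists_right_descent hw (by omega)
    have h1 : ev K x (w (C.simple i)) ≤ 0 := by
      have h2 : 0 ≤ ev K x (C.neg (w (C.simple i))) := ev_nonneg K hx ((C.pos_neg _).2 hi)
      rw [ev_neg] at h2
      linarith
    rw [hfix, ev_simple] at h1
    have h3 : x i = 0 := le_antisymm h1 (hx i)
    have hne : i ≠ i0 := by rintro rfl; exact h0 h3
    have hri : C.refl i ∈ C.W := Subgroup.subset_closure ⟨i, rfl⟩
    have h4 := C.len_mul_refl_of_neg w i (C.W_neg hw) hi
    have h5 := ih (w := w * C.refl i) (C.W.mul_mem hw hri) (by omega) (by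
      intro a
      rw [Equiv.Perm.mul_apply, hfix, ev_refl, h3]; simp)
    have h6 := mul_mem h5 (refl_mem_WP hne)
    rwa [mul_assoc, C.refl_mul_self, mul_one] at h6

/-- every functional is conjugate to a dominant one -/
theorem exists_dom (x : Fin l → ℤ) : ∃ v ∈ C.W, ∀ i, 0 ≤ act K x v i := by
  classical
  have : Finite C.W := Subtype.finite
  obtain ⟨v, hv⟩ := Finite.exists_max (fun v : C.W => bf K (act K x v) (fun _ => 1))
  refine ⟨v, v.2, fun i => ?_⟩
  by_contra hneg
  push Not at hneg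
  have hi : C.refl i ∈ C.W := Subgroup.subset_closure ⟨i, rfl⟩
  have hg : IsRefl C (C.simple i) (C.refl i) := by
    refine ⟨[], i, by simp, ?_⟩
    simp
  obtain ⟨y, hy, hform⟩ := refl_form K hg
  have h1 := hv (v * ⟨C.refl i, hi⟩)
  simp only [Subgroup.coe_mul] at h1
  rw [act_mul K x v.2, hform, bf_sub, bf_smul, ev_simple] at h1
  have h2 := bf_coroot K hg hy hform (fun _ => 1)
  rw [bf_comm K (fun _ => 1) y] at h2
  have hcb := bf_self_pos K hy
  have h5 : 0 < bf K y (fun _ => 1) := by
    have h6 : ev K (fun _ => 1) (C.simple i) = 1 := by rw [ev_simple]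
    rw [h6] at h2
    linarith
  have := mul_neg_of_neg_of_pos hneg h5
  linarith

omit [Fintype Φ] in
theorem co_WP {i0 : Fin l} {w : Equiv.Perm Φ} (hw : w ∈ WP C i0) (r : Φ) : K.co (w r) i0 = K.co r i0 := by
  unfold WP at hw
  induction hw using Subgroup.closure_induction generalizing r with
  | mem g hg =>
    obtain ⟨i, hi, rfl⟩ := hg
    exact K.co_refl_ne (Ne.symm hi) r
  | one => rfl
  | mul g h _ _ hg hh => rw [Equiv.Perm.mul_apply, hg, hh]
  | inv g _ hg =>
    have := hg (g⁻¹ r)
    have e : g (g⁻¹ r) = r := by simp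
    rw [e] at this
    exact this.symm

omit [Fintype Φ] in
theorem exists_word_WP {i0 : Fin l} {w : Equiv.Perm Φ} (hw : w ∈ WP C i0) :
    ∃ L : List (Fin l), (∀ i ∈ L, i ≠ i0) ∧ C.w L = w := by
  unfold WP at hw
  induction hw using Subgroup.closure_induction with
  | mem g hg =>
    obtain ⟨i, hi, rfl⟩ := hg
    exact ⟨[i], by simpa using hi, C.w_singleton i⟩
  | one => exact ⟨[], by simp, by simp⟩
  | mul g h _ _ hg hh =>
    obtain ⟨L, hL, rfl⟩ := hg
    obtain ⟨M, hM, rfl⟩ := hh
    refine ⟨L ++ M, ?_, C.w_append L M⟩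
    intro i hi
    rcases List.mem_append.1 hi with h | h
    · exact hL i h
    · exact hM i h
  | inv g _ hg =>
    obtain ⟨L, hL, rfl⟩ := hg
    exact ⟨L.reverse, fun i hi => hL i (List.mem_reverse.1 hi), C.w_reverse L⟩

omit [Fintype Φ] in
theorem sub_act {i0 : Fin l} (L : List (Fin l)) (hL : ∀ i ∈ L, i ≠ i0) (x : Fin l → ℤ) :
    ∃ c : Fin l → ℤ, c i0 = 0 ∧ x - act K x (C.w L) = ∑ j, c j • K.A j := by
  induction L generalizing x with
  | nil => exact ⟨0, rfl, by rw [C.w_nil, act_one, sub_self]; simp⟩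
  | cons i L ih =>
    have hi : C.refl i ∈ C.W := Subgroup.subset_closure ⟨i, rfl⟩
    have hne : i ≠ i0 := hL i (by simp)
    obtain ⟨c, hc0, hc⟩ := ih (fun j hj => hL j (by simp [hj])) (act K x (C.refl i))
    refine ⟨c + Pi.single i (x i), ?_, ?_⟩
    · rw [Pi.add_apply, hc0, Pi.single_apply, if_neg (Ne.symm hne), add_zero]
    · rw [C.w_cons, act_mul K x hi]
      have h1 : x - act K (act K x (C.refl i)) (C.w L) = (act K x (C.refl i) -
        act K (act K x (C.refl i)) (C.w L)) + (x - act K x (C.refl i)) := by abel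
      rw [h1, hc, act_refl, sub_sub_cancel]
      simp only [Pi.add_apply, add_smul, Finset.sum_add_distrib]
      congr 1
      rw [Finset.sum_eq_single i]
      · rw [Pi.single_eq_same]
      · intro b _ hb
        rw [Pi.single_apply, if_neg hb, zero_smul]
      · intro h; exact absurd (Finset.mem_univ _) h

end dom

/-! ### determinants -/

section det

/-- Laplace expansion -/
def dl : (n : ℕ) → (Fin n → Fin n → ℤ) → ℤ
  | 0, _ => 1
  | n + 1, M => ∑ i : Fin (n + 1), (-1) ^ (i : ℕ) * M 0 i * dl n (fun a b => M a.succ (i.succAbove b))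

theorem dl_eq (n : ℕ) (M : Fin n → Fin n → ℤ) : dl n M = Matrix.det (Matrix.of M) := by
  induction n with
  | zero => simp [dl]
  | succ n ih =>
    rw [Matrix.det_succ_row_zero, dl]
    refine Finset.sum_congr rfl fun i _ => ?_
    rw [ih]
    rfl

theorem charpoly_sub {n : ℕ} (M : Matrix (Fin (n + 1)) (Fin (n + 1)) ℤ) (i0 : Fin (n + 1))
    (h : ∀ i, M i i0 = if i = i0 then 1 else 0) :
    M.charpoly = (X - 1) * (M.submatrix i0.succAbove i0.succAbove).charpoly := by
  unfold Matrix.charpoly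
  rw [Matrix.det_succ_column _ i0, Finset.sum_eq_single i0]
  · have h1 : ((-1 : ℤ[X])) ^ ((i0 : ℕ) + (i0 : ℕ)) = 1 := by rw [← two_mul, pow_mul]; simp
    rw [h1, one_mul]
    congr 1
    · rw [Matrix.charmatrix_apply_eq, h i0, if_pos rfl]; simp
    · congr 1
      ext a b
      simp only [Matrix.submatrix_apply, Matrix.charmatrix_apply, Matrix.diagonal_apply,
        (Fin.succAbove_right_injective (p := i0)).eq_iff]
  · intro i _ hi
    rw [Matrix.charmatrix_apply_ne _ _ _ hi, h i, if_neg hi]; simp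
  · intro h; exact absurd (Finset.mem_univ _) h

theorem eval_charpoly_one {n : ℕ} (M : Matrix (Fin n) (Fin n) ℤ) :
    M.charpoly.eval 1 = (1 - M).det := by
  rw [Matrix.eval_charpoly]
  congr 1

end det

section par

variable {Φ : Type*} [Fintype Φ] {n : ℕ} {C : RootComb Φ (Fin (n + 1))} (K : CoordSys C)

/-- **Elements of a maximal parabolic subgroup.** -/
theorem charpoly_WP {i0 : Fin (n + 1)} {w : Equiv.Perm Φ} (hw : w ∈ WP C i0) :
    ∃ P : ℤ[X], (tau K w).charpoly = (X - 1) * P ∧
      dl n (fun i j => K.A (i0.succAbove i) (i0.succAbove j)) ∣ P.eval 1 := by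
  set M : Matrix (Fin (n + 1)) (Fin (n + 1)) ℤ := LinearMap.toMatrix' (tau K w) with hM
  have hMe : ∀ i j, M i j = K.co (w (C.simple i)) j := by
    intro i j
    rw [hM, LinearMap.toMatrix'_apply]
    show ev K (Pi.single j 1) (w (C.simple i)) = _
    unfold ev
    simp [Pi.single_apply]
  have hcp : (tau K w).charpoly = M.charpoly := by
    rw [hM, ← LinearMap.charpoly_toMatrix (tau K w) (Pi.basisFun ℤ (Fin (n + 1)))]
    rfl
  have h1 : ∀ i, M i i0 = if i = i0 then 1 else 0 := by
    intro i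
    rw [hMe, co_WP K hw, K.co_simple]
    simp [eq_comm]
  refine ⟨(M.submatrix i0.succAbove i0.succAbove).charpoly, by rw [hcp]; exact charpoly_sub M i0 h1, ?_⟩
  rw [eval_charpoly_one, dl_eq]
  obtain ⟨L, hL, rfl⟩ := exists_word_WP hw
  choose c hc0 hc using fun i : Fin (n + 1) => sub_act K L hL (Pi.single i 1)
  have h2 : (1 - M.submatrix i0.succAbove i0.succAbove) =
      (Matrix.of fun i j => K.A (i0.succAbove i) (i0.succAbove j)).transpose *
        (Matrix.of fun i j => c (i0.succAbove j) (i0.succAbove i)) := by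
    ext a b
    have h3 := congrFun (hc (i0.succAbove b)) (i0.succAbove a)
    rw [Matrix.mul_apply, Matrix.sub_apply, Matrix.submatrix_apply]
    simp only [Matrix.transpose_apply, Matrix.of_apply]
    have h4 : ((Pi.single (i0.succAbove b) (1 : ℤ) : Fin (n + 1) → ℤ) - act K (Pi.single (i0.succAbove b) 1) (C.w L))
        (i0.succAbove a) = (1 : Matrix (Fin n) (Fin n) ℤ) a b - M (i0.succAbove a) (i0.succAbove b) := by
      rw [Pi.sub_apply]
      congr 1
      · rw [Pi.single_apply, Matrix.one_apply]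
        simp only [(Fin.succAbove_right_injective (p := i0)).eq_iff]
    rw [← h4, h3, Finset.sum_apply, Fin.sum_univ_succAbove _ i0, Pi.smul_apply, hc0, zero_smul, zero_add]
    refine Finset.sum_congr rfl fun j _ => ?_
    rw [Pi.smul_apply, smul_eq_mul, mul_comm]
  rw [h2, Matrix.det_mul, Matrix.det_transpose]
  exact Dvd.intro _ rfl

end par

end H47.ParW
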