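import Cfsg.Agent.Lib.H47.UniFlag

/-!
Exponents of unipotent elements of Chevalley groups.
-/

set_option autoImplicit false
set_option linter.unusedVariables false
set_option linter.unusedSectionVars false

namespace H47.UniExp

open H22.RGD H22.Coord H22.RCCheck H22.RCComb H22.ChevTri H22.ChevRel H22.ChevSys H22.ChevMain
open H22.ChevStd H22.ChevSolv H22.ChevUni H47.ChevSub H47.Alcove H47.LangCent H47.TorAll H47.SemiTor
open Cfsg.Lie (ChevalleyDatum)
open scoped MatrixGroups Matrix

variable {D : ChevalleyDatum} {F : Type*} [Field F] (R : Rel D F) {Q : RC D}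

theorem xg_mem_Uk (c : ℕ → ℤ) {r : ℕ} (hr : r < D.nroots) (h1 : 1 ≤ fr Q c r) (t : F) :
    xg R r t ∈ Uk F (fn Q c) 1 := by
  have key : ∀ t : F, Raise (fn Q c) 1 (D.x F r t - 1) := by
    intro t row col h
    by_cases hrc : row = col
    · subst hrc
      rw [Matrix.sub_apply, Matrix.one_apply_eq, x_diag F Q hr, sub_self]
    · rw [Matrix.sub_apply, Matrix.one_apply_ne hrc, sub_zero]
      by_contra hne
      obtain ⟨i, hi, e⟩ := fn_entry Q c hr t hne hrc
      have h3 : 1 ≤ i * fr Q c r := by
        calc (1 : ℤ) ≤ 1 * fr Q c r := by omega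
          _ ≤ i * fr Q c r := by
            apply mul_le_mul_of_nonneg_right (by exact_mod_cast hi) (by omega)
      push_cast at h
      omega
  refine ⟨key t, ?_⟩
  rw [xg_inv]; exact key (-t)

theorem pr_mem_Uk (c : ℕ → ℤ) (t : ℕ → F) : ∀ m j, j + m ≤ D.nroots →
    (∀ s, j ≤ s → s < j + m → t s ≠ 0 → 1 ≤ fr Q c s) → pr R t j m ∈ Uk F (fn Q c) 1 := by
  intro m
  induction m with
  | zero => intro j _ _; simp [pr]
  | succ m ih =>
    intro j hj h
    rw [pr_succ]
    refine mul_mem ?_ (ih (j + 1) (by omega) fun s h1 h2 => h s (by omega) (by omega))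
    by_cases h0 : t j = 0
    · rw [h0, xg_zero]; exact one_mem _
    · exact xg_mem_Uk R c (by omega) (h j le_rfl (by omega) h0) _

theorem eq_one_of_raise (Z : Lex Q) (c : ℕ → ℤ) {d : ℕ}
    (hd : ∀ s, Q.half ≤ s → s < D.nroots → fr Q c s < d) : ∀ m k, k + m = D.nroots → Q.half ≤ k →
    ∀ v ∈ Vk R k, Raise (fn Q c) d ((v : Matrix D.Idx D.Idx F) - 1) → v = 1 := by
  intro m
  induction m with
  | zero =>
    intro k hk _ v hv _
    rw [show k = D.nroots by omega, Vk_nroots, Subgroup.mem_bot] at hv
    exact hv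
  | succ m ih =>
    intro k hk hhalf v hv hr
    have hkn : k < D.nroots := by omega
    obtain ⟨t, v', hv', rfl⟩ := (Vk_step R Z hhalf hkn).1 hv
    obtain ⟨j, hj, hj0⟩ := Z.exists_coroot F hkn
    set nk : D.Idx := Sum.inr ⟨D.neg k, neg_lt Q hkn⟩ with hnk
    set ij : D.Idx := Sum.inl ⟨j, hj⟩ with hij
    have h1 : ((xg R k t * v' : GL D.Idx F) : Matrix D.Idx D.Idx F) ij nk = 0 := by
      have h2 := hr ij nk (by
        rw [hij, hnk, fn_inl, fn_inr, fr_neg Q _ hkn]
        have := hd k hhalf hkn
        omega)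
      rwa [Matrix.sub_apply, Matrix.one_apply_ne (by simp [hij, hnk]), sub_zero] at h2
    have h5 : D.x F k t ij nk = (((D.coroot.getD k #[]).getD j 0 : ℤ) : F) * t := by
      rw [hij, hnk]
      unfold ChevalleyDatum.x
      rw [dif_pos hkn]
      unfold ChevalleyDatum.xMat
      simp only [Matrix.of_apply]
      have hne : (⟨D.neg k, neg_lt Q hkn⟩ : Fin D.nroots) ≠ ⟨k, hkn⟩ := by
        intro h
        have h1 := congrArg Fin.val h
        simp only at h1
        rw [Q.neg_eq k hkn] at h1
        have := Q.nroots_eq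
        omega
      have h2 : (⟨D.neg k, neg_lt Q hkn⟩ : Fin D.nroots).val = D.negIdx.getD k 0 := rfl
      rw [if_neg hne, if_pos h2]
    have ht : t = 0 := by
      by_cases hk1 : k + 1 < D.nroots
      · have h3 := Vk_le_Uk R Z (by omega : Q.half ≤ k + 1) hk1 hv'
        have hpos := Z.pos hkn hhalf
        have hlt := (Z.lt_iff hkn hk1).2 (Nat.lt_succ_self k)
        rw [Units.val_mul, Matrix.mul_apply, Finset.sum_eq_single nk] at h1
        · have h4 : (v' : Matrix D.Idx D.Idx F) nk nk = 1 := by
            have h6 := h3.1 nk nk (by omega)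
            rw [Matrix.sub_apply, Matrix.one_apply_eq] at h6
            exact sub_eq_zero.1 h6
          rw [h4, mul_one, xg_val, h5] at h1
          exact (mul_eq_zero.1 h1).resolve_left hj0
        · intro i _ hi
          by_cases hfi : fn Q Z.c i < fn Q Z.c nk + (fr Q Z.c (k + 1)).toNat
          · have h6 := h3.1 i nk hfi
            rw [Matrix.sub_apply, Matrix.one_apply_ne hi, sub_zero] at h6
            rw [h6, mul_zero]
          · by_cases h7 : D.x F k t ij i = 0
            · rw [xg_val, h7, zero_mul]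
            · exfalso
              by_cases h8 : ij = i
              · rw [← h8, hij, hnk, fn_inl, fn_inr, fr_neg Q _ hkn] at hfi
                omega
              · obtain ⟨l, hl, e⟩ := fn_entry Q Z.c hkn t h7 h8
                rw [hij, fn_inl] at e
                rw [hnk, fn_inr, fr_neg Q _ hkn] at hfi
                have h9 : 0 < l * fr Q Z.c k := by
                  have : (0 : ℤ) < l := by exact_mod_cast hl
                  exact mul_pos this hpos
                omega
        · intro h; exact absurd (Finset.mem_univ _) h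
      · have h3 : k + 1 = D.nroots := by omega
        rw [h3, Vk_nroots, Subgroup.mem_bot] at hv'
        rw [hv', mul_one, xg_val, h5] at h1
        exact (mul_eq_zero.1 h1).resolve_left hj0
    subst ht
    rw [xg_zero, one_mul] at hr ⊢
    exact ih (k + 1) (by omega) (by omega) v' hv' hr

variable (p : ℕ) [Fact p.Prime] [CharP F p]

/-- the exponent of products of root elements -/
theorem pr_pow (Z : Lex Q) (c : ℕ → ℤ) {k : ℕ} {t : ℕ → F}
    (ht : ∀ s, Q.half ≤ s → s < D.nroots → t s ≠ 0 → 1 ≤ fr Q c s)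
    (hd : ∀ s, Q.half ≤ s → s < D.nroots → fr Q c s < (p ^ k : ℕ)) :
    pr R t Q.half Q.half ^ p ^ k = 1 := by
  have hn : Q.half + Q.half = D.nroots := by have := Q.nroots_eq; omega
  have h1 := (pr_mem_Uk R c t Q.half Q.half hn.le fun s h1 h2 => ht s h1 (by omega)).1
  have h2 := Raise.pow h1 (p ^ k)
  rw [mul_one] at h2
  have hne : 0 < Q.half ∨ Q.half = 0 := by omega
  rcases hne with hne | hne
  · have : Nonempty D.Idx := ⟨Sum.inr ⟨0, by omega⟩⟩
    rw [sub_pow_char_pow_of_commute (p := p) (n := k) (h := Commute.one_right _), one_pow,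
      ← Units.val_pow_eq_pow_val] at h2
    refine eq_one_of_raise R Z c hd Q.half Q.half hn le_rfl _ ?_ h2
    exact pow_mem ((mem_Vk_iff R Z Q.half Q.half hn le_rfl _).2 ⟨t, rfl⟩) _
  · rw [hne]; simp [pr]

end H47.UniExp
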