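import Cfsg.Agent.Lib.H47.CertEx
import Cfsg.Agent.Lib.H47.HomoG2
import Cfsg.Agent.Lib.H47.MixUp
import Cfsg.Agent.Lib.H47.UniExp
import Cfsg.Agent.Lib.H47.MatWord

/-!
Element orders of the finite Chevalley groups of type G2.
-/

set_option autoImplicit false
set_option linter.unusedVariables false
set_option maxRecDepth 10000

namespace H47.SpecG2

open H22.RGD H22.Coord H22.RCCheck H22.RCComb H22.ChevTri H22.ChevRel H22.ChevSys H22.ChevMain
open H22.ChevStd H22.ChevSolv H22.ChevUni H47.ChevSub H47.Alcove H47.LangCent H47.TorAll H47.SemiTor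
open H47.FixPt H22.ChevTorus H47.HomoTor H47.JorTor H47.UniFlag H22.LangChev H47.HomoCert H47.WEnum
open H22.Poincare H47.MixEx H47.CertEx H47.CycW H22.PoinG2 H47.HomoData H47.MixUp H47.UniExp
open Cfsg.Lie (ChevalleyDatum)

/-! ### rank two -/

/-- determinant -/
def dd (a b : List ℤ) : ℤ := a.getD 0 0 * b.getD 1 0 - a.getD 1 0 * b.getD 0 0

section rank2

variable {Φ : Type*} {C : RootComb Φ (Fin 2)} (K : CoordSys C) {m q : ℤ} {x : Fin 2 → ℤ}

theorem ev2 {r : Φ} {c : List ℤ} (hc : RepC K r c) : ev K x r = x 0 * c.getD 0 0 + x 1 * c.getD 1 0 := by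
  unfold ev
  rw [Fin.sum_univ_two, ← hc.2, ← hc.2]
  rfl

theorem prim_of (hprim : ∀ c : ℤ, (∀ s : Φ, m ∣ c * ev K x s) → m ∣ c) {c : ℤ} (h0 : m ∣ c * x 0)
    (h1 : m ∣ c * x 1) : m ∣ c := by
  apply hprim
  intro s
  unfold ev
  rw [Fin.sum_univ_two, mul_add, ← mul_assoc, ← mul_assoc]
  exact dvd_add (h0.mul_right _) (h1.mul_right _)

theorem two_roots (hprim : ∀ c : ℤ, (∀ s : Φ, m ∣ c * ev K x s) → m ∣ c) {r r' : Φ} {c c' : List ℤ}
    (hc : RepC K r c) (hc' : RepC K r' c') (h : m ∣ ev K x r) (h' : m ∣ ev K x r') : m ∣ dd c c' := by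
  rw [ev2 K hc] at h
  rw [ev2 K hc'] at h'
  apply prim_of K hprim
  · have e : dd c c' * x 0 = c'.getD 1 0 * (x 0 * c.getD 0 0 + x 1 * c.getD 1 0) -
        c.getD 1 0 * (x 0 * c'.getD 0 0 + x 1 * c'.getD 1 0) := by unfold dd; ring
    rw [e]; exact dvd_sub (h.mul_left _) (h'.mul_left _)
  · have e : dd c c' * x 1 = c.getD 0 0 * (x 0 * c'.getD 0 0 + x 1 * c'.getD 1 0) -
        c'.getD 0 0 * (x 0 * c.getD 0 0 + x 1 * c.getD 1 0) := by unfold dd; ring
    rw [e]; exact dvd_sub (h'.mul_left _) (h.mul_left _)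

/-- the check for a root -/
def rchk (M : List (List ℤ)) (c : List ℤ) (ε : ℤ) : Bool :=
  dd c (mc M (ue 2 0)) == ε * dd c (ue 2 0) && dd c (mc M (ue 2 1)) == ε * dd c (ue 2 1)

theorem par (hprim : ∀ c : ℤ, (∀ s : Φ, m ∣ c * ev K x s) → m ∣ c) {w : Equiv.Perm Φ} (hw : w ∈ C.W)
    {M : List (List ℤ)} (hM : RepM K w M) (hx : ∀ s, m ∣ ev K x (w s) - q * ev K x s) {r : Φ}
    {c : List ℤ} (hc : RepC K r c) {d0 d1 : ℤ} (hd : d0 * c.getD 0 0 + d1 * c.getD 1 0 = 1)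
    (h : m ∣ ev K x r) {ε : ℤ} (hchk : rchk M c ε = true) : m ∣ q - ε := by
  rw [ev2 K hc] at h
  unfold rchk at hchk
  rw [Bool.and_eq_true, beq_iff_eq, beq_iff_eq] at hchk
  have key : ∀ j : Fin 2, dd c (mc M (ue 2 j.val)) = ε * dd c (ue 2 j.val) → m ∣ (q - ε) * x j := by
    intro j hj
    have h1 := hx (C.simple j)
    have h2 : ev K x (C.simple j) = x j := ev_simple K x j
    have h3 := ev2 K (x := x) (mc_spec K hw hM (repC_simple K j))
    have h4 := ev2 K (x := x) (repC_simple K j)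
    rw [h2] at h4
    set v := mc M (ue 2 j.val)
    set e := ue 2 j.val
    rw [h3, h2] at h1
    -- the difference
    set y0 := v.getD 0 0 - ε * e.getD 0 0 with hy0
    set y1 := v.getD 1 0 - ε * e.getD 1 0 with hy1
    have hp : c.getD 0 0 * y1 = c.getD 1 0 * y0 := by
      unfold dd at hj
      rw [hy0, hy1]; linear_combination hj
    have h5 : m ∣ x 0 * y0 + x 1 * y1 := by
      have e1 : x 0 * y0 + x 1 * y1 = (d0 * y0 + d1 * y1) * (x 0 * c.getD 0 0 + x 1 * c.getD 1 0) := by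
        linear_combination (-(x 0 * y0 + x 1 * y1)) * hd + (d0 * x 1 - d1 * x 0) * hp
      rw [e1]; exact h.mul_left _
    have e2 : (q - ε) * x j = (x 0 * y0 + x 1 * y1) -
        (x 0 * v.getD 0 0 + x 1 * v.getD 1 0 - q * x j) := by
      rw [hy0, hy1]; linear_combination (-ε) * h4
    rw [e2]; exact dvd_sub h5 h1
  exact prim_of K hprim (key 0 hchk.1) (key 1 hchk.2)

end rank2

/-! ### the Weyl group of type G2 -/

/-- coset representatives -/
def reps : List (List (List ℕ)) := [[[], [0]], [[], [1], [1, 0], [1, 0, 1], [1, 0, 1, 0], [1, 0, 1, 0, 1]]]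

theorem okReps_G2 : okReps rows 2 reps = true := by decide +kernel

/-- positive roots and their coefficients -/
def posd : List (List ℤ × ℤ × ℤ) := [([0, 1], 0, 1), ([1, 0], 1, 0), ([1, 1], 1, 0), ([2, 1], 0, 1),
  ([3, 1], 0, 1), ([3, 2], 1, -1)]

/-- the coefficients of a root -/
def pc (r : ℕ) : List ℤ × ℤ × ℤ := posd.getD (r - 6) default

theorem pc_co : ∀ r : Fin Cfsg.Lie.chevG2.nroots, 6 ≤ r.val → ∀ j : Fin Cfsg.Lie.chevG2.rank,
    (pc r.val).1.getD j.val 0 = (coord rcxG2).co r j := by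
  decide +kernel

theorem pc_len : ∀ r : Fin 12, (pc r.val).1.length = 2 := by decide +kernel

theorem pc_mem : ∀ r : Fin 12, pc r.val ∈ posd := by decide +kernel

theorem pc_bez : ∀ r : Fin 12, (pc r.val).2.1 * (pc r.val).1.getD 0 0 +
    (pc r.val).2.2 * (pc r.val).1.getD 1 0 = 1 := by decide +kernel

/-- small numbers -/
def sm (a : ℤ) : Bool := Nat.beq a.natAbs 1 || Nat.beq a.natAbs 2 || Nat.beq a.natAbs 3

/-- the check -/
def chkG2 (M : List (List ℤ)) : Bool :=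
  (pchk 2 [-1, 0] M || pchk 2 [1, 1] M || pchk 2 [1, -1] M) &&
    posd.all fun c => sm (dd c.1 (mc M c.1)) || rchk M c.1 1 || rchk M c.1 (-1)

theorem goG2 : go rows reps (st rows 2 []) chkG2 = true := by decide +kernel

theorem conn {K : Type*} [Field K] (R : Rel Cfsg.Lie.chevG2 K) {a : GL Cfsg.Lie.chevG2.Idx K}
    (ha : a ∈ Hs R) (haf : IsOfFinOrder a) : Conn R rcxG2 a :=
  Conn_all R rcxG2 (a0 := ⟨11, by decide +kernel⟩) (by decide +kernel)
    ((comb_pos_iff _ _).2 (by decide +kernel)) ha haf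

theorem triv {K : Type*} [Field K] (R : Rel Cfsg.Lie.chevG2 K) {a : GL Cfsg.Lie.chevG2.Idx K}
    (ha : a ∈ Hs R) (haf : IsOfFinOrder a) : Triv R rcxG2 a :=
  Triv_all R rcxG2 (a0 := ⟨11, by decide +kernel⟩) (by decide +kernel)
    ((comb_pos_iff _ _).2 (by decide +kernel)) ha haf

theorem dt1 : dt rcxG2 = 1 := dt_eq_one H47.HomoG2.adj_mul

theorem pc_rep (r : Fin Cfsg.Lie.chevG2.nroots) (hr : 6 ≤ r.val) :
    RepC (l := 2) (coord rcxG2) r (pc r.val).1 := ⟨pc_len r, fun j => pc_co r hr j⟩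

/-! ### consequences for functionals -/

theorem sm_le {m : ℕ} {d : ℤ} (h : sm d = true) (hm : (m : ℤ) ∣ d) : 0 < m ∧ m ≤ 3 := by
  unfold sm at h
  simp only [Bool.or_eq_true, Nat.beq_eq] at h
  have h1 : m ∣ d.natAbs := Int.natCast_dvd.1 hm
  have h2 : 0 < d.natAbs := by omega
  have h3 := Nat.le_of_dvd h2 h1
  exact ⟨Nat.pos_of_ne_zero (by rintro rfl; rw [Nat.zero_dvd] at h1; omega), by omega⟩

section fun_

variable {m : ℕ} {q : ℤ} {x : Fin 2 → ℤ}
  (hprim : ∀ c : ℤ, (∀ s : Fin Cfsg.Lie.chevG2.nroots, (m : ℤ) ∣ c * ev (coord rcxG2) x s) → (m : ℤ) ∣ c)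

section w

variable {w : Equiv.Perm (Fin Cfsg.Lie.chevG2.nroots)} (hw : w ∈ (comb rcxG2).W)
  (hx : ∀ s, (m : ℤ) ∣ ev (coord rcxG2) x (w s) - q * ev (coord rcxG2) x s)

include hprim hw hx in
theorem semi : (m : ℤ) ∣ q ^ 2 - 1 ∨ (m : ℤ) ∣ q ^ 2 + q + 1 ∨ (m : ℤ) ∣ q ^ 2 - q + 1 := by
  obtain ⟨M, hM, hchk⟩ := all_W (coord rcxG2) rowsOk okReps_G2 goG2 w hw
  unfold chkG2 at hchk
  rw [Bool.and_eq_true, Bool.or_eq_true, Bool.or_eq_true] at hchk
  have key : ∀ cs : List ℤ, pchk 2 cs M = true → (m : ℤ) ∣ hz cs q := fun cs hc =>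
    hprim _ (dvd_of_pchk (coord rcxG2) hw hM hc hx)
  rcases hchk.1 with (h | h) | h
  · left
    have := key _ h
    have e : hz [-1, 0] q = q ^ 2 - 1 := by simp only [hz]; ring
    rwa [e] at this
  · right; left
    have := key _ h
    have e : hz [1, 1] q = q ^ 2 + q + 1 := by simp only [hz]; ring
    rwa [e] at this
  · right; right
    have := key _ h
    have e : hz [1, -1] q = q ^ 2 - q + 1 := by simp only [hz]; ring
    rwa [e] at this

include hprim hw hx in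
theorem mixed (h2 : 2 ∣ m → ¬ (2 : ℤ) ∣ q) (h3 : 3 ∣ m → ¬ (3 : ℤ) ∣ q) {r : Fin Cfsg.Lie.chevG2.nroots}
    (hr : 6 ≤ r.val) (hev : (m : ℤ) ∣ ev (coord rcxG2) x r) : (m : ℤ) ∣ q - 1 ∨ (m : ℤ) ∣ q + 1 := by
  obtain ⟨M, hM, hchk⟩ := all_W (coord rcxG2) rowsOk okReps_G2 goG2 w hw
  unfold chkG2 at hchk
  rw [Bool.and_eq_true, List.all_eq_true] at hchk
  have h := hchk.2 _ (pc_mem r)
  rw [Bool.or_eq_true, Bool.or_eq_true] at h
  rcases h with (h | h) | h
  · have h4 : (m : ℤ) ∣ ev (coord rcxG2) x (w r) := by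
      have := dvd_add (hx r) (hev.mul_left q)
      rwa [sub_add_cancel] at this
    have h5 := two_roots (coord rcxG2) hprim (pc_rep r hr) (mc_spec (coord rcxG2) hw hM (pc_rep r hr)) hev h4
    obtain ⟨h6, h7⟩ := sm_le h h5
    interval_cases m
    · left; simp
    · have := h2 dvd_rfl; left; push_cast; omega
    · have := h3 dvd_rfl; push_cast; omega
  · left
    exact par (coord rcxG2) hprim hw hM hx (pc_rep r hr) (pc_bez r) hev h
  · right
    have := par (coord rcxG2) hprim hw hM hx (pc_rep r hr) (pc_bez r) hev h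
    rwa [sub_neg_eq_add] at this

end w

theorem dd_sm : ∀ r r' : Fin Cfsg.Lie.chevG2.nroots, 6 ≤ r.val → 6 ≤ r'.val → r ≠ r' →
    sm (dd (pc r.val).1 (pc r'.val).1) = true := by decide +kernel

theorem dd_7 : ∀ r : Fin Cfsg.Lie.chevG2.nroots, 6 ≤ r.val → r.val ≠ 7 → r.val ≠ 11 →
    (dd (pc 7).1 (pc r.val).1).natAbs = 1 := by decide +kernel

theorem dd_711 : (dd (pc 7).1 (pc 11).1).natAbs = 2 := by decide +kernel

include hprim in
theorem two {r r' : Fin Cfsg.Lie.chevG2.nroots} (hr : 6 ≤ r.val) (hr' : 6 ≤ r'.val)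
    (h : (m : ℤ) ∣ ev (coord rcxG2) x r) (h' : (m : ℤ) ∣ ev (coord rcxG2) x r') :
    (m : ℤ) ∣ dd (pc r.val).1 (pc r'.val).1 :=
  two_roots (coord rcxG2) hprim (pc_rep r hr) (pc_rep r' hr') h h'

end fun_

/-! ### exponents of unipotent elements -/

/-- functionals -/
def cf (a b : ℤ) : ℕ → ℤ := fun j => if j = 0 then a else b

theorem fr01_lo : ∀ s < 12, 6 ≤ s → s ≠ 7 → 1 ≤ fr rcxG2.rc (cf 0 1) s := by decide +kernel

theorem fr01_hi : ∀ s < 12, 6 ≤ s → fr rcxG2.rc (cf 0 1) s ≤ 2 := by decide +kernel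

theorem frm_lo : ∀ s < 12, 6 ≤ s → s = 7 ∨ s = 11 → 1 ≤ fr rcxG2.rc (cf 1 (-1)) s := by decide +kernel

theorem frm_hi : ∀ s < 12, 6 ≤ s → fr rcxG2.rc (cf 1 (-1)) s ≤ 2 := by decide +kernel

theorem fr11_lo : ∀ s < 12, 6 ≤ s → 1 ≤ fr rcxG2.rc (cf 1 1) s := by decide +kernel

theorem fr11_hi : ∀ s < 12, 6 ≤ s → fr rcxG2.rc (cf 1 1) s ≤ 5 := by decide +kernel

theorem pr_single {D : ChevalleyDatum} {K : Type*} [Field K] (R : Rel D K) {t : ℕ → K} (r0 : ℕ) :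
    ∀ m k, (∀ r, k ≤ r → r < k + m → r ≠ r0 → t r = 0) → ∃ s, pr R t k m = xg R r0 s := by
  intro m
  induction m with
  | zero => intro k _; exact ⟨0, by rw [xg_zero]; simp [pr]⟩
  | succ m ih =>
    intro k h
    obtain ⟨s, hs⟩ := ih (k + 1) fun r h1 h2 => h r (by omega) (by omega)
    rw [pr_succ, hs]
    by_cases hk : k = r0
    · subst hk; exact ⟨t k + s, by rw [xg_mul]⟩
    · rw [h k le_rfl (by omega) hk, xg_zero, one_mul]; exact ⟨s, rfl⟩

theorem xg_pow {D : ChevalleyDatum} {K : Type*} [Field K] (R : Rel D K) (p : ℕ) [CharP K p] (r : ℕ) (s : K) :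
    xg R r s ^ p = 1 := by
  have hpow : ∀ k : ℕ, xg R r s ^ k = xg R r (k * s) := by
    intro k
    induction k with
    | zero => rw [pow_zero, Nat.cast_zero, zero_mul, xg_zero]
    | succ k ih => rw [pow_succ, ih, xg_mul, Nat.cast_succ, add_mul, one_mul]
  rw [hpow, CharP.cast_eq_zero, zero_mul, xg_zero]

section uni

variable {K : Type*} [Field K] (R : Rel Cfsg.Lie.chevG2 K) (p : ℕ) [hp : Fact p.Prime] [CharP K p]
  {m : ℕ} {x : Fin 2 → ℤ}
  (hprim : ∀ c : ℤ, (∀ s : Fin Cfsg.Lie.chevG2.nroots, (m : ℤ) ∣ c * ev (coord rcxG2) x s) → (m : ℤ) ∣ c)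
  {t : ℕ → K} (ht : ∀ r : Fin Cfsg.Lie.chevG2.nroots, 6 ≤ r.val → t r ≠ 0 →
    (m : ℤ) ∣ ev (coord rcxG2) x r)

/-- general exponents -/
theorem exp_all {k : ℕ} (hk : 5 < p ^ k) : pr R t 6 6 ^ p ^ k = 1 :=
  pr_pow R p H22.ChevLex.lexG2 (cf 1 1) (fun s h1 h2 _ => fr11_lo s h2 h1)
    (fun s h1 h2 => by
      have := fr11_hi s h2 h1
      have h3 : (5 : ℤ) < (p ^ k : ℕ) := by exact_mod_cast hk
      omega)

include hprim ht in
theorem exp_odd (hp3 : 3 ≤ p) (hm : 1 < m) : pr R t 6 6 ^ p = 1 := by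
  have hpz : (3 : ℤ) ≤ (p ^ 1 : ℕ) := by rw [pow_one]; exact_mod_cast hp3
  by_cases h7 : t 7 = 0
  · have := pr_pow R p H22.ChevLex.lexG2 (cf 0 1) (k := 1) (t := t)
      (fun s h1 h2 h3 => fr01_lo s h2 h1 (by rintro rfl; exact h3 h7))
      (fun s h1 h2 => by have := fr01_hi s h2 h1; omega)
    rwa [pow_one] at this
  · have hα := ht ⟨7, by decide⟩ (by decide) h7
    have := pr_pow R p H22.ChevLex.lexG2 (cf 1 (-1)) (k := 1) (t := t)
      (fun s h1 h2 h3 => frm_lo s h2 h1 (by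
        by_contra hc
        rw [not_or] at hc
        have h4 := two hprim (r := ⟨7, by decide⟩) (r' := ⟨s, h2⟩) (by decide) h1 hα (ht ⟨s, h2⟩ h1 h3)
        have h5 := dd_7 ⟨s, h2⟩ h1 hc.1 hc.2
        have h6 : m ∣ 1 := by rw [← h5]; exact Int.natCast_dvd.1 h4
        have := Nat.le_of_dvd one_pos h6
        omega))
      (fun s h1 h2 => by have := frm_hi s h2 h1; omega)
    rwa [pow_one] at this

include hprim ht in
theorem exp_two (hp2 : p = 2) (hm : 1 < m) (hm2 : ¬ 2 ∣ m) :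
    pr R t 6 6 ^ 2 = 1 ∨ m = 3 ∧ pr R t 6 6 ^ 4 = 1 := by
  subst hp2
  -- support on one root
  have single : ∀ r0 : ℕ, (∀ r, 6 ≤ r → r < 6 + 6 → r ≠ r0 → t r = 0) → pr R t 6 6 ^ 2 = 1 := by
    intro r0 h
    obtain ⟨s, hs⟩ := pr_single R (t := t) r0 6 6 h
    rw [hs]; exact xg_pow R 2 r0 s
  by_cases h7 : t 7 = 0
  · by_cases h3 : m = 3
    · right
      refine ⟨h3, ?_⟩
      exact pr_pow R 2 H22.ChevLex.lexG2 (cf 0 1) (k := 2) (t := t)
        (fun s h1 h2 h3 => fr01_lo s h2 h1 (by rintro rfl; exact h3 h7))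
        (fun s h1 h2 => by have := fr01_hi s h2 h1; norm_num; omega)
    · left
      by_cases hall : ∀ r, 6 ≤ r → r < 6 + 6 → t r = 0
      · exact single 0 fun r h1 h2 _ => hall r h1 h2
      · push Not at hall
        obtain ⟨r0, h1, h2, h4⟩ := hall
        refine single r0 fun r h5 h6 hne => ?_
        by_contra h8
        have h9 := two hprim (r := ⟨r0, h2⟩) (r' := ⟨r, h6⟩) h1 h5 (ht ⟨r0, h2⟩ h1 h4) (ht ⟨r, h6⟩ h5 h8)
        have h10 := sm_le (dd_sm ⟨r0, h2⟩ ⟨r, h6⟩ h1 h5 (fun h => hne (congrArg Fin.val h).symm)) h9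
        have : m = 2 := by omega
        exact hm2 ⟨1, by omega⟩
  · left
    have hα := ht ⟨7, by decide⟩ (by decide) h7
    refine single 7 fun r h5 h6 hne => ?_
    by_contra h8
    have h9 := two hprim (r := ⟨7, by decide⟩) (r' := ⟨r, h6⟩) (by decide) h5 hα (ht ⟨r, h6⟩ h5 h8)
    by_cases h11 : r = 11
    · subst h11
      have h10 : m ∣ 2 := by rw [← dd_711]; exact Int.natCast_dvd.1 h9
      have := Nat.le_of_dvd two_pos h10
      exact hm2 ⟨1, by omega⟩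
    · have h10 : m ∣ 1 := by rw [← dd_7 ⟨r, h6⟩ h5 hne h11]; exact Int.natCast_dvd.1 h9
      have := Nat.le_of_dvd one_pos h10
      omega

end uni

end H47.SpecG2
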