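import Cfsg.Agent.Lib.H47.SpecG2

/-!
Element orders of the finite Chevalley groups of type G2.
-/

set_option autoImplicit false
set_option linter.unusedVariables false
set_option maxRecDepth 10000

namespace H47.SpecG2

open H22.RGD H22.Coord H22.RCCheck H22.RCComb H22.ChevTri H22.ChevRel H22.ChevSys H22.ChevMain
open H22.ChevStd H22.ChevSolv H22.ChevUni H47.ChevSub H47.Alcove H47.LangCent H47.TorAll H47.SemiTor
open H47.FixPt H22.ChevTorus H47.HomoTor H47.JorTor H47.UniFlag H22.LangChev H47.HomoCert H47.WEnum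
open H22.Poincare H47.MixEx H47.CertEx H47.CycW H22.PoinG2 H47.HomoData H47.MixUp H47.UniExp
open Cfsg.Lie (ChevalleyDatum)

section

variable {F : Type*} [Field F] [Fintype F] {p n : ℕ} (hp : p.Prime) (hF : Fintype.card F = p ^ n)

include hp hF in
theorem charp : CharP F p := by
  obtain ⟨r, hr⟩ := CharP.exists F
  obtain ⟨m, hpp, hm⟩ := FiniteField.card F r
  have h1 : r = p := by
    have h2 : r ∣ p ^ n := by rw [← hF, hm]; exact dvd_pow_self _ m.ne_zero
    exact (Nat.prime_dvd_prime_iff_eq hpp hp).1 (hpp.dvd_of_dvd_pow h2)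
  rwa [h1] at hr

include hp hF in
/-- the functional of an element -/
theorem get_fun {m k : ℕ} (hm : ¬ p ∣ m) (g : ↥(Cfsg.Lie.chevG2.group F)) (hg : orderOf g = m * p ^ k) :
    ∃ R : Rel Cfsg.Lie.chevG2 (AlgebraicClosure F),
    ∃ x : Fin 2 → ℤ, ∃ w ∈ (comb rcxG2).W, ∃ t : ℕ → AlgebraicClosure F,
      (∀ c : ℤ, (∀ s : Fin Cfsg.Lie.chevG2.nroots, (m : ℤ) ∣ c * ev (coord rcxG2) x s) → (m : ℤ) ∣ c) ∧
      (∀ s : Fin Cfsg.Lie.chevG2.nroots, (m : ℤ) ∣ ev (coord rcxG2) x (w s) -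
        ((p ^ n : ℕ) : ℤ) * ev (coord rcxG2) x s) ∧
      (∀ r : Fin Cfsg.Lie.chevG2.nroots, 6 ≤ r.val → t r ≠ 0 → (m : ℤ) ∣ ev (coord rcxG2) x r) ∧
      orderOf (pr R t 6 6) = p ^ k := by
  have : Fact p.Prime := ⟨hp⟩
  have := charp hp hF
  have : CharP (AlgebraicClosure F) p := charP_of_injective_algebraMap
    (algebraMap F (AlgebraicClosure F)).injective p
  have RF := H22.ChevAll.rel Cfsg.Lie.chevG2 (by simp) F
  have R := H22.ChevAll.rel Cfsg.Lie.chevG2 (by simp) (AlgebraicClosure F)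
  obtain ⟨h1, h2, h3⟩ := asc p RF R hF g
  obtain ⟨x, w, hw, t, h4, h5, h6, h7⟩ := mix_fun R p (X := rcxG2)
    (locFin_of_isAlgebraic (F := F) (K := AlgebraicClosure F) (p := p))
    H22.ChevLex.lexG2 (fun a ha haf => conn R ha haf) (fun a ha haf => triv R ha haf) n hm h1 h2
    (h3.trans hg)
  exact ⟨R, x, w, hw, t, h4, h5, h6, h7⟩

include hp hF in
/-- **Element orders.** -/
theorem upper (g : ↥(Cfsg.Lie.chevG2.group F)) :
    (orderOf g : ℤ) ∣ ((p ^ n : ℕ) : ℤ) ^ 2 - 1 ∨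
    (orderOf g : ℤ) ∣ ((p ^ n : ℕ) : ℤ) ^ 2 + (p ^ n : ℕ) + 1 ∨
    (orderOf g : ℤ) ∣ ((p ^ n : ℕ) : ℤ) ^ 2 - (p ^ n : ℕ) + 1 ∨
    (orderOf g : ℤ) ∣ p * (((p ^ n : ℕ) : ℤ) - 1) ∨
    (orderOf g : ℤ) ∣ p * (((p ^ n : ℕ) : ℤ) + 1) ∨
    ((p = 3 ∨ p = 5) ∧ orderOf g ∣ p ^ 2) ∨
    (p = 2 ∧ (orderOf g ∣ 8 ∨ orderOf g ∣ 12)) := by
  have : Fact p.Prime := ⟨hp⟩
  have := charp hp hF
  have : CharP (AlgebraicClosure F) p := charP_of_injective_algebraMap
    (algebraMap F (AlgebraicClosure F)).injective p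
  have : Finite ↥(Cfsg.Lie.chevG2.group F) := inferInstance
  have h0 : orderOf g ≠ 0 := (orderOf_pos g).ne'
  obtain ⟨k, m, hm, hord⟩ := Nat.exists_eq_pow_mul_and_not_dvd h0 p hp.ne_one
  rw [mul_comm] at hord
  obtain ⟨R, x, w, hw, t, h4, h5, h6, h7⟩ := get_fun hp hF hm g hord
  rw [hord]
  by_cases hm1 : m = 1
  · -- unipotent elements
    subst hm1
    rw [one_mul]
    have key : ∀ {j : ℕ}, 5 < p ^ j → p ^ k ∣ p ^ j := by
      intro j hj
      rw [← h7]
      exact orderOf_dvd_of_pow_eq_one (exp_all R p hj)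
    by_cases h2 : p = 2
    · right; right; right; right; right; right
      refine ⟨h2, Or.inl ?_⟩
      have := key (j := 3) (by rw [h2]; norm_num)
      rw [h2] at this ⊢; exact this
    · by_cases h35 : p = 3 ∨ p = 5
      · right; right; right; right; right; left
        refine ⟨h35, key (j := 2) ?_⟩
        rcases h35 with h | h <;> rw [h] <;> norm_num
      · right; right; right; left
        have h5 : 5 < p ^ 1 := by
          have h2' := hp.two_le
          have h4' : p ≠ 4 := by rintro rfl; exact absurd hp (by decide)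
          rw [not_or] at h35
          rw [pow_one]
          omega
        have := key h5
        rw [pow_one] at this
        exact (Int.natCast_dvd_natCast.2 this).mul_right _
  · have hm0 : m ≠ 0 := by rintro rfl; exact hm (dvd_zero _)
    have hm1' : 1 < m := by omega
    by_cases hk : k = 0
    · -- semisimple elements
      subst hk
      rw [pow_zero, mul_one]
      rcases semi h4 hw h5 with h | h | h
      · exact Or.inl h
      · exact Or.inr (Or.inl h)
      · exact Or.inr (Or.inr (Or.inl h))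
    · -- mixed elements
      have hnq : ∀ r : ℕ, r.Prime → r ∣ m → ¬ (r : ℤ) ∣ ((p ^ n : ℕ) : ℤ) := by
        intro r hr hrm h
        have h1 := (Nat.prime_dvd_prime_iff_eq hr hp).1 (hr.dvd_of_dvd_pow (Int.natCast_dvd_natCast.1 h))
        exact hm (h1 ▸ hrm)
      obtain ⟨r, hr6, hr12, hr⟩ : ∃ r, 6 ≤ r ∧ r < 6 + 6 ∧ t r ≠ 0 := by
        by_contra hc
        push Not at hc
        have h8 : pr R t 6 6 = 1 := by
          obtain ⟨s, hs⟩ := pr_single R (t := t) 100 6 6 fun r h1 h2 _ => hc r h1 h2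
          rw [hs]
          apply Units.ext
          rw [xg_val]
          unfold ChevalleyDatum.x
          rw [dif_neg (by decide)]; rfl
        rw [h8, orderOf_one] at h7
        have := Nat.one_lt_pow hk hp.one_lt
        omega
      have hpm := mixed h4 hw h5 (fun h => hnq 2 Nat.prime_two h) (fun h => hnq 3 Nat.prime_three h)
        (r := ⟨r, hr12⟩) hr6 (h6 ⟨r, hr12⟩ hr6 hr)
      -- from exponent `p`
      have fin : pr R t 6 6 ^ p = 1 → (((m * p ^ k : ℕ) : ℤ) ∣ p * (((p ^ n : ℕ) : ℤ) - 1) ∨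
          ((m * p ^ k : ℕ) : ℤ) ∣ p * (((p ^ n : ℕ) : ℤ) + 1)) := by
        intro h
        have h8 : p ^ k ∣ p := by rw [← h7]; exact orderOf_dvd_of_pow_eq_one h
        have h9 : ((p ^ k : ℕ) : ℤ) ∣ (p : ℤ) := Int.natCast_dvd_natCast.2 h8
        rcases hpm with h10 | h10
        · left; rw [Nat.cast_mul, mul_comm]; exact mul_dvd_mul h9 h10
        · right; rw [Nat.cast_mul, mul_comm]; exact mul_dvd_mul h9 h10
      by_cases h2 : p = 2
      · rcases exp_two R p h4 h6 h2 hm1' (by rw [← h2]; exact hm) with h | ⟨h, h'⟩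
        · rcases fin (by rw [h2]; exact h) with h | h
          · exact Or.inr (Or.inr (Or.inr (Or.inl h)))
          · exact Or.inr (Or.inr (Or.inr (Or.inr (Or.inl h))))
        · right; right; right; right; right; right
          refine ⟨h2, Or.inr ?_⟩
          have h8 : p ^ k ∣ 4 := by rw [← h7]; exact orderOf_dvd_of_pow_eq_one h'
          rw [h]
          exact mul_dvd_mul_left 3 h8
      · have hp3 : 3 ≤ p := by have := hp.two_le; omega
        rcases fin (exp_odd R p h4 h6 hp3 hm1') with h | h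
        · exact Or.inr (Or.inr (Or.inr (Or.inl h)))
        · exact Or.inr (Or.inr (Or.inr (Or.inr (Or.inl h))))

/-! ### existence -/

def cA : Ct := ⟨[0], [-1, 0], [[1, -1]], [[1, 1]]⟩

theorem okA : cA.ok rows 2 = true := by decide +kernel

include hp hF in
/-- elements of order `m` from a certificate -/
theorem ex_semi {m : ℕ} (hm : 0 < m) (hm2 : ¬ p ∣ m) (ct : Ct) (hct : ct.ok rows 2 = true)
    (hlen : 0 < ct.b.length) (hdvd : (m : ℤ) ∣ hz ct.P (p ^ n : ℕ)) :
    ∃ g : ↥(Cfsg.Lie.chevG2.group F), orderOf g = m := by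
  have : Fact p.Prime := ⟨hp⟩
  have := charp hp hF
  have : CharP (AlgebraicClosure F) p := charP_of_injective_algebraMap
    (algebraMap F (AlgebraicClosure F)).injective p
  exact cert_semi p (H22.ChevAll.rel Cfsg.Lie.chevG2 (by simp) F)
    (H22.ChevAll.rel Cfsg.Lie.chevG2 (by simp) (AlgebraicClosure F)) H22.ChevLex.lexG2 rowsOk hF hm hm2
    (by rw [dt1]; exact Nat.coprime_one_left m) ct hct hlen hdvd

/-- the functional vanishing on the highest root -/
def xh : Fin 2 → ℤ := fun j => if j.val = 0 then 2 else -3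

theorem xh_11 : ev (coord rcxG2) xh (⟨11, by decide⟩ : Fin Cfsg.Lie.chevG2.nroots) = 0 := by decide +kernel

theorem xh_refl : ∀ s : Fin Cfsg.Lie.chevG2.nroots,
    ev (coord rcxG2) xh ((comb rcxG2).refl (⟨0, by decide⟩ : Fin Cfsg.Lie.chevG2.rank) s) =
      - ev (coord rcxG2) xh s := by decide +kernel

theorem refl_11 : (comb rcxG2).refl (⟨0, by decide⟩ : Fin Cfsg.Lie.chevG2.rank)
    (⟨11, by decide⟩ : Fin Cfsg.Lie.chevG2.nroots) = ⟨11, by decide⟩ := by decide +kernel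

include hp hF in
theorem ex_mixed_sub {m : ℕ} (hm : 0 < m) (hm2 : ¬ p ∣ m) (hdvd : (m : ℤ) ∣ (p ^ n : ℕ) - 1) :
    ∃ g : ↥(Cfsg.Lie.chevG2.group F), orderOf g = m * p := by
  have : Fact p.Prime := ⟨hp⟩
  have := charp hp hF
  have : CharP (AlgebraicClosure F) p := charP_of_injective_algebraMap
    (algebraMap F (AlgebraicClosure F)).injective p
  refine exists_mixed p (H22.ChevAll.rel Cfsg.Lie.chevG2 (by simp) F)
    (H22.ChevAll.rel Cfsg.Lie.chevG2 (by simp) (AlgebraicClosure F)) H22.ChevLex.lexG2 hF hm hm2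
    (by rw [dt1]; exact Nat.coprime_one_left _) (w := 1) (one_mem _)
    (⟨11, by decide⟩ : Fin Cfsg.Lie.chevG2.nroots) rfl xh (fun j : Fin 2 => -1) (δ := 1)
    ?_ ?_ (by decide) isCoprime_one_left
  · rw [xh_11]; exact dvd_zero _
  · intro s
    have e : ev (coord rcxG2) xh ((1 : Equiv.Perm (Fin Cfsg.Lie.chevG2.nroots)) s) -
        ((p ^ n : ℕ) : ℤ) * ev (coord rcxG2) xh s =
        -(((p ^ n : ℕ) - 1 : ℤ) * ev (coord rcxG2) xh s) := by
      rw [Equiv.Perm.one_apply]; ring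
    rw [e, dvd_neg]; exact hdvd.mul_right _

include hp hF in
theorem ex_mixed_add {m : ℕ} (hm : 0 < m) (hm2 : ¬ p ∣ m) (hdvd : (m : ℤ) ∣ (p ^ n : ℕ) + 1) :
    ∃ g : ↥(Cfsg.Lie.chevG2.group F), orderOf g = m * p := by
  have : Fact p.Prime := ⟨hp⟩
  have := charp hp hF
  have : CharP (AlgebraicClosure F) p := charP_of_injective_algebraMap
    (algebraMap F (AlgebraicClosure F)).injective p
  refine exists_mixed p (H22.ChevAll.rel Cfsg.Lie.chevG2 (by simp) F)
    (H22.ChevAll.rel Cfsg.Lie.chevG2 (by simp) (AlgebraicClosure F)) H22.ChevLex.lexG2 hF hm hm2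
    (by rw [dt1]; exact Nat.coprime_one_left _)
    (w := (comb rcxG2).refl (⟨0, by decide⟩ : Fin Cfsg.Lie.chevG2.rank))
    (Subgroup.subset_closure ⟨_, rfl⟩)
    (⟨11, by decide⟩ : Fin Cfsg.Lie.chevG2.nroots) refl_11 xh (fun j : Fin 2 => -1) (δ := 1)
    ?_ ?_ (by decide) isCoprime_one_left
  · rw [xh_11]; exact dvd_zero _
  · intro s
    have e : ev (coord rcxG2) xh ((comb rcxG2).refl (⟨0, by decide⟩ : Fin Cfsg.Lie.chevG2.rank) s) -
        ((p ^ n : ℕ) : ℤ) * ev (coord rcxG2) xh s =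
        -(((p ^ n : ℕ) + 1 : ℤ) * ev (coord rcxG2) xh s) := by
      rw [xh_refl]; ring
    rw [e, dvd_neg]; exact hdvd.mul_right _

theorem word12 : MatWord.one? Cfsg.Lie.chevG2 2 (MatWord.pl Cfsg.Lie.chevG2 2
    (MatWord.wl Cfsg.Lie.chevG2 2 [0, 2, 9]) 12) = true := by decide +kernel

theorem word12a : MatWord.one? Cfsg.Lie.chevG2 2 (MatWord.pl Cfsg.Lie.chevG2 2
    (MatWord.wl Cfsg.Lie.chevG2 2 [0, 2, 9]) 6) = false := by decide +kernel

theorem word12b : MatWord.one? Cfsg.Lie.chevG2 2 (MatWord.pl Cfsg.Lie.chevG2 2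
    (MatWord.wl Cfsg.Lie.chevG2 2 [0, 2, 9]) 4) = false := by decide +kernel

theorem word8 : MatWord.one? Cfsg.Lie.chevG2 2 (MatWord.pl Cfsg.Lie.chevG2 2
    (MatWord.wl Cfsg.Lie.chevG2 2 [6, 7]) 8) = true := by decide +kernel

theorem word8a : MatWord.one? Cfsg.Lie.chevG2 2 (MatWord.pl Cfsg.Lie.chevG2 2
    (MatWord.wl Cfsg.Lie.chevG2 2 [6, 7]) 4) = false := by decide +kernel

theorem word9 : MatWord.one? Cfsg.Lie.chevG2 3 (MatWord.pl Cfsg.Lie.chevG2 3
    (MatWord.wl Cfsg.Lie.chevG2 3 [6, 7]) 9) = true := by decide +kernel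

theorem word9a : MatWord.one? Cfsg.Lie.chevG2 3 (MatWord.pl Cfsg.Lie.chevG2 3
    (MatWord.wl Cfsg.Lie.chevG2 3 [6, 7]) 3) = false := by decide +kernel

theorem word25 : MatWord.one? Cfsg.Lie.chevG2 5 (MatWord.pl Cfsg.Lie.chevG2 5
    (MatWord.wl Cfsg.Lie.chevG2 5 [6, 7]) 25) = true := by decide +kernel

theorem word25a : MatWord.one? Cfsg.Lie.chevG2 5 (MatWord.pl Cfsg.Lie.chevG2 5
    (MatWord.wl Cfsg.Lie.chevG2 5 [6, 7]) 5) = false := by decide +kernel

end

end H47.SpecG2
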