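import Cfsg.Agent.Lib.H47.SpecG2b

/-!
Element orders of the finite Chevalley groups of type G2: small orders and natural number forms.
-/

set_option autoImplicit false
set_option linter.unusedVariables false
set_option maxRecDepth 10000

namespace H47.SpecG2

open H47.HomoCert H47.MatWord
open Cfsg.Lie (ChevalleyDatum)

section

variable {F : Type*} [Field F] [Fintype F] {p n : ℕ}

theorem ex12 (hF : Fintype.card F = 2 ^ n) : ∃ g : ↥(Cfsg.Lie.chevG2.group F), orderOf g = 12 := by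
  have := charp Nat.prime_two hF
  refine exists_word Cfsg.Lie.chevG2 2 (H22.ChevAll.rel Cfsg.Lie.chevG2 (by simp) F) (w := [0, 2, 9])
    (by decide) (by norm_num) word12 ?_
  intro q hq h
  rw [show 12 = 2 ^ 2 * 3 from rfl, hq.dvd_mul] at h
  rcases h with h | h
  · rw [(Nat.prime_dvd_prime_iff_eq hq Nat.prime_two).1 (hq.dvd_of_dvd_pow h)]; exact word12a
  · rw [(Nat.prime_dvd_prime_iff_eq hq Nat.prime_three).1 h]; exact word12b

theorem ex8 (hF : Fintype.card F = 2 ^ n) : ∃ g : ↥(Cfsg.Lie.chevG2.group F), orderOf g = 8 := by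
  have := charp Nat.prime_two hF
  refine exists_word Cfsg.Lie.chevG2 2 (H22.ChevAll.rel Cfsg.Lie.chevG2 (by simp) F) (w := [6, 7])
    (by decide) (by norm_num) word8 ?_
  intro q hq h
  rw [show 8 = 2 ^ 3 from rfl] at h
  rw [(Nat.prime_dvd_prime_iff_eq hq Nat.prime_two).1 (hq.dvd_of_dvd_pow h)]; exact word8a

theorem ex9 (hF : Fintype.card F = 3 ^ n) : ∃ g : ↥(Cfsg.Lie.chevG2.group F), orderOf g = 9 := by
  have := charp Nat.prime_three hF
  refine exists_word Cfsg.Lie.chevG2 3 (H22.ChevAll.rel Cfsg.Lie.chevG2 (by simp) F) (w := [6, 7])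
    (by decide) (by norm_num) word9 ?_
  intro q hq h
  rw [show 9 = 3 ^ 2 from rfl] at h
  rw [(Nat.prime_dvd_prime_iff_eq hq Nat.prime_three).1 (hq.dvd_of_dvd_pow h)]; exact word9a

theorem ex25 (hF : Fintype.card F = 5 ^ n) : ∃ g : ↥(Cfsg.Lie.chevG2.group F), orderOf g = 25 := by
  have := charp Nat.prime_five hF
  refine exists_word Cfsg.Lie.chevG2 5 (H22.ChevAll.rel Cfsg.Lie.chevG2 (by simp) F) (w := [6, 7])
    (by decide) (by norm_num) word25 ?_
  intro q hq h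
  rw [show 25 = 5 ^ 2 from rfl] at h
  rw [(Nat.prime_dvd_prime_iff_eq hq Nat.prime_five).1 (hq.dvd_of_dvd_pow h)]; exact word25a

variable (hp : p.Prime) (hF : Fintype.card F = p ^ n) (hn : 1 ≤ n)

theorem toN {N M : ℕ} {z : ℤ} (h : (N : ℤ) ∣ z) (e : z = (M : ℤ)) : N ∣ M :=
  Int.natCast_dvd_natCast.1 (e ▸ h)

theorem ofN {N M : ℕ} {z : ℤ} (h : N ∣ M) (e : z = (M : ℤ)) : (N : ℤ) ∣ z :=
  e ▸ Int.natCast_dvd_natCast.2 h

include hp in
theorem eC : (((p ^ n : ℕ) : ℤ)) ^ 2 - 1 = ((p ^ (2 * n) - 1 : ℕ) : ℤ) := by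
  rw [Nat.cast_sub (Nat.one_le_pow _ _ hp.pos)]; push_cast; ring

theorem eD : (((p ^ n : ℕ) : ℤ)) ^ 2 + (p ^ n : ℕ) + 1 = ((p ^ (2 * n) + p ^ n + 1 : ℕ) : ℤ) := by
  push_cast; ring

include hp in
theorem eE : (((p ^ n : ℕ) : ℤ)) ^ 2 - (p ^ n : ℕ) + 1 = ((p ^ (2 * n) - p ^ n + 1 : ℕ) : ℤ) := by
  rw [Nat.cast_add, Nat.cast_sub (Nat.pow_le_pow_right hp.pos (by omega))]; push_cast; ring

include hp in
theorem eB : (p : ℤ) * (((p ^ n : ℕ) : ℤ) - 1) = ((p * (p ^ n - 1) : ℕ) : ℤ) := by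
  rw [Nat.cast_mul, Nat.cast_sub (Nat.one_le_pow _ _ hp.pos)]; push_cast; ring

theorem eA : (p : ℤ) * (((p ^ n : ℕ) : ℤ) + 1) = ((p * (p ^ n + 1) : ℕ) : ℤ) := by
  push_cast; ring

include hp hF in
/-- **Element orders.** -/
theorem upperN (g : ↥(Cfsg.Lie.chevG2.group F)) :
    orderOf g ∣ p ^ (2 * n) - 1 ∨ orderOf g ∣ p ^ (2 * n) + p ^ n + 1 ∨
    orderOf g ∣ p ^ (2 * n) - p ^ n + 1 ∨ orderOf g ∣ p * (p ^ n - 1) ∨
    orderOf g ∣ p * (p ^ n + 1) ∨ ((p = 3 ∨ p = 5) ∧ orderOf g ∣ p ^ 2) ∨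
    (p = 2 ∧ (orderOf g ∣ 8 ∨ orderOf g ∣ 12)) := by
  rcases upper hp hF g with h | h | h | h | h | h
  · exact Or.inl (toN h (eC hp))
  · exact Or.inr (Or.inl (toN h eD))
  · exact Or.inr (Or.inr (Or.inl (toN h (eE hp))))
  · exact Or.inr (Or.inr (Or.inr (Or.inl (toN h (eB hp)))))
  · exact Or.inr (Or.inr (Or.inr (Or.inr (Or.inl (toN h eA)))))
  · exact Or.inr (Or.inr (Or.inr (Or.inr (Or.inr h))))

include hp hn in
theorem nd1 : ¬ p ∣ p ^ (2 * n) - 1 := by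
  intro h
  have h1 : p ∣ p ^ (2 * n) := dvd_pow_self p (by omega)
  have h2 : 1 ≤ p ^ (2 * n) := Nat.one_le_pow _ _ hp.pos
  have h3 := (Nat.dvd_add_right h).1 (show p ∣ (p ^ (2 * n) - 1) + 1 by rwa [Nat.sub_add_cancel h2])
  exact hp.one_lt.ne' (Nat.dvd_one.1 h3)

include hp hn in
theorem nd2 : ¬ p ∣ p ^ (2 * n) + p ^ n + 1 := by
  intro h
  have h1 : p ∣ p ^ (2 * n) := dvd_pow_self p (by omega)
  have h2 : p ∣ p ^ n := dvd_pow_self p (by omega)
  have h3 := (Nat.dvd_add_right (dvd_add h1 h2)).1 h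
  exact hp.one_lt.ne' (Nat.dvd_one.1 h3)

include hp hn in
theorem nd3 : ¬ p ∣ p ^ (2 * n) - p ^ n + 1 := by
  intro h
  have h1 : p ∣ p ^ (2 * n) := dvd_pow_self p (by omega)
  have h2 : p ∣ p ^ n := dvd_pow_self p (by omega)
  have h3 := (Nat.dvd_add_right (Nat.dvd_sub h1 h2)).1 h
  exact hp.one_lt.ne' (Nat.dvd_one.1 h3)

include hp hn in
theorem nd4 : ¬ p ∣ p ^ n - 1 := by
  intro h
  have h1 : p ∣ p ^ n := dvd_pow_self p (by omega)
  have h2 : 1 ≤ p ^ n := Nat.one_le_pow _ _ hp.pos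
  have h3 := (Nat.dvd_add_right h).1 (show p ∣ (p ^ n - 1) + 1 by rwa [Nat.sub_add_cancel h2])
  exact hp.one_lt.ne' (Nat.dvd_one.1 h3)

include hp hn in
theorem nd5 : ¬ p ∣ p ^ n + 1 := by
  intro h
  have h1 : p ∣ p ^ n := dvd_pow_self p (by omega)
  exact hp.one_lt.ne' (Nat.dvd_one.1 ((Nat.dvd_add_right h1).1 h))

include hp hF hn in
theorem exC : ∃ g : ↥(Cfsg.Lie.chevG2.group F), orderOf g = p ^ (2 * n) - 1 := by
  have h1 : 2 ^ 1 ≤ p ^ (2 * n) := (Nat.pow_le_pow_left hp.two_le 1).trans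
    (Nat.pow_le_pow_right hp.pos (by omega))
  refine ex_semi hp hF (by omega) (nd1 hp hn) cA okA (by decide) ?_
  rw [← eC hp]
  have e : hz cA.P ((p ^ n : ℕ) : ℤ) = ((p ^ n : ℕ) : ℤ) ^ 2 - 1 := by simp only [cA, hz]; ring
  rw [e]

include hp hF hn in
theorem exD : ∃ g : ↥(Cfsg.Lie.chevG2.group F), orderOf g = p ^ (2 * n) + p ^ n + 1 := by
  refine ex_semi hp hF (by omega) (nd2 hp hn) H47.HomoG2.ct3 H47.HomoG2.ok3 (by decide) ?_
  rw [← eD]
  have e : hz H47.HomoG2.ct3.P ((p ^ n : ℕ) : ℤ) = ((p ^ n : ℕ) : ℤ) ^ 2 + (p ^ n : ℕ) + 1 := by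
    simp only [H47.HomoG2.ct3, hz]; ring
  rw [e]

include hp hF hn in
theorem exE : ∃ g : ↥(Cfsg.Lie.chevG2.group F), orderOf g = p ^ (2 * n) - p ^ n + 1 := by
  refine ex_semi hp hF (by omega) (nd3 hp hn) H47.HomoG2.ct6 H47.HomoG2.ok6 (by decide) ?_
  rw [← eE hp]
  have e : hz H47.HomoG2.ct6.P ((p ^ n : ℕ) : ℤ) = ((p ^ n : ℕ) : ℤ) ^ 2 - (p ^ n : ℕ) + 1 := by
    simp only [H47.HomoG2.ct6, hz]; ring
  rw [e]

include hp hF hn in
theorem exB (hq : 1 < p ^ n) : ∃ g : ↥(Cfsg.Lie.chevG2.group F), orderOf g = p * (p ^ n - 1) := by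
  obtain ⟨g, hg⟩ := ex_mixed_sub hp hF (m := p ^ n - 1) (by omega) (nd4 hp hn)
    (by rw [Nat.cast_sub (Nat.one_le_pow _ _ hp.pos)]; simp)
  exact ⟨g, by rw [hg, mul_comm]⟩

include hp hF hn in
theorem exA : ∃ g : ↥(Cfsg.Lie.chevG2.group F), orderOf g = p * (p ^ n + 1) := by
  obtain ⟨g, hg⟩ := ex_mixed_add hp hF (m := p ^ n + 1) (by omega) (nd5 hp hn) (by simp)
  exact ⟨g, by rw [hg, mul_comm]⟩

end

/-- no divisibilities -/
theorem anti {p n : ℕ} (hp : p.Prime) (hn : 1 ≤ n) (hq : 5 ≤ p ^ n) {X Y : ℕ}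
    (hX : X = p ^ (2 * n) - 1 ∨ X = p ^ (2 * n) + p ^ n + 1 ∨ X = p ^ (2 * n) - p ^ n + 1 ∨
      X = p * (p ^ n - 1) ∨ X = p * (p ^ n + 1) ∨ X = p ^ 2)
    (hY : Y = p ^ (2 * n) - 1 ∨ Y = p ^ (2 * n) + p ^ n + 1 ∨ Y = p ^ (2 * n) - p ^ n + 1 ∨
      Y = p * (p ^ n - 1) ∨ Y = p * (p ^ n + 1) ∨ Y = p ^ 2) (h : X ∣ Y) : X = Y := by
  have h1 := nd1 hp hn
  have h2 := nd2 hp hn
  have h3 := nd3 hp hn
  have h4 := nd4 hp hn
  have h5 := nd5 hp hn
  have hle : p ≤ p ^ n := by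
    calc p = p ^ 1 := (pow_one p).symm
      _ ≤ p ^ n := Nat.pow_le_pow_right hp.pos hn
  have hsq : p ^ (2 * n) = p ^ n * p ^ n := by rw [two_mul, pow_add]
  rw [hsq] at h1 h2 h3 hX hY
  have hdp : p ∣ p ^ n := dvd_pow_self p (by omega)
  generalize p ^ n = q at *
  have hqq : 5 * q ≤ q * q := Nat.mul_le_mul_right q hq
  have hp1 := hp.one_lt
  -- divisors of `p * b` coprime to `p`
  have cop : ∀ {Z b : ℕ}, ¬ p ∣ Z → Z ∣ p * b → Z ∣ b := fun hZ h =>
    ((Nat.Prime.coprime_iff_not_dvd hp).2 hZ).symm.dvd_of_dvd_mul_left h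
  have can : ∀ {a b : ℕ}, p * a ∣ p * b → a ∣ b := fun h => (Nat.mul_dvd_mul_iff_left hp.pos).1 h
  have le : ∀ {a b : ℕ}, a ∣ b → 0 < b → a ≤ b := fun h h' => Nat.le_of_dvd h' h
  rw [sq] at hX hY
  rcases hX with rfl | rfl | rfl | rfl | rfl | rfl <;> rcases hY with rfl | rfl | rfl | rfl | rfl | rfl
  · rfl
  · exfalso
    have e : q * q + q + 1 = (q * q - 1) + (q + 2) := by omega
    rw [e] at h
    have := le ((Nat.dvd_add_right dvd_rfl).1 h) (by omega)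
    omega
  · exfalso; have := le h (by omega); omega
  · exfalso; have := le (cop h1 h) (by omega); omega
  · exfalso; have := le (cop h1 h) (by omega); omega
  · exfalso
    have := le (cop h1 (show _ ∣ p * 1 by rw [mul_one]; exact cop h1 h)) one_pos; omega
  · exfalso; have := le h (by omega); omega
  · rfl
  · exfalso; have := le h (by omega); omega
  · exfalso; have := le (cop h2 h) (by omega); omega
  · exfalso; have := le (cop h2 h) (by omega); omega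
  · exfalso
    have := le (cop h2 (show _ ∣ p * 1 by rw [mul_one]; exact cop h2 h)) one_pos; omega
  · exfalso
    have e : q * q - 1 = (q * q - q + 1) + (q - 2) := by omega
    rw [e] at h
    have := le ((Nat.dvd_add_right dvd_rfl).1 h) (by omega)
    omega
  · exfalso
    have e : q * q + q + 1 = (q * q - q + 1) + 2 * q := by omega
    rw [e] at h
    have := le ((Nat.dvd_add_right dvd_rfl).1 h) (by omega)
    omega
  · rfl
  · exfalso; have := le (cop h3 h) (by omega); omega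
  · exfalso; have := le (cop h3 h) (by omega); omega
  · exfalso
    have := le (cop h3 (show _ ∣ p * 1 by rw [mul_one]; exact cop h3 h)) one_pos; omega
  · exact absurd ((dvd_mul_right p _).trans h) h1
  · exact absurd ((dvd_mul_right p _).trans h) h2
  · exact absurd ((dvd_mul_right p _).trans h) h3
  · rfl
  · exfalso
    have h6 := can h
    have e : q + 1 = (q - 1) + 2 := by omega
    rw [e] at h6
    have := le ((Nat.dvd_add_right dvd_rfl).1 h6) (by omega)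
    omega
  · exfalso
    have h6 := can h
    rcases (Nat.dvd_prime hp).1 h6 with h7 | h7
    · omega
    · exact h4 (h7 ▸ dvd_rfl)
  · exact absurd ((dvd_mul_right p _).trans h) h1
  · exact absurd ((dvd_mul_right p _).trans h) h2
  · exact absurd ((dvd_mul_right p _).trans h) h3
  · exfalso; have := le (can h) (by omega); omega
  · rfl
  · exfalso; have := le (can h) hp.pos; omega
  · exact absurd ((dvd_mul_right p _).trans h) h1
  · exact absurd ((dvd_mul_right p _).trans h) h2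
  · exact absurd ((dvd_mul_right p _).trans h) h3
  · exact absurd (can h) h4
  · exact absurd (can h) h5
  · rfl

end H47.SpecG2
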